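import Cfsg.Agent.H84.ChzT00
import Cfsg.Agent.H84.ChzT01
import Cfsg.Agent.H84.ChzT10
import Cfsg.Agent.H84.ChzT11

/-!
# Involution centralizer `(D₈ * Q₈).S₄`: the facts read off the four coset tables
-/

set_option autoImplicit false

namespace Cfsg.Agent.H84.Chz

open Subgroup Cfsg.Agent.H44 Cfsg.Agent.H70

variable {G : Type*} [Group G]

/-- The facts common to the four possible centralizers. -/
structure CH (H : Subgroup G) (z s t d e c : G) : Prop where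
  ms : s ∈ H
  mt : t ∈ H
  md : d ∈ H
  me : e ∈ H
  mc : c ∈ H
  gens : ∀ W : Subgroup G, (∀ y ∈ H, y * y = 1 → y ∈ W) → H ≤ W
  zz : z * z = 1
  ss : s * s = 1
  tt : t * t = 1
  dd : d * d = 1
  z1 : z ≠ 1
  s1 : s ≠ 1
  sz : s ≠ z
  t1 : t ≠ 1
  d1 : d ≠ 1
  r1 : d * e ≠ 1
  tsz : t * s * t = s * z
  r3 : (d * e) ^ 3 = 1
  inv : ∀ y ∈ H, y * y = 1 → y = 1 ∨ ∃ k ∈ H, k * k = y ∨ k * y * k⁻¹ = t ∨ k * y * k⁻¹ = d ∨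
    k * y * k⁻¹ = d * c
  invz : ∀ y ∈ H, y * y = 1 → y = 1 ∨ y = z ∨ ∃ k ∈ H, k * y * k⁻¹ = y * z
  ct : ∃ k ∈ H, k * c * k⁻¹ = t
  sylt : ∀ y ∈ H, y * t = t * y → y ^ 12 = 1 ∨ y ^ 12 = z
  syld : ∀ y ∈ H, y * d = d * y → y ^ 12 = 1 ∨ y ^ 12 = z
  sylf : d * c * (d * c) = 1 → ∀ y ∈ H, y * (d * c) = d * c * y → y ^ 6 = 1 ∨ y ^ 6 = z
  ut : ∃ k ∈ H, k * t = t * k ∧ k ^ 4 = z
  ud : ∃ k ∈ H, k * d = d * k ∧ k ^ 4 = z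
  uf : d * c * (d * c) = 1 → ∃ k ∈ H, k * (d * c) = d * c * k ∧ k ^ 2 = z

/-- The centralizer in `H` of two elements. -/
def cA (H : Subgroup G) (s a : G) : Subgroup G := H ⊓ centralizer {s} ⊓ centralizer {a}

theorem mem_cA {H : Subgroup G} {s a y : G} :
    y ∈ cA H s a ↔ y ∈ H ∧ y * s = s * y ∧ y * a = a * y := by
  simp only [cA, mem_inf, mem_centralizer_singleton_iff, and_assoc]

/-- The case of a Sylow subgroup of type `L₃(4)` in the subgroup of index four. -/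
structure CH0 (H : Subgroup G) (z s t a b : G) : Prop where
  ma : a ∈ cA H s a
  mb : b ∈ cA H s a
  ml : t * a * t ∈ cA H s (t * a * t)
  la : t * a * t ∉ cA H s a
  ea : ∀ y ∈ cA H s a, y * y = 1 ∧ ∃ k, k * k = y
  listA : ∀ y ∈ cA H s a, ∃ k ∈ cA H s a ⊓ cA H s (t * a * t),
    y = k ∨ y = k * a ∨ y = k * b ∨ y = k * (a * b)
  listZ : ∀ y ∈ cA H s a ⊓ cA H s (t * a * t), y = 1 ∨ y = z ∨ y = s ∨ y = s * z
  br : ∀ u, u = a ∨ u = b ∨ u = a * b → ∀ y ∈ cA H s (t * a * t),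
    u * y * u * y ∈ cA H s a ⊓ cA H s (t * a * t) ∧ (u * y = y * u → y ∈ cA H s a)
  surj : ∀ y ∈ cA H s a ⊓ cA H s (t * a * t), ∃ k ∈ cA H s a,
    k * (t * a * t) * k * (t * a * t) = y

/-- The case of a Sylow subgroup `Q₈ × Q₈` in the subgroup of index four. -/
structure CH1 (H : Subgroup G) (z s t d c p : G) : Prop where
  inv : ∀ y ∈ H, y * y = 1 → y = 1 ∨ y = z ∨ y = s ∨ y = s * z ∨ ∃ k ∈ H, k * y * k⁻¹ = t ∨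
    k * y * k⁻¹ = d ∨ k * y * k⁻¹ = d * c
  root1 : ∀ y ∈ H, y * y = s → ∃ k ∈ H, k * s = s * k ∧ (k * y * k⁻¹ = p ∨ k * y * k⁻¹ = p * z)
  root2 : ∀ y ∈ H, y * y = s → p * y = y * p ∨ p * y = s * (y * p)
  rootz : ∃ u ∈ H, ∃ k ∈ H, u * u * (u * u) = z ∧ k * k * (k * k) = z ∧
    u * u * (k * k) ≠ k * k * (u * u) ∧ u * u * (k * k) ≠ z * (k * k * (u * u))

/-- The facts for a centralizer. -/
def Cases (H : Subgroup G) (z s t d e c : G) : Prop :=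
  CH H z s t d e c ∧ ((∃ a b, CH0 H z s t a b) ∨ ∃ p, CH1 H z s t d c p)

theorem mg (g : ℕ → G) (i : ℕ) (h1 : 1 ≤ i := by norm_num) (h2 : i ≤ 9 := by norm_num) :
    g i ∈ gen g 9 := mem_gen g h1 h2

theorem CH.raw {g : ℕ → G}
    (sq : g 1 * g 1 = 1 ∧ g 2 * g 2 = 1 ∧ g 3 * g 3 = 1 ∧ g 4 * g 4 = 1 ∧ g 5 * g 5 = 1 ∧ g 6 * g 6 = 1 ∧ g 7 * g 7 = 1 ∧ g 8 * g 8 = 1 ∧ g 9 * g 9 = 1)
    (ne : g 9 ≠ 1 ∧ g 4 ≠ 1 ∧ g 4 ≠ g 9 ∧ g 8 ≠ 1 ∧ g 1 ≠ 1 ∧ g 1 * g 2 ≠ 1)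
    (tsz : g 8 * g 4 * g 8 = g 4 * g 9)
    (r3 : g 1 * g 2 * g 1 * g 2 * g 1 * g 2 = 1)
    (inv : ∀ y ∈ gen g 9, ∃ k ∈ gen g 9, y * y = 1 → (y = 1 ∨ k * k = y ∨ k * y = g 8 * k ∨ k * y = g 1 * k ∨ k * y = g 1 * g 7 * k))
    (invz : ∀ y ∈ gen g 9, ∃ k ∈ gen g 9, y * y = 1 → (y = 1 ∨ y = g 9 ∨ k * y = y * g 9 * k))
    (s3t : ∀ y ∈ gen g 9, ∃ k ∈ gen g 9, y = g 7 → k * y = g 8 * k)
    (sylt : ∀ y ∈ gen g 9, y * g 8 = g 8 * y → (y * y * y * y * y * y * y * y * y * y * y * y = 1 ∨ y * y * y * y * y * y * y * y * y * y * y * y = g 9))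
    (syld : ∀ y ∈ gen g 9, y * g 1 = g 1 * y → (y * y * y * y * y * y * y * y * y * y * y * y = 1 ∨ y * y * y * y * y * y * y * y * y * y * y * y = g 9))
    (sylf : ∀ y ∈ gen g 9, g 1 * g 7 * g 1 * g 7 = 1 → y * g 1 * g 7 = g 1 * g 7 * y → (y * y * y * y * y * y = 1 ∨ y * y * y * y * y * y = g 9))
    (ut : ∀ y ∈ gen g 9, ∃ k ∈ gen g 9, y = g 8 → (k * y = y * k ∧ k * k * k * k = g 9))
    (ud : ∀ y ∈ gen g 9, ∃ k ∈ gen g 9, y = g 1 → (k * y = y * k ∧ k * k * k * k = g 9))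
    (uf : ∀ y ∈ gen g 9, ∃ k ∈ gen g 9, y = g 1 * g 7 → y * y = 1 → (k * y = y * k ∧ k * k = g 9)) :
    CH (H44.gen g 9) (g 9) (g 4) (g 8) (g 1) (g 2) (g 7) := by
  obtain ⟨q1, q2, q3, q4, q5, q6, q7, q8, q9⟩ := sq
  obtain ⟨n1, n2, n3, n4, n5, n6⟩ := ne
  refine ⟨mg g 4, mg g 8, mg g 1, mg g 2, mg g 7, fun W hW => gen_le.2 fun i h1 h2 => ?_, q9, q4,
    q8, q1, n1, n2, n3, n4, n5, n6, tsz, by simpa only [pow_succ, pow_zero, one_mul, ← mul_assoc]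
      using r3, fun y hy e => ?_, fun y hy e => ?_, ?_, fun y hy e => ?_, fun y hy e => ?_,
    fun f y hy e => ?_, ?_, ?_, fun f => ?_⟩
  · refine hW _ (mem_gen g h1 h2) ?_
    interval_cases i <;> assumption
  · obtain ⟨k, hk, h⟩ := inv y hy
    simp only [mul_inv_eq_iff_eq_mul]
    exact (h e).imp_right fun h => ⟨k, hk, h⟩
  · obtain ⟨k, hk, h⟩ := invz y hy
    simp only [mul_inv_eq_iff_eq_mul]
    exact (h e).imp_right fun h => h.imp_right fun h => ⟨k, hk, h⟩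
  · obtain ⟨k, hk, h⟩ := s3t _ (mg g 7)
    exact ⟨k, hk, mul_inv_eq_iff_eq_mul.2 (h rfl)⟩
  · simpa only [pow_succ, pow_zero, one_mul] using sylt y hy e
  · simpa only [pow_succ, pow_zero, one_mul] using syld y hy e
  · simpa only [pow_succ, pow_zero, one_mul] using sylf y hy
      (by simpa only [← mul_assoc] using f) (by simpa only [← mul_assoc] using e)
  · obtain ⟨k, hk, h⟩ := ut _ (mg g 8)
    exact ⟨k, hk, by simpa only [pow_succ, pow_zero, one_mul] using h rfl⟩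
  · obtain ⟨k, hk, h⟩ := ud _ (mg g 1)
    exact ⟨k, hk, by simpa only [pow_succ, pow_zero, one_mul] using h rfl⟩
  · obtain ⟨k, hk, h⟩ := uf _ (mul_mem (mg g 1) (mg g 7))
    exact ⟨k, hk, by simpa only [pow_succ, pow_zero, one_mul] using h rfl f⟩

theorem CH0.raw {g : ℕ → G}
    (mem : g 1 * g 3 * g 4 = g 4 * g 1 * g 3 ∧ g 1 * g 2 * g 1 * g 3 * g 2 * g 1 * g 4 = g 4 * g 1 * g 2 * g 1 * g 3 * g 2 * g 1 ∧ g 1 * g 2 * g 1 * g 3 * g 2 * g 1 * g 1 * g 3 = g 1 * g 3 * g 1 * g 2 * g 1 * g 3 * g 2 * g 1 ∧ g 8 * g 1 * g 3 * g 8 * g 4 = g 4 * g 8 * g 1 * g 3 * g 8 ∧ g 8 * g 1 * g 3 * g 8 * g 1 * g 3 ≠ g 1 * g 3 * g 8 * g 1 * g 3 * g 8)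
    (eaA : ∀ y ∈ gen g 9, ∃ k ∈ gen g 9, y * g 4 = g 4 * y → y * g 1 * g 3 = g 1 * g 3 * y → (y * y = 1 ∧ k * k = y))
    (listA : ∀ y ∈ gen g 9, ∃ k ∈ gen g 9, y * g 4 = g 4 * y → y * g 1 * g 3 = g 1 * g 3 * y → ((k * g 4 = g 4 * k ∧ k * g 1 * g 3 = g 1 * g 3 * k ∧ k * g 8 * g 1 * g 3 * g 8 = g 8 * g 1 * g 3 * g 8 * k) ∧ (y = k ∨ y = k * g 1 * g 3 ∨ y = k * g 1 * g 2 * g 1 * g 3 * g 2 * g 1 ∨ y = k * g 1 * g 3 * g 1 * g 2 * g 1 * g 3 * g 2 * g 1)))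
    (listZ : ∀ y ∈ gen g 9, y * g 4 = g 4 * y → y * g 1 * g 3 = g 1 * g 3 * y → y * g 8 * g 1 * g 3 * g 8 = g 8 * g 1 * g 3 * g 8 * y → (y = 1 ∨ y = g 9 ∨ y = g 4 ∨ y = g 4 * g 9))
    (br1 : ∀ y ∈ gen g 9, y * g 4 = g 4 * y → y * g 8 * g 1 * g 3 * g 8 = g 8 * g 1 * g 3 * g 8 * y → ((g 1 * g 3 * y * g 1 * g 3 * y * g 4 = g 4 * g 1 * g 3 * y * g 1 * g 3 * y ∧ g 1 * g 3 * y * g 1 * g 3 * y * g 1 * g 3 = g 1 * g 3 * g 1 * g 3 * y * g 1 * g 3 * y ∧ g 1 * g 3 * y * g 1 * g 3 * y * g 8 * g 1 * g 3 * g 8 = g 8 * g 1 * g 3 * g 8 * g 1 * g 3 * y * g 1 * g 3 * y) ∧ (g 1 * g 3 * y = y * g 1 * g 3 → y * g 1 * g 3 = g 1 * g 3 * y)))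
    (br2 : ∀ y ∈ gen g 9, y * g 4 = g 4 * y → y * g 8 * g 1 * g 3 * g 8 = g 8 * g 1 * g 3 * g 8 * y → ((g 1 * g 2 * g 1 * g 3 * g 2 * g 1 * y * g 1 * g 2 * g 1 * g 3 * g 2 * g 1 * y * g 4 = g 4 * g 1 * g 2 * g 1 * g 3 * g 2 * g 1 * y * g 1 * g 2 * g 1 * g 3 * g 2 * g 1 * y ∧ g 1 * g 2 * g 1 * g 3 * g 2 * g 1 * y * g 1 * g 2 * g 1 * g 3 * g 2 * g 1 * y * g 1 * g 3 = g 1 * g 3 * g 1 * g 2 * g 1 * g 3 * g 2 * g 1 * y * g 1 * g 2 * g 1 * g 3 * g 2 * g 1 * y ∧ g 1 * g 2 * g 1 * g 3 * g 2 * g 1 * y * g 1 * g 2 * g 1 * g 3 * g 2 * g 1 * y * g 8 * g 1 * g 3 * g 8 = g 8 * g 1 * g 3 * g 8 * g 1 * g 2 * g 1 * g 3 * g 2 * g 1 * y * g 1 * g 2 * g 1 * g 3 * g 2 * g 1 * y) ∧ (g 1 * g 2 * g 1 * g 3 * g 2 * g 1 * y = y * g 1 * g 2 * g 1 * g 3 * g 2 * g 1 → y * g 1 * g 3 = g 1 * g 3 * y)))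
    (br3 : ∀ y ∈ gen g 9, y * g 4 = g 4 * y → y * g 8 * g 1 * g 3 * g 8 = g 8 * g 1 * g 3 * g 8 * y → ((g 1 * g 3 * g 1 * g 2 * g 1 * g 3 * g 2 * g 1 * y * g 1 * g 3 * g 1 * g 2 * g 1 * g 3 * g 2 * g 1 * y * g 4 = g 4 * g 1 * g 3 * g 1 * g 2 * g 1 * g 3 * g 2 * g 1 * y * g 1 * g 3 * g 1 * g 2 * g 1 * g 3 * g 2 * g 1 * y ∧ g 1 * g 3 * g 1 * g 2 * g 1 * g 3 * g 2 * g 1 * y * g 1 * g 3 * g 1 * g 2 * g 1 * g 3 * g 2 * g 1 * y * g 1 * g 3 = g 1 * g 3 * g 1 * g 3 * g 1 * g 2 * g 1 * g 3 * g 2 * g 1 * y * g 1 * g 3 * g 1 * g 2 * g 1 * g 3 * g 2 * g 1 * y ∧ g 1 * g 3 * g 1 * g 2 * g 1 * g 3 * g 2 * g 1 * y * g 1 * g 3 * g 1 * g 2 * g 1 * g 3 * g 2 * g 1 * y * g 8 * g 1 * g 3 * g 8 = g 8 * g 1 * g 3 * g 8 * g 1 * g 3 * g 1 * g 2 * g 1 * g 3 * g 2 * g 1 * y * g 1 * g 3 * g 1 * g 2 * g 1 * g 3 * g 2 * g 1 * y) ∧ (g 1 * g 3 *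 g 1 * g 2 * g 1 * g 3 * g 2 * g 1 * y = y * g 1 * g 3 * g 1 * g 2 * g 1 * g 3 * g 2 * g 1 → y * g 1 * g 3 = g 1 * g 3 * y)))
    (surj : ∀ y ∈ gen g 9, ∃ k ∈ gen g 9, y * g 4 = g 4 * y → y * g 1 * g 3 = g 1 * g 3 * y → y * g 8 * g 1 * g 3 * g 8 = g 8 * g 1 * g 3 * g 8 * y → (k * g 4 = g 4 * k ∧ k * g 1 * g 3 = g 1 * g 3 * k ∧ k * g 8 * g 1 * g 3 * g 8 * k * g 8 * g 1 * g 3 * g 8 = y)) :
    CH0 (H44.gen g 9) (g 9) (g 4) (g 8) (g 1 * g 3) (g 1 * g 2 * g 1 * g 3 * g 2 * g 1) := by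
  obtain ⟨m1, m2, m3, m4, m5⟩ := mem
  have a := mul_mem (mg g 1) (mg g 3)
  have b := mul_mem (mul_mem (mul_mem (mul_mem (mul_mem (mg g 1) (mg g 2)) (mg g 1)) (mg g 3))
    (mg g 2)) (mg g 1)
  refine ⟨?_, ?_, ?_, ?_, fun y hy => ?_, fun y hy => ?_, fun y hy => ?_, ?_, fun y hy => ?_⟩
  · simpa only [mem_cA, a, true_and, and_true, ← mul_assoc] using m1
  · simpa only [mem_cA, b, true_and, ← mul_assoc] using ⟨m2, m3⟩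
  · exact mem_cA.2 ⟨mul_mem (mul_mem (mg g 8) a) (mg g 8), by simpa only [← mul_assoc] using m4, rfl⟩
  · exact fun h => m5 (by simpa only [← mul_assoc] using (mem_cA.1 h).2.2)
  · simp only [mem_cA, ← mul_assoc] at hy
    obtain ⟨k, -, h⟩ := eaA y hy.1
    exact ⟨(h hy.2.1 hy.2.2).1, k, (h hy.2.1 hy.2.2).2⟩
  · simp only [mem_cA, mem_inf, ← mul_assoc] at hy ⊢
    obtain ⟨k, hk, h⟩ := listA y hy.1
    obtain ⟨⟨h1, h2, h3⟩, h4⟩ := h hy.2.1 hy.2.2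
    exact ⟨k, ⟨⟨hk, h1, h2⟩, hk, h1, h3⟩, h4⟩
  · simp only [mem_cA, mem_inf, ← mul_assoc] at hy
    exact listZ y hy.1.1 hy.1.2.1 hy.1.2.2 hy.2.2.2
  · have key : ∀ u ∈ H44.gen g 9, ∀ y ∈ H44.gen g 9, y * g 4 = g 4 * y →
        ((u * y * u * y * g 4 = g 4 * (u * y * u * y) ∧
          u * y * u * y * (g 1 * g 3) = g 1 * g 3 * (u * y * u * y) ∧
          u * y * u * y * (g 8 * (g 1 * g 3) * g 8) = g 8 * (g 1 * g 3) * g 8 * (u * y * u * y)) ∧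
          (u * y = y * u → y * (g 1 * g 3) = g 1 * g 3 * y)) →
        u * y * u * y ∈ cA (H44.gen g 9) (g 4) (g 1 * g 3) ⊓
          cA (H44.gen g 9) (g 4) (g 8 * (g 1 * g 3) * g 8) ∧
        (u * y = y * u → y ∈ cA (H44.gen g 9) (g 4) (g 1 * g 3)) := by
      rintro u hu y hy e ⟨⟨h1, h2, h3⟩, h4⟩
      have m := mul_mem (mul_mem (mul_mem hu hy) hu) hy
      exact ⟨⟨mem_cA.2 ⟨m, h1, h2⟩, mem_cA.2 ⟨m, h1, h3⟩⟩, fun c => mem_cA.2 ⟨hy, e, h4 c⟩⟩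
    rintro u (rfl | rfl | rfl) y hy <;> simp only [mem_cA, ← mul_assoc (G := G) y] at hy
    · exact key _ a y hy.1 hy.2.1 (by
        simpa only [← mul_assoc] using br1 y hy.1 hy.2.1 (by simpa only [← mul_assoc] using hy.2.2))
    · exact key _ b y hy.1 hy.2.1 (by
        simpa only [← mul_assoc] using br2 y hy.1 hy.2.1 (by simpa only [← mul_assoc] using hy.2.2))
    · exact key _ (mul_mem a b) y hy.1 hy.2.1 (by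
        simpa only [← mul_assoc] using br3 y hy.1 hy.2.1 (by simpa only [← mul_assoc] using hy.2.2))
  · simp only [mem_cA, mem_inf, ← mul_assoc] at hy ⊢
    obtain ⟨k, hk, h⟩ := surj y hy.1.1
    obtain ⟨h1, h2, h3⟩ := h hy.1.2.1 hy.1.2.2 hy.2.2.2
    exact ⟨k, ⟨hk, h1, h2⟩, h3⟩

theorem CH1.raw {g : ℕ → G}
    (inv1 : ∀ y ∈ gen g 9, ∃ k ∈ gen g 9, y * y = 1 → (y = 1 ∨ y = g 9 ∨ y = g 4 ∨ y = g 4 * g 9 ∨ k * y = g 8 * k ∨ k * y = g 1 * k ∨ k * y = g 1 * g 7 * k))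
    (root1 : ∀ y ∈ gen g 9, ∃ k ∈ gen g 9, y * y = g 4 → (k * g 4 = g 4 * k ∧ (k * y = g 1 * g 3 * g 5 * g 7 * k ∨ k * y = g 1 * g 3 * g 5 * g 7 * g 9 * k)))
    (root2 : ∀ y ∈ gen g 9, y * y = g 4 → (g 1 * g 3 * g 5 * g 7 * y = y * g 1 * g 3 * g 5 * g 7 ∨ g 1 * g 3 * g 5 * g 7 * y = g 4 * y * g 1 * g 3 * g 5 * g 7))
    (rootz : ∀ y ∈ gen g 9, ∃ k ∈ gen g 9, y = g 1 * g 5 → (y * y * y * y = g 9 ∧ k * k * k * k = g 9 ∧ y * y * k * k ≠ k * k * y * y ∧ y * y * k * k ≠ g 9 * k * k * y * y)) :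
    CH1 (H44.gen g 9) (g 9) (g 4) (g 8) (g 1) (g 7) (g 1 * g 3 * g 5 * g 7) := by
  refine ⟨fun y hy e => ?_, fun y hy e => ?_, fun y hy e => ?_, ?_⟩
  · obtain ⟨k, hk, h⟩ := inv1 y hy
    simp only [mul_inv_eq_iff_eq_mul]
    exact (h e).imp_right fun h => h.imp_right fun h => h.imp_right fun h => h.imp_right fun h =>
      ⟨k, hk, h⟩
  · obtain ⟨k, hk, h⟩ := root1 y hy
    simp only [mul_inv_eq_iff_eq_mul]
    exact ⟨k, hk, h e⟩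
  · simpa only [← mul_assoc] using root2 y hy e
  · have m := mul_mem (mg g 1) (mg g 5)
    obtain ⟨k, hk, h⟩ := rootz _ m
    generalize g 1 * g 5 = u at *
    exact ⟨u, m, k, hk, by simpa only [← mul_assoc] using h rfl⟩

theorem cases00 [Finite G] {g : ℕ → G} (hg : Sat g TC00.R) (hc : Nat.card (gen g 9) = 768) :
    Cases (gen g 9) (g 9) (g 4) (g 8) (g 1) (g 2) (g 7) := by
  have h := TC00.reg hg inferInstance hc.ge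
  exact ⟨CH.raw (TC00.sq h) (TC00.ne h) (TC00.tsz h) (TC00.r3 h) (TC00.inv h) (TC00.invz h) (TC00.s3t h) (TC00.sylt h) (TC00.syld h) (TC00.sylf h) (TC00.ut h) (TC00.ud h) (TC00.uf h),
    Or.inl ⟨_, _, CH0.raw (TC00.mem h) (TC00.eaA h) (TC00.listA h) (TC00.listZ h) (TC00.br1 h) (TC00.br2 h) (TC00.br3 h) (TC00.surj h)⟩⟩

theorem cases01 [Finite G] {g : ℕ → G} (hg : Sat g TC01.R) (hc : Nat.card (gen g 9) = 768) :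
    Cases (gen g 9) (g 9) (g 4) (g 8) (g 1) (g 2) (g 7) := by
  have h := TC01.reg hg inferInstance hc.ge
  exact ⟨CH.raw (TC01.sq h) (TC01.ne h) (TC01.tsz h) (TC01.r3 h) (TC01.inv h) (TC01.invz h) (TC01.s3t h) (TC01.sylt h) (TC01.syld h) (TC01.sylf h) (TC01.ut h) (TC01.ud h) (TC01.uf h),
    Or.inr ⟨_, CH1.raw (TC01.inv1 h) (TC01.root1 h) (TC01.root2 h) (TC01.rootz h)⟩⟩

theorem cases10 [Finite G] {g : ℕ → G} (hg : Sat g TC10.R) (hc : Nat.card (gen g 9) = 768) :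
    Cases (gen g 9) (g 9) (g 4) (g 8) (g 1) (g 2) (g 7) := by
  have h := TC10.reg hg inferInstance hc.ge
  exact ⟨CH.raw (TC10.sq h) (TC10.ne h) (TC10.tsz h) (TC10.r3 h) (TC10.inv h) (TC10.invz h) (TC10.s3t h) (TC10.sylt h) (TC10.syld h) (TC10.sylf h) (TC10.ut h) (TC10.ud h) (TC10.uf h),
    Or.inl ⟨_, _, CH0.raw (TC10.mem h) (TC10.eaA h) (TC10.listA h) (TC10.listZ h) (TC10.br1 h) (TC10.br2 h) (TC10.br3 h) (TC10.surj h)⟩⟩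

theorem cases11 [Finite G] {g : ℕ → G} (hg : Sat g TC11.R) (hc : Nat.card (gen g 9) = 768) :
    Cases (gen g 9) (g 9) (g 4) (g 8) (g 1) (g 2) (g 7) := by
  have h := TC11.reg hg inferInstance hc.ge
  exact ⟨CH.raw (TC11.sq h) (TC11.ne h) (TC11.tsz h) (TC11.r3 h) (TC11.inv h) (TC11.invz h) (TC11.s3t h) (TC11.sylt h) (TC11.syld h) (TC11.sylf h) (TC11.ut h) (TC11.ud h) (TC11.uf h),
    Or.inr ⟨_, CH1.raw (TC11.inv1 h) (TC11.root1 h) (TC11.root2 h) (TC11.rootz h)⟩⟩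

end Cfsg.Agent.H84.Chz
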