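import Cfsg.Agent.H84.ChzDefs
import Cfsg.Agent.H49.Syl
import Cfsg.Agent.H62.CITBasic

/-!
# Involution centralizer `(D₈ * Q₈).S₄`: fusion and transfer onto a four-group
-/

set_option autoImplicit false

namespace Cfsg.Agent.H84.Chz

open Subgroup Cfsg.Agent.H49 Cfsg.Agent.H98 Cfsg.Agent.H62

variable {G : Type*} [Group G] [Finite G]

theorem transfer_invol {H : Subgroup G} (hH : Odd H.index) {A : Type*} [CommGroup A] (φ : H →* A)
    {x : G} (xx : x * x = 1) {ε : A} (hε : ε * ε = 1)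
    (h1 : ∀ (g : G) (m : g * x * g⁻¹ ∈ H), φ ⟨_, m⟩ = ε) : φ.transfer x = ε := by
  classical
  have := Fintype.ofFinite (Quotient (MulAction.orbitRel (Subgroup.zpowers x) (G ⧸ H)))
  have he : ε = ε ^ H.index := by
    obtain ⟨k, hk⟩ := hH
    rw [hk, pow_succ, pow_mul, pow_two, hε, one_pow, one_mul]
  rw [MonoidHom.transfer_eq_prod_quotient_orbitRel_zpowers_quot, he,
    Subgroup.index_eq_sum_minimalPeriod H x, ← Finset.prod_pow_eq_pow_sum]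
  refine Finset.prod_congr rfl fun q _ => ?_
  have hdvd : Function.minimalPeriod (x • ·) q.out ∣ 2 := by
    rw [← MulAction.pow_smul_eq_iff_minimalPeriod_dvd, pow_two, xx, one_smul]
  have hmem := QuotientGroup.out_conj_pow_minimalPeriod_mem H x q.out
  rcases (Nat.dvd_prime Nat.prime_two).mp hdvd with hk | hk
  · simp only [hk, pow_one] at hmem ⊢
    simpa using h1 (q.out.out)⁻¹ (by simpa using hmem)
  · simp only [hk, pow_two, xx, hε, mul_one, inv_mul_cancel]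
    exact map_one φ

/-- `z` is the only nontrivial `m`-th power in `C(z, y)`, and is one of a 2-element. -/
structure Syl (z y : G) (m : ℕ) : Prop where
  z1 : z ≠ 1
  ex : ∃ u ∈ centralizer ({z} : Set G), u * y = y * u ∧ Is2 u ∧ u ^ m = z
  all : ∀ x ∈ centralizer ({z} : Set G), x * y = y * x → x ^ m = 1 ∨ x ^ m = z

namespace Syl

variable {z y : G} {m : ℕ} (h : Syl z y m)
include h

omit [Finite G] in
theorem conj_mem {g u : G} (um : u ^ m = z) (h1 : g * u * g⁻¹ ∈ centralizer ({z} : Set G))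
    (h2 : g * u * g⁻¹ * y = y * (g * u * g⁻¹)) : g ∈ centralizer ({z} : Set G) := by
  have := h.all _ h1 h2
  rw [conj_pow, um, mul_inv_eq_iff_eq_mul, mul_inv_eq_iff_eq_mul] at this
  exact mem_centralizer_singleton_iff.2 (this.resolve_left fun e => h.z1 (by simpa using e))

theorem exists_conj {v : G} (hv : v * y = y * v) (v2 : Is2 v) :
    ∃ c, c * y = y * c ∧ c * v * c⁻¹ ∈ centralizer ({z} : Set G) := by
  have : Fact (Nat.Prime 2) := ⟨Nat.prime_two⟩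
  obtain ⟨u, hu, uy, u2, um⟩ := h.ex
  obtain ⟨T, hT, hle⟩ := exists_sylIn_ge (H := centralizer {z} ⊓ centralizer {y})
    (zpowers_le.2 ⟨hu, mem_centralizer_singleton_iff.2 uy⟩) u2.isPGroup_zpowers
  have hT' : SylIn 2 T (centralizer {y}) := sylIn_of_normalizer_le hT (hT.le.trans inf_le_right)
    fun g hg hn => by
      have := hT.le (conj_mem_of_mem_normalizer hn (hle (mem_zpowers u)))
      exact ⟨h.conj_mem um this.1 (mem_centralizer_singleton_iff.1 this.2), hg⟩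
  obtain ⟨c, hc, hle⟩ := hT'.exists_conj_le (zpowers_le.2 (mem_centralizer_singleton_iff.2 hv))
    v2.isPGroup_zpowers
  exact ⟨c, mem_centralizer_singleton_iff.1 hc, (hT.le (hle ⟨v, mem_zpowers v, rfl⟩)).1⟩

theorem exists_conj' {g v : G} (hv : v * (g * y * g⁻¹) = g * y * g⁻¹ * v) (v2 : Is2 v) :
    ∃ k, k * (g * y * g⁻¹) * k⁻¹ = y ∧ k * v * k⁻¹ ∈ centralizer ({z} : Set G) := by
  obtain ⟨n, hn⟩ := v2
  obtain ⟨c, hc, hm⟩ := h.exists_conj (v := g⁻¹ * v * g⁻¹⁻¹) (by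
    calc g⁻¹ * v * g⁻¹⁻¹ * y = g⁻¹ * (v * (g * y * g⁻¹)) * g := by group
      _ = _ := by rw [hv]; group) ⟨n, by rw [conj_pow, hn]; group⟩
  refine ⟨c * g⁻¹, ?_, by rwa [show c * g⁻¹ * v * (c * g⁻¹)⁻¹ = c * (g⁻¹ * v * g⁻¹⁻¹) * c⁻¹ by group]⟩
  rw [show c * g⁻¹ * (g * y * g⁻¹) * (c * g⁻¹)⁻¹ = c * y * c⁻¹ by group, hc, mul_inv_cancel_right]

theorem fus {g v : G} (hv : v * (g * y * g⁻¹) = g * y * g⁻¹ * v) (v2 : Is2 v) (vm : v ^ m = z) :
    ∃ k ∈ centralizer ({z} : Set G), k * (g * y * g⁻¹) * k⁻¹ = y := by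
  obtain ⟨k, h1, h2⟩ := h.exists_conj' hv v2
  refine ⟨k, h.conj_mem vm h2 ?_, h1⟩
  rw [← h1, conj_mul, conj_mul, hv]

theorem sq {g v : G} (yy : y * y = 1) (hv : v * v = g * y * g⁻¹) :
    ∃ k ∈ centralizer ({z} : Set G), k * k = y := by
  obtain ⟨k, h1, h2⟩ := h.exists_conj' (g := g) (v := v) (by rw [← hv, mul_assoc]) ⟨2, by
    rw [pow_two 2, pow_mul, pow_two, pow_two, hv, conj_mul, yy]; group⟩
  exact ⟨_, h2, by rw [conj_mul, hv, h1]⟩

end Syl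

theorem sq_four (a : ℤˣ × ℤˣ) : a * a = 1 := by revert a; decide

namespace CH

variable {z s t d e c : G} (h : CH (centralizer {z}) z s t d e c)
include h

omit [Finite G] in
theorem pw {k : G} {n : ℕ} (hk : k ^ 2 ^ n = z) : Is2 k ∧ k ^ (2 ^ n * 3) = z :=
  ⟨⟨n + 1, by rw [pow_succ, pow_mul, hk, pow_two, h.zz]⟩, by
    rw [pow_mul, hk, pow_three, h.zz, mul_one]⟩

omit [Finite G] in
theorem syl_t : Syl z t 12 :=
  ⟨h.z1, h.ut.imp fun _ hk => ⟨hk.1, hk.2.1, h.pw (n := 2) hk.2.2⟩, h.sylt⟩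

omit [Finite G] in
theorem syl_d : Syl z d 12 :=
  ⟨h.z1, h.ud.imp fun _ hk => ⟨hk.1, hk.2.1, h.pw (n := 2) hk.2.2⟩, h.syld⟩

omit [Finite G] in
theorem syl_f (ff : d * c * (d * c) = 1) : Syl z (d * c) 6 :=
  ⟨h.z1, (h.uf ff).imp fun _ hk => ⟨hk.1, hk.2.1, h.pw (n := 1) hk.2.2⟩, h.sylf ff⟩

theorem fusion {y : G} (hy : Syl z y 12) (yy : y * y = 1) (y1 : y ≠ 1) {g : G}
    (hg : g * y * g⁻¹ ∈ centralizer ({z} : Set G)) : (∃ k ∈ centralizer ({z} : Set G), k * k = y) ∨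
      ∃ k ∈ centralizer ({z} : Set G), k * (g * y * g⁻¹) * k⁻¹ = y := by
  have e1 : g * y * g⁻¹ * (g * y * g⁻¹) = 1 := by rw [conj_mul, yy]; group
  have key : ∀ k ∈ centralizer ({z} : Set G), ∀ w, Syl z w 12 → k * (g * y * g⁻¹) * k⁻¹ = w →
      ∃ k ∈ centralizer ({z} : Set G), k * (g * y * g⁻¹) * k⁻¹ = y := by
    intro k hk w hw e
    obtain ⟨u, -, uw, u2, um⟩ := hw.ex
    have e' : k * g * y * (k * g)⁻¹ = w := by rw [← e]; group
    obtain ⟨l, hl, e2⟩ := hy.fus (g := k * g) (by rw [e', uw]) u2 um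
    exact ⟨l * k, mul_mem hl hk, Eq.trans (by group) e2⟩
  rcases h.inv _ hg e1 with e | ⟨k, hk, e | e | e | e⟩
  · exact absurd (by simpa using e) y1
  · exact Or.inl (hy.sq yy e)
  · exact Or.inr (key k hk t h.syl_t e)
  · exact Or.inr (key k hk d h.syl_d e)
  · have ff : d * c * (d * c) = 1 := by rw [← e, conj_mul, e1]; group
    obtain ⟨u, -, uy, ⟨n, hn⟩, um⟩ := hy.ex
    have e' : (k * g)⁻¹ * (d * c) * (k * g)⁻¹⁻¹ = y := by rw [← e]; group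
    obtain ⟨l, hl, e2⟩ := (h.syl_f ff).fus (g := (k * g)⁻¹) (v := u ^ 2)
      (by rw [e']; exact (Commute.pow_left uy 2).eq) ⟨n, by rw [← pow_mul, mul_comm, pow_mul, hn, one_pow]⟩
      (by rw [← pow_mul]; exact um)
    rw [e'] at e2
    refine Or.inr ⟨l⁻¹ * k, mul_mem (inv_mem hl) hk, ?_⟩
    rw [show l⁻¹ * k * (g * y * g⁻¹) * (l⁻¹ * k)⁻¹ = l⁻¹ * (k * (g * y * g⁻¹) * k⁻¹) * l by group,
      e, ← e2]
    group

theorem exists_V (hodd : Odd (centralizer ({z} : Set G)).index)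
    {φ : centralizer ({z} : Set G) →* ℤˣ × ℤˣ} (ht : ∀ m, φ ⟨t, m⟩ = (1, -1))
    (hd : ∀ m, φ ⟨d, m⟩ = (-1, -1)) : ∃ V : G →* ℤˣ × ℤˣ, ∀ y : centralizer ({z} : Set G), V y = φ y := by
  have val : ∀ y (m : y ∈ centralizer ({z} : Set G)), Syl z y 12 → y * y = 1 → φ ⟨y, m⟩ ≠ 1 →
      φ.transfer y = φ ⟨y, m⟩ := by
    intro y m hy yy hne
    refine transfer_invol hodd φ yy (sq_four _) fun g hg => ?_
    rcases h.fusion hy yy (fun e => hne (by subst e; exact map_one φ)) hg with ⟨k, hk, e⟩ | ⟨k, hk, e⟩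
    · exact absurd (by
        rw [show (⟨y, m⟩ : centralizer ({z} : Set G)) = ⟨k, hk⟩ * ⟨k, hk⟩ from Subtype.ext e.symm,
          map_mul, sq_four]) hne
    · rw [show (⟨y, m⟩ : centralizer ({z} : Set G)) = ⟨k, hk⟩ * ⟨_, hg⟩ * ⟨k, hk⟩⁻¹ from
        Subtype.ext e.symm, map_mul, map_mul, map_inv, mul_inv_cancel_comm]
  let ψ : centralizer ({z} : Set G) →* ℤˣ × ℤˣ := φ.transfer.comp (Subgroup.subtype _) * φ
  have hψ : ∀ y, ψ y = 1 ↔ φ.transfer y = φ y := fun y => by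
    change φ.transfer y * φ y = 1 ↔ _
    rw [mul_eq_one_iff_eq_inv, inv_eq_of_mul_eq_one_left (sq_four (φ y))]
  have cj : ∀ y k w (my : y ∈ centralizer ({z} : Set G)) (_ : k ∈ centralizer ({z} : Set G))
      (mw : w ∈ centralizer ({z} : Set G)), k * y * k⁻¹ = w → ψ ⟨y, my⟩ = ψ ⟨w, mw⟩ :=
    fun y k w my mk mw e => by
      rw [show (⟨w, mw⟩ : centralizer ({z} : Set G)) = ⟨k, mk⟩ * ⟨y, my⟩ * ⟨k, mk⟩⁻¹ from
        Subtype.ext e.symm, map_mul, map_mul, map_inv, mul_inv_cancel_comm]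
  have pt : ψ ⟨t, h.mt⟩ = 1 := (hψ _).2 (val t _ h.syl_t h.tt (by rw [ht]; decide))
  have pd : ψ ⟨d, h.md⟩ = 1 := (hψ _).2 (val d _ h.syl_d h.dd (by rw [hd]; decide))
  have pf : ψ ⟨d * c, mul_mem h.md h.mc⟩ = 1 := by
    obtain ⟨k, hk, e⟩ := h.ct
    rw [show (⟨d * c, mul_mem h.md h.mc⟩ : centralizer ({z} : Set G)) = ⟨d, h.md⟩ * ⟨c, h.mc⟩ from rfl,
      map_mul, pd, cj c k t _ hk h.mt e, pt, one_mul]
  refine ⟨φ.transfer, fun y => (hψ y).1 ?_⟩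
  obtain ⟨w, hw, e⟩ := h.gens (ψ.ker.map (Subgroup.subtype _)) (fun y hy yy => ⟨⟨y, hy⟩, by
    change ψ _ = 1
    rcases h.inv y hy yy with rfl | ⟨k, hk, e | e | e | e⟩
    · exact map_one ψ
    · rw [show (⟨y, hy⟩ : centralizer ({z} : Set G)) = ⟨k, hk⟩ * ⟨k, hk⟩ from Subtype.ext e.symm,
        map_mul, sq_four]
    · rw [cj y k _ hy hk h.mt e, pt]
    · rw [cj y k _ hy hk h.md e, pd]
    · rw [cj y k _ hy hk (mul_mem h.md h.mc) e, pf], rfl⟩) y.2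
  rwa [← show w = y from Subtype.ext e]

end CH

end Cfsg.Agent.H84.Chz
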