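import Cfsg.Agent.H84.S4
import Cfsg.Agent.H9.Dihedral
import Cfsg.Agent.H3.Cores
import Cfsg.Agent.H84.CoreOf
import Cfsg.Prelude.Def_CaseTheorems

/-!
A dihedral group over a small elementary abelian normal 2-subgroup, modulo the odd core.
-/

set_option autoImplicit false

namespace Cfsg.Agent.H84

open Cfsg

variable {H : Type*} [Group H]

theorem eq_one_of_conj_eq_mul {r v c : H} {n : ℕ} (hn : Odd n) (hc : c * c = 1)
    (hrc : Commute r c) (hv : r * v * r⁻¹ = v * c) (h : Commute (r ^ n) v) : c = 1 := by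
  have key : ∀ k : ℕ, r ^ k * v * (r ^ k)⁻¹ = v * c ^ k := by
    intro k
    induction k with
    | zero => simp
    | succ k ih =>
      calc r ^ (k + 1) * v * (r ^ (k + 1))⁻¹ = r * (r ^ k * v * (r ^ k)⁻¹) * r⁻¹ := by group
        _ = (r * v * r⁻¹) * (r * c ^ k * r⁻¹) := by rw [ih]; group
        _ = _ := by rw [hv, (hrc.pow_right k).eq]; group
  have := key n
  obtain ⟨k, rfl⟩ := hn
  rw [h.eq, mul_inv_cancel_right, pow_succ, pow_mul, sq, hc, one_pow, one_mul] at this
  exact (mul_eq_left.mp this.symm)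

/-- `H` is generated by the elementary abelian normal subgroup `Q` and two involutions whose
product has odd order modulo `Q`. -/
structure DihData (Q : Subgroup H) (a b : H) (n : ℕ) : Prop where
  normal : Q.Normal
  sq : ∀ q ∈ Q, q * q = 1
  odd : Odd n
  aa : a * a = 1
  bb : b * b = 1
  gen : ∀ K : Subgroup H, Q ≤ K → a ∈ K → b ∈ K → K = ⊤
  pow : (a * b) ^ n ∈ Q

namespace DihData

variable {Q : Subgroup H} {a b : H} {n : ℕ} (h : DihData Q a b n)
include h

theorem inverts : a * (a * b) * a⁻¹ = (a * b)⁻¹ := by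
  rw [← mul_assoc, h.aa, one_mul, mul_inv_rev, inv_eq_of_mul_eq_one_right h.bb]

theorem le_centralizer : Q ≤ Subgroup.centralizer (Q : Set H) := by
  intro x hx y hy
  have h1 := h.sq _ (Q.mul_mem hx hy)
  calc y * x = y * x * (x * y * (x * y)) := by rw [h1, mul_one]
    _ = y * (x * x) * y * (x * y) := by group
    _ = x * y := by rw [h.sq x hx, mul_one, h.sq y hy, one_mul]

theorem closure_eq_top {K : Subgroup H} [K.Normal] (hK : Q ≤ K) :
    Subgroup.closure ({((a * b : H) : H ⧸ K), (a : H ⧸ K)} : Set (H ⧸ K)) = ⊤ := by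
  have := h.gen ((Subgroup.closure ({((a * b : H) : H ⧸ K), (a : H ⧸ K)} : Set (H ⧸ K))).comap
    (QuotientGroup.mk' K)) (fun q hq => by
      rw [Subgroup.mem_comap, QuotientGroup.mk'_apply, (QuotientGroup.eq_one_iff q).mpr (hK hq)]
      exact Subgroup.one_mem _) (Subgroup.subset_closure (by simp)) (by
      rw [Subgroup.mem_comap, show b = a⁻¹ * (a * b) by group, map_mul, map_inv]
      exact Subgroup.mul_mem _ (Subgroup.inv_mem _ (Subgroup.subset_closure (by simp)))
        (Subgroup.subset_closure (by simp)))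
  exact Subgroup.comap_injective (QuotientGroup.mk'_surjective K) (by rw [this, Subgroup.comap_top])

theorem mem_cases (g : H) : ∃ k : ℤ, ∃ q ∈ Q, g = (a * b) ^ k * q ∨ g = (a * b) ^ k * a * q := by
  have := h.normal
  have h1 : (g : H ⧸ Q) ∈ Subgroup.closure
      ({((a * b : H) : H ⧸ Q), (a : H ⧸ Q)} : Set (H ⧸ Q)) := by
    rw [h.closure_eq_top le_rfl]; trivial
  rw [H9.mem_closure_pair_iff_of_inverts (by
      rw [← QuotientGroup.mk_inv, ← QuotientGroup.mk_mul, ← QuotientGroup.mk_mul, h.inverts]; rfl)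
    (by rw [← QuotientGroup.mk_mul, h.aa]; exact Subgroup.one_mem _)] at h1
  rcases h1 with ⟨k, hk⟩ | ⟨k, hk⟩
  · rw [← QuotientGroup.mk_zpow, eq_comm, QuotientGroup.eq] at hk
    exact ⟨k, _, hk, Or.inl (by group)⟩
  · rw [← QuotientGroup.mk_zpow, ← QuotientGroup.mk_mul, eq_comm, QuotientGroup.eq] at hk
    exact ⟨k, _, hk, Or.inr (by group)⟩

theorem index_eq {K : Subgroup H} [K.Normal] (hK : Q ≤ K) {m : ℕ}
    (hm : orderOf ((a * b : H) : H ⧸ K) = m)
    (ha : (a : H ⧸ K) ∉ Subgroup.zpowers ((a * b : H) : H ⧸ K)) : K.index = 2 * m := by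
  obtain ⟨e⟩ := H9.closure_equiv_dihedral _ _ hm (by rw [← QuotientGroup.mk_mul, h.aa]; rfl) (by
    rw [← QuotientGroup.mk_inv, ← QuotientGroup.mk_mul, ← QuotientGroup.mk_mul, h.inverts]; rfl) ha
  rw [h.closure_eq_top hK] at e
  rw [Subgroup.index, ← DihedralGroup.nat_card, ← Nat.card_congr e.toEquiv, Subgroup.card_top]

theorem ord (g : H) : g * g ∈ Q ∨ g ^ n ∈ Q := by
  have := h.normal
  obtain ⟨k, q, hq, rfl | rfl⟩ := h.mem_cases g
  · right
    rw [← QuotientGroup.eq_one_iff, QuotientGroup.mk_pow, QuotientGroup.mk_mul,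
      (QuotientGroup.eq_one_iff q).mpr hq, mul_one, QuotientGroup.mk_zpow, ← zpow_natCast,
      ← zpow_mul, mul_comm, zpow_mul, zpow_natCast, ← QuotientGroup.mk_pow,
      (QuotientGroup.eq_one_iff _).mpr h.pow, one_zpow]
  · left
    rw [← QuotientGroup.eq_one_iff, QuotientGroup.mk_mul, QuotientGroup.mk_mul _ _ q,
      (QuotientGroup.eq_one_iff q).mpr hq, mul_one, ← QuotientGroup.mk_mul, mul_assoc,
      ← mul_assoc a, H9.mul_zpow_of_inverts h.inverts, mul_assoc, h.aa]
    simp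

variable [Finite H]

omit h in
theorem eq_one_of_mem_oddCore {x : H} (hx : x ∈ oddCore H) (h2 : x * x = 1) : x = 1 := by
  rw [← orderOf_eq_one_iff]
  exact Nat.eq_one_of_dvd_coprimes (H3.pPrimeCore_coprime 2 H) (Subgroup.orderOf_dvd_natCard _ hx)
    (orderOf_dvd_of_pow_eq_one (by rw [pow_two, h2]))

theorem commute_of_mem_oddCore {x q : H} (hx : x ∈ oddCore H) (hq : q ∈ Q) : Commute x q := by
  have := h.normal
  exact Subgroup.commute_of_normal_of_disjoint _ _ inferInstance h.normal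
    (Subgroup.disjoint_def.mpr fun h1 h2 => eq_one_of_mem_oddCore h1 (h.sq _ h2)) _ _ hx hq

theorem sup_le_centralizer : Q ⊔ oddCore H ≤ Subgroup.centralizer (Q : Set H) :=
  sup_le h.le_centralizer fun _ hx _ hq => (h.commute_of_mem_oddCore hx hq).symm.eq

theorem pow_mem_sup {m : ℕ} (hm : (a * b) ^ m ∈ Subgroup.centralizer (Q : Set H)) :
    (a * b) ^ m ∈ Q ⊔ oddCore H := by
  have hN : (Subgroup.zpowers (((a * b) ^ m) ^ 2)).Normal := by
    rw [← Subgroup.normalizer_eq_top_iff]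
    have key : ∀ c : H, c * (a * b) * c⁻¹ = (a * b)⁻¹ →
        c ∈ Subgroup.normalizer (Subgroup.zpowers (((a * b) ^ m) ^ 2) : Set H) := by
      intro c hc
      refine Subgroup.mem_normalizer_fintype ?_
      rintro _ ⟨k, rfl⟩
      simp only
      rw [← conj_zpow, ← conj_pow, ← conj_pow, hc, inv_pow, inv_pow]
      exact Subgroup.zpow_mem _ (Subgroup.inv_mem _ (Subgroup.mem_zpowers _)) _
    refine h.gen _ (fun q hq => Subgroup.mem_normalizer_fintype ?_) (key a h.inverts) (key b ?_)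
    · rintro _ ⟨k, rfl⟩
      simp only
      rw [(Subgroup.zpow_mem _ (Subgroup.pow_mem _ hm 2) k) q hq, mul_inv_cancel_right]
      exact ⟨k, rfl⟩
    · rw [← mul_assoc, mul_inv_cancel_right, mul_inv_rev, inv_eq_of_mul_eq_one_right h.aa,
        inv_eq_of_mul_eq_one_right h.bb]
  have h1 : ((a * b) ^ m) ^ 2 ∈ oddCore H := by
    refine H3.le_pPrimeCore (N := Subgroup.zpowers _) ?_ (Subgroup.mem_zpowers _)
    rw [Nat.card_zpowers]
    refine Nat.Coprime.coprime_dvd_left (orderOf_dvd_of_pow_eq_one (n := n) ?_)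
      (Nat.coprime_two_right.mpr h.odd)
    rw [← pow_mul, ← pow_mul, show m * (2 * n) = n * 2 * m by ring, pow_mul, pow_mul, pow_two,
      h.sq _ h.pow, one_pow]
  obtain ⟨k, hk⟩ := h.odd
  have h2 : ((a * b) ^ m) ^ n ∈ Q := by
    rw [← pow_mul, mul_comm, pow_mul]
    exact Q.pow_mem h.pow m
  rw [hk, pow_succ, pow_mul] at h2
  exact (Subgroup.mul_mem_cancel_left _ (Subgroup.pow_mem _ (Subgroup.mem_sup_right h1) k)).mp
    (Subgroup.mem_sup_left h2)

theorem card_quotient : Nat.card (H ⧸ oddCore H) = Nat.card Q * (Q ⊔ oddCore H).index := by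
  rw [← Subgroup.index, ← Subgroup.relIndex_mul_index (le_sup_right : oddCore H ≤ Q ⊔ oddCore H),
    Subgroup.relIndex_sup_right, ← Subgroup.inf_relIndex_right,
    show oddCore H ⊓ Q = ⊥ from eq_bot_iff.mpr fun x hx =>
      eq_one_of_mem_oddCore hx.1 (h.sq _ hx.2), Subgroup.relIndex_bot_left]

/-- The case `|Q| = 2`. -/
theorem nonempty_four (hQ : Nat.card Q = 2) (ha : a ∉ Q)
    (hac : a ∈ Subgroup.centralizer (Q : Set H)) (hbc : b ∈ Subgroup.centralizer (Q : Set H)) :
    Nonempty (H ⧸ oddCore H ≃* Multiplicative (ZMod 2) × Multiplicative (ZMod 2)) := by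
  have := h.normal
  have hr : a * b ∈ Q ⊔ oddCore H := by
    simpa using h.pow_mem_sup (m := 1) (by simpa using Subgroup.mul_mem _ hac hbc)
  have hr' : ((a * b : H) : H ⧸ (Q ⊔ oddCore H)) = 1 := (QuotientGroup.eq_one_iff _).mpr hr
  have haK : a ∉ Q ⊔ oddCore H := by
    intro haK
    rw [← SetLike.mem_coe, Subgroup.mul_normal] at haK
    obtain ⟨q, hq, o, ho, e⟩ := haK
    simp only at e
    have h1 : o = q⁻¹ * a := by rw [← e]; group
    have : o = 1 := eq_one_of_mem_oddCore ho (by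
      rw [h1, inv_eq_of_mul_eq_one_right (h.sq q hq), mul_assoc, ← mul_assoc a, ← hac q hq,
        mul_assoc, h.aa, mul_one, h.sq q hq])
    rw [this, mul_one] at e
    exact ha (e ▸ hq)
  have hc := h.card_quotient
  rw [h.index_eq le_sup_left (m := 1) (by rw [hr', orderOf_one]) (by
    rwa [hr', Subgroup.zpowers_one_eq_bot, Subgroup.mem_bot, QuotientGroup.eq_one_iff]), hQ] at hc
  have hsq : ∀ g : H ⧸ oddCore H, g ^ 2 = 1 := by
    intro g
    obtain ⟨g, rfl⟩ := QuotientGroup.mk_surjective g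
    have key : ∀ w ∈ Q ⊔ oddCore H, ∃ q ∈ Q, (w : H ⧸ oddCore H) = q := by
      intro w hw
      rw [← SetLike.mem_coe, Subgroup.mul_normal] at hw
      obtain ⟨q, hq, o, ho, rfl⟩ := hw
      exact ⟨q, hq, by
        simp only [QuotientGroup.mk_mul, (QuotientGroup.eq_one_iff o).mpr ho, mul_one]⟩
    obtain ⟨k, q, hq, rfl | rfl⟩ := h.mem_cases g
    · obtain ⟨q', hq', e⟩ := key _ (Subgroup.mul_mem _ (Subgroup.zpow_mem _ hr k)
        (Subgroup.mem_sup_left hq))
      rw [e, pow_two, ← QuotientGroup.mk_mul, h.sq _ hq', QuotientGroup.mk_one]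
    · obtain ⟨q', hq', e⟩ := key _ (Subgroup.mul_mem _ (Subgroup.zpow_mem _ hr k)
        (Subgroup.mem_sup_left hq))
      rw [mul_assoc, ← hac q hq, ← mul_assoc, QuotientGroup.mk_mul, e, ← QuotientGroup.mk_mul,
        pow_two,
        ← QuotientGroup.mk_mul, mul_assoc, ← mul_assoc a, ← hac q' hq', mul_assoc, h.aa, mul_one,
        h.sq _ hq', QuotientGroup.mk_one]
  have : Nontrivial (H ⧸ oddCore H) := Finite.one_lt_card_iff_nontrivial.mp (by omega)
  have : IsKleinFour (H ⧸ oddCore H) :=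
    ⟨hc, (Monoid.exponent_eq_prime_iff Nat.prime_two).mpr fun g hg =>
      orderOf_eq_prime (hsq g) hg⟩
  have : IsKleinFour (Multiplicative (ZMod 2) × Multiplicative (ZMod 2)) :=
    ⟨by simp, (Monoid.exponent_eq_prime_iff Nat.prime_two).mpr fun g hg =>
      orderOf_eq_prime (by revert g; decide) hg⟩
  exact IsKleinFour.nonempty_mulEquiv

section three

variable (h3 : (a * b) ^ 3 ∈ Subgroup.centralizer (Q : Set H))
  (h1 : a * b ∉ Subgroup.centralizer (Q : Set H))
include h3 h1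

theorem centralizer_le : Subgroup.centralizer (Q : Set H) ≤ Q ⊔ oddCore H := by
  have := h.normal
  have hC : (Subgroup.centralizer (Q : Set H)).Normal := inferInstance
  have key : ∀ k : ℤ, (a * b) ^ k ∈ Subgroup.centralizer (Q : Set H) → 3 ∣ k := by
    intro k hk
    by_contra hn
    apply h1
    have h3' : (a * b) ^ (3 : ℤ) ∈ Subgroup.centralizer (Q : Set H) := by exact_mod_cast h3
    obtain ⟨u, v, e⟩ : IsCoprime (3 : ℤ) k := (Int.prime_three.coprime_iff_not_dvd).mpr hn
    rw [← zpow_one (a * b), ← e, zpow_add, mul_comm u, mul_comm v, zpow_mul, zpow_mul]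
    exact Subgroup.mul_mem _ (Subgroup.zpow_mem _ h3' _) (Subgroup.zpow_mem _ hk _)
  intro g hg
  obtain ⟨k, q, hq, rfl | rfl⟩ := h.mem_cases g
  · obtain ⟨j, rfl⟩ := key k ((Subgroup.mul_mem_cancel_right _ (h.le_centralizer hq)).mp hg)
    rw [zpow_mul]
    refine Subgroup.mul_mem _ (Subgroup.zpow_mem _ ?_ _) (Subgroup.mem_sup_left hq)
    exact_mod_cast h.pow_mem_sup h3
  · exfalso
    have h4 := (Subgroup.mul_mem_cancel_right _ (h.le_centralizer hq)).mp hg
    have h5 := Subgroup.mul_mem _ (hC.conj_mem _ h4 (a * b)) (Subgroup.inv_mem _ h4)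
    have e : a * (a * b)⁻¹ * a⁻¹ = a * b := by rw [← conj_inv, h.inverts, inv_inv]
    generalize a * b = r at *
    rw [show r * (r ^ k * a) * r⁻¹ * (r ^ k * a)⁻¹ = r ^ (k + 1) * (a * r⁻¹ * a⁻¹) * r ^ (-k) by
      group, e, show r ^ (k + 1) * r * r ^ (-k) = r ^ (2 : ℤ) by group] at h5
    exact absurd (key 2 h5) (by decide)

theorem not_mem_zpowers [Q.Normal] : (a : H ⧸ (Q ⊔ oddCore H)) ∉
    Subgroup.zpowers ((a * b : H) : H ⧸ (Q ⊔ oddCore H)) := by
  have hr : ((a * b : H) : H ⧸ (Q ⊔ oddCore H)) ^ 3 = 1 := by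
    rw [← QuotientGroup.mk_pow, QuotientGroup.eq_one_iff]
    exact h.pow_mem_sup h3
  rintro ⟨k, hk⟩
  simp only at hk
  refine h1 (h.sup_le_centralizer ((QuotientGroup.eq_one_iff _).mp ?_))
  have e := congrArg (fun x : H => (x : H ⧸ (Q ⊔ oddCore H))) h.inverts
  simp only [QuotientGroup.mk_mul _ (a * (a * b)), QuotientGroup.mk_mul _ a (a * b),
    QuotientGroup.mk_inv] at e
  generalize ((a * b : H) : H ⧸ (Q ⊔ oddCore H)) = r at *
  rw [← hk, show r ^ k * r * (r ^ k)⁻¹ = r by group] at e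
  calc r = r ^ 3 * (r * r)⁻¹ := by group
    _ = 1 := by rw [hr, mul_eq_one_iff_eq_inv.mpr e]; simp

theorem index_sup : (Q ⊔ oddCore H).index = 6 := by
  have := h.normal
  have : Fact (Nat.Prime 3) := ⟨Nat.prime_three⟩
  refine h.index_eq le_sup_left (orderOf_eq_prime (p := 3) ?_ fun e =>
    h1 (h.sup_le_centralizer ((QuotientGroup.eq_one_iff _).mp e))) (h.not_mem_zpowers h3 h1)
  rw [← QuotientGroup.mk_pow, QuotientGroup.eq_one_iff]
  exact h.pow_mem_sup h3

/-- An element of order six modulo the odd core has its cube in `Q`, and centralizes no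
subgroup of index two of `Q`. -/
theorem exists_of_orderOf_six {g : H} (hg : orderOf (g : H ⧸ oddCore H) = 6) :
    ∃ q ∈ Q, q ≠ 1 ∧ (g : H ⧸ oddCore H) ^ 3 = q ∧ Commute g q ∧
      2 < (Subgroup.centralizer {g}).relIndex Q := by
  have := h.normal
  have hn : g ^ n ∈ Q := (h.ord g).resolve_left fun hq => by
    have : 6 ∣ 4 := by
      rw [← hg, orderOf_dvd_iff_pow_eq_one, ← QuotientGroup.mk_pow,
        show g ^ 4 = g * g * (g * g) by simp [pow_succ, mul_assoc], h.sq _ hq,
        QuotientGroup.mk_one]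
    omega
  have h6 : 6 ∣ n + n := by
    rw [← hg, orderOf_dvd_iff_pow_eq_one, ← QuotientGroup.mk_pow, pow_add, h.sq _ hn,
      QuotientGroup.mk_one]
  obtain ⟨k, hk⟩ : ∃ k, n = 6 * k + 3 := by
    obtain ⟨k, hk⟩ := h.odd
    exact ⟨n / 6, by omega⟩
  have e : (g : H ⧸ oddCore H) ^ 3 = (g ^ n : H) := by
    rw [QuotientGroup.mk_pow, hk, pow_add, pow_mul, ← hg, pow_orderOf_eq_one, one_pow, one_mul]
  refine ⟨_, hn, fun e' => ?_, e, (Commute.refl g).pow_right n, ?_⟩
  · rw [e', QuotientGroup.mk_one, ← orderOf_dvd_iff_pow_eq_one, hg] at e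
    omega
  by_contra hi
  have hgC : g ∈ Subgroup.centralizer (Q : Set H) := by
    intro v hv
    by_contra hv'
    have hv2 : ∀ w ∈ Q, w ∈ Subgroup.centralizer {g} ↔ w * g = g * w := fun w _ =>
      Subgroup.mem_centralizer_singleton_iff
    have hi2 : (Subgroup.centralizer {g}).relIndex Q = 2 := by
      have h0 : (Subgroup.centralizer {g}).relIndex Q ≠ 0 := Subgroup.FiniteIndex.index_ne_zero
      have h1 : (Subgroup.centralizer {g}).relIndex Q ≠ 1 := fun e =>
        hv' ((hv2 v hv).mp (Subgroup.relIndex_eq_one.mp e hv))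
      omega
    have hv3 : g * v * g⁻¹ ∈ Q := h.normal.conj_mem v hv g
    have := (Subgroup.mul_mem_iff_of_index_two hi2 (a := ⟨v, hv⟩) (b := ⟨_, hv3⟩)).mpr (by
      simp only [Subgroup.mem_subgroupOf, Subgroup.mem_centralizer_singleton_iff]
      refine iff_of_false hv' fun e => hv' ?_
      rw [inv_mul_cancel_right, mul_assoc, mul_right_inj] at e
      rw [eq_comm, ← mul_inv_eq_iff_eq_mul, mul_assoc, ← e])
    have hc : v * (g * v * g⁻¹) = 1 := eq_one_of_conj_eq_mul h.odd (h.sq _ (Q.mul_mem hv hv3))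
      (Subgroup.mem_centralizer_singleton_iff.mp this).symm (v := v)
      (by rw [← mul_assoc, h.sq v hv, one_mul]) (h.le_centralizer hn v hv).symm
    apply hv'
    rw [eq_comm, ← mul_inv_eq_iff_eq_mul, ← inv_eq_of_mul_eq_one_right hc,
      inv_eq_of_mul_eq_one_right (h.sq v hv)]
  have hK := h.centralizer_le h3 h1 hgC
  rw [← SetLike.mem_coe, Subgroup.mul_normal] at hK
  obtain ⟨q, hq, o, ho, rfl⟩ := hK
  have : 6 ∣ 2 := by
    rw [← hg, orderOf_dvd_iff_pow_eq_one]
    simp only [QuotientGroup.mk_mul, (QuotientGroup.eq_one_iff o).mpr ho, mul_one]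
    rw [pow_two, ← QuotientGroup.mk_mul, h.sq q hq, QuotientGroup.mk_one]
  omega

theorem nonempty_S4 (hQ : Nat.card Q = 4) : Nonempty (H ⧸ oddCore H ≃* Equiv.Perm (Fin 4)) := by
  refine H29.nonempty_mulEquiv_S4 (by rw [h.card_quotient, h.index_sup h3 h1, hQ]) fun g hg => ?_
  obtain ⟨g, rfl⟩ := QuotientGroup.mk_surjective g
  obtain ⟨q, hq, hq1, -, hc, hi⟩ := h.exists_of_orderOf_six h3 h1 hg
  have e := H3.card_inf_mul_relIndex (Subgroup.centralizer {g}) Q
  have : 1 < Nat.card (Subgroup.centralizer {g} ⊓ Q : Subgroup H) :=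
    (Subgroup.one_lt_card_iff_ne_bot _).mpr fun e => hq1 (Subgroup.mem_bot.mp (e ▸ ⟨
      Subgroup.mem_centralizer_singleton_iff.mpr hc.symm, hq⟩))
  nlinarith

theorem nonempty_S4_two (hQ : Nat.card Q = 8) {c z : H} (hc : c ∈ Q) (hz : z ∈ Q)
    (hcZ : c ∈ Subgroup.center H) (hc1 : c ≠ 1) (hcz : c ≠ z)
    (hsq : ∀ q ∈ Q, q * a * (q * a) ∈ Subgroup.zpowers z) :
    Nonempty (H ⧸ oddCore H ≃* Equiv.Perm (Fin 4) × Multiplicative (ZMod 2)) := by
  have := h.normal
  have two : ∀ {u w : H}, u * u = 1 → w ∈ Subgroup.zpowers u → w = 1 ∨ w = u := by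
    rintro u _ hu ⟨k, rfl⟩
    obtain ⟨j, rfl | rfl⟩ := Int.even_or_odd' k
    · left
      simp only
      rw [zpow_mul, zpow_two, hu, one_zpow]
    · right
      simp only
      rw [zpow_add, zpow_mul, zpow_two, hu, one_zpow, one_mul, zpow_one]
  have inj : ∀ {u w : H}, u ∈ Q → w ∈ Q → (u : H ⧸ oddCore H) = w → u = w := by
    intro u w hu hw e
    rw [QuotientGroup.eq] at e
    exact inv_mul_eq_one.mp (eq_one_of_mem_oddCore e (h.sq _ (Q.mul_mem (Q.inv_mem hu) hw)))
  let T := (Q ⊔ oddCore H ⊔ Subgroup.zpowers a).map (QuotientGroup.mk' (oddCore H))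
  have hT : T.index = 3 := by
    have e1 := Subgroup.relIndex_mul_index
      (le_sup_left : Q ⊔ oddCore H ≤ Q ⊔ oddCore H ⊔ Subgroup.zpowers a)
    have e2 : (Q ⊔ oddCore H).relIndex (Subgroup.zpowers a) ∣ 2 :=
      (Subgroup.relIndex_dvd_card _ _).trans (by
        rw [Nat.card_zpowers]
        exact orderOf_dvd_of_pow_eq_one (by rw [pow_two, h.aa]))
    have e3 : (Q ⊔ oddCore H).relIndex (Subgroup.zpowers a) ≠ 1 := fun e =>
      h.not_mem_zpowers h3 h1 (by
        rw [(QuotientGroup.eq_one_iff a).mpr (Subgroup.relIndex_eq_one.mp e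
          (Subgroup.mem_zpowers a))]
        exact Subgroup.one_mem _)
    rw [Subgroup.relIndex_sup_left, h.index_sup h3 h1,
      ((Nat.dvd_prime Nat.prime_two).mp e2).resolve_left e3] at e1
    rw [Subgroup.index_map, QuotientGroup.ker_mk', QuotientGroup.range_mk', Subgroup.index_top,
      sup_eq_left.mpr (le_sup_right.trans le_sup_left)]
    omega
  have hcT : (c : H ⧸ oddCore H) ∈ T :=
    ⟨c, Subgroup.mem_sup_left (Subgroup.mem_sup_left hc), rfl⟩
  obtain ⟨M, hM, hcM⟩ := exists_index_two_not_mem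
    ((Subgroup.zpowers (z : H ⧸ oddCore H)).subgroupOf T) (c := ⟨c, hcT⟩) (by
      rintro ⟨_, w, hw, rfl⟩
      rw [SetLike.mem_coe, ← SetLike.mem_coe, Subgroup.normal_mul, Subgroup.mul_normal] at hw
      obtain ⟨_, ⟨q, hq, o, ho, rfl⟩, u, hu, rfl⟩ := hw
      simp only [Subgroup.mem_subgroupOf, Subgroup.coe_mul, QuotientGroup.mk'_apply,
        QuotientGroup.mk_mul, (QuotientGroup.eq_one_iff o).mpr ho, mul_one]
      rcases two h.aa hu with rfl | rfl
      · simp only [QuotientGroup.mk_one, mul_one]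
        rw [← QuotientGroup.mk_mul, h.sq q hq]
        exact Subgroup.one_mem _
      · obtain ⟨k, hk⟩ := hsq q hq
        exact ⟨k, by
          simp only at hk ⊢
          rw [← QuotientGroup.mk_zpow, hk]
          rfl⟩) (by
      rintro ⟨k, hk⟩
      simp only [Subgroup.subtype_apply] at hk
      rw [← QuotientGroup.mk_zpow] at hk
      have := inj (Q.zpow_mem hz k) hc hk
      exact (two (h.sq z hz) ⟨k, this⟩).elim hc1 hcz)
  obtain ⟨e⟩ := nonempty_two_S4 (P := H ⧸ oddCore H) (c := c) (T := T) (M := M.map T.subtype)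
    (by rw [h.card_quotient, h.index_sup h3 h1, hQ])
    (Subgroup.mem_center_iff.mpr fun g => by
      obtain ⟨g, rfl⟩ := QuotientGroup.mk_surjective g
      rw [← QuotientGroup.mk_mul, Subgroup.mem_center_iff.mp hcZ g, QuotientGroup.mk_mul])
    (by rw [← QuotientGroup.mk_mul, h.sq c hc, QuotientGroup.mk_one]) hT
    (by rwa [Subgroup.relIndex, Subgroup.subgroupOf,
      Subgroup.comap_map_eq_self_of_injective T.subtype_injective])
    (by
      rintro ⟨m, hm, e⟩
      exact hcM ((show m = ⟨c, hcT⟩ from Subtype.ext e) ▸ hm))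
    (by
      intro g hg
      obtain ⟨g, rfl⟩ := QuotientGroup.mk_surjective g
      obtain ⟨q, hq, hq1, e, hgq, hi⟩ := h.exists_of_orderOf_six h3 h1 hg
      by_contra hn
      have hqc : q ≠ c := fun e' => hn (e' ▸ e)
      have e1 := H3.card_inf_mul_relIndex (Subgroup.centralizer {g}) Q
      have e2 : 2 < Nat.card (Subgroup.centralizer {g} ⊓ Q : Subgroup H) := by
        have := Fintype.ofFinite (Subgroup.centralizer {g} ⊓ Q : Subgroup H)
        rw [Nat.card_eq_fintype_card, Fintype.two_lt_card_iff]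
        exact ⟨1, ⟨q, Subgroup.mem_centralizer_singleton_iff.mpr hgq.symm, hq⟩,
          ⟨c, Subgroup.mem_centralizer_singleton_iff.mpr
            (Subgroup.mem_center_iff.mp hcZ g).symm, hc⟩,
          fun e => hq1 (congrArg Subtype.val e).symm, fun e => hc1 (congrArg Subtype.val e).symm,
          fun e => hqc (congrArg Subtype.val e)⟩
      nlinarith)
  exact ⟨e.trans MulEquiv.prodComm⟩

end three

end DihData

end Cfsg.Agent.H84
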