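import Cfsg.Agent.H50.E83Defs

/-! No element of the Weyl group `W(E₈)` has an eigenvalue of order `40` modulo `41`. -/

set_option autoImplicit false

namespace Cfsg.Agent.H84.E83C41

open Polynomial Matrix

theorem aeval_mulVec {ι R : Type*} [Fintype ι] [DecidableEq ι] [CommRing R] {B : Matrix ι ι R}
    {x : ι → R} {c : R} (h : B *ᵥ x = c • x) (q : R[X]) : aeval B q *ᵥ x = q.eval c • x := by
  have hp : ∀ n : ℕ, (B ^ n) *ᵥ x = c ^ n • x := fun n => by
    induction n with
    | zero => simp
    | succ n ih => rw [pow_succ, ← mulVec_mulVec, h, mulVec_smul, ih, smul_smul, pow_succ']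
  induction q using Polynomial.induction_on' with
  | add p q hp hq => rw [map_add, add_mulVec, hp, hq, eval_add, add_smul]
  | monomial n a =>
    rw [aeval_monomial, eval_monomial, ← Algebra.smul_def, smul_mulVec, hp, smul_smul]

/-- An eigenvalue modulo `p` of an integer matrix of finite order is a `d`-th root of unity with
`φ(d)` at most the dimension. -/
theorem exists_order {ι F : Type*} [Fintype ι] [DecidableEq ι] [Field F] {M : Matrix ι ι ℤ} {N : ℕ}
    (hN : 0 < N) (hM : M ^ N = 1) {x : ι → F} (hx : x ≠ 0) {c : F}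
    (h : (Int.castRingHom F).mapMatrix M *ᵥ x = c • x) :
    ∃ d, 0 < d ∧ d.totient ≤ Fintype.card ι ∧ c ^ d = 1 := by
  let P : ℤ[X] := ∏ d ∈ N.divisors.filter fun d => d.totient ≤ Fintype.card ι, cyclotomic d ℤ
  let Q : ℚ[X] := ∏ d ∈ N.divisors.filter fun d => ¬ d.totient ≤ Fintype.card ι, cyclotomic d ℚ
  let A := (Int.castRingHom ℚ).mapMatrix M
  have hPQ : P.map (Int.castRingHom ℚ) * Q = X ^ N - 1 := by
    rw [Polynomial.map_prod]
    simp only [map_cyclotomic]
    rw [Finset.prod_filter_mul_prod_filter_not, prod_cyclotomic_eq_X_pow_sub_one hN]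
  have hc : IsCoprime A.charpoly Q := IsCoprime.prod_right fun d hd => by
    obtain ⟨h1, h2⟩ := Finset.mem_filter.1 hd
    refine ((cyclotomic.irreducible_rat (Nat.pos_of_mem_divisors h1)).coprime_iff_not_dvd.2
      fun h3 => h2 ?_).symm
    have := natDegree_le_of_dvd h3 A.charpoly_monic.ne_zero
    rwa [natDegree_cyclotomic, charpoly_natDegree_eq_dim] at this
  obtain ⟨a, b, hab⟩ := hc
  have h1 : aeval A (P.map (Int.castRingHom ℚ)) = 0 := by
    have e : P.map (Int.castRingHom ℚ) = P.map (Int.castRingHom ℚ) * a * A.charpoly +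
        b * (X ^ N - 1) := by
      rw [← hPQ]; linear_combination -(P.map (Int.castRingHom ℚ)) * hab
    have e2 : A ^ N = 1 := by rw [← map_pow, hM, map_one]
    rw [e, map_add, map_mul, aeval_self_charpoly, map_mul _ b, map_sub, map_pow, aeval_X, e2,
      map_one]
    simp
  have h2 : aeval M P = 0 := by
    rw [← map_aeval_eq_aeval_map (RingHom.ext_int _ _)] at h1
    exact Matrix.map_injective (f := Int.castRingHom ℚ) Int.cast_injective (by
      simpa using h1)
  have h3 := aeval_mulVec h (P.map (Int.castRingHom F))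
  rw [← map_aeval_eq_aeval_map (RingHom.ext_int _ _), h2, map_zero, zero_mulVec, eq_comm,
    smul_eq_zero_iff_left hx, Polynomial.map_prod, eval_prod, Finset.prod_eq_zero_iff] at h3
  obtain ⟨d, hd, h4⟩ := h3
  obtain ⟨h5, h6⟩ := Finset.mem_filter.1 hd
  refine ⟨d, Nat.pos_of_mem_divisors h5, h6, ?_⟩
  rw [map_cyclotomic] at h4
  have := eval_dvd (x := c) (cyclotomic.dvd_X_pow_sub_one d F)
  rw [h4, zero_dvd_iff] at this
  simpa [sub_eq_zero] using this

open Cfsg.Agent.H29 Cfsg.Agent.H40 in
/-- The same for an element of a Weyl group acting on additive functions. -/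
theorem exists_order_W {ι Φ : Type*} [Fintype ι] [DecidableEq ι] [Finite Φ] {R : RS ι Φ}
    {f : Φ → ℤ} (hf : IsAdd R f) {w : Equiv.Perm Φ} (hw : w ∈ R.W) {p : ℕ} [Fact p.Prime]
    {c : ZMod p} (h : ∀ r, (f (w r) : ZMod p) = c * f r) (h0 : ¬ ∀ r, (f r : ZMod p) = 0) :
    ∃ d, 0 < d ∧ d.totient ≤ Fintype.card ι ∧ c ^ d = 1 := by
  let M : Matrix ι ι ℤ := Matrix.of fun j k => R.rc (w (R.simple j)) k
  have h1 : ∀ g, IsAdd R g → (fun j => g (w (R.simple j))) = M *ᵥ fun j => g (R.simple j) :=
    fun g hg => funext fun j => hg _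
  have h2 : ∀ g, IsAdd R g → ∀ n : ℕ,
      (fun j => g ((w ^ n) (R.simple j))) = (M ^ n) *ᵥ fun j => g (R.simple j) := fun g hg n => by
    induction n with
    | zero => simp
    | succ n ih =>
      rw [pow_succ' M, ← mulVec_mulVec, ← ih, ← h1 _ (hg.comp (pow_mem hw n)), pow_succ]
      rfl
  have h3 : M ^ orderOf w = 1 := by
    ext j i
    have := congrFun (h2 _ (isAdd_rc i) (orderOf w)) j
    rw [pow_orderOf_eq_one] at this
    simp only [Equiv.Perm.one_apply, R.rc_simple, mulVec, dotProduct, Pi.single_apply, mul_ite,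
      mul_one, mul_zero, Finset.sum_ite_eq, Finset.mem_univ, if_true] at this
    rw [← this, Matrix.one_apply]
    exact if_congr eq_comm rfl rfl
  refine exists_order (orderOf_pos w) h3 (x := fun j => (f (R.simple j) : ZMod p))
    (fun e => h0 (hf.eq_zero fun j => congrFun e j)) (funext fun j => ?_)
  have := congrArg (Int.cast : ℤ → ZMod p) (congrFun (h1 f hf) j)
  rw [h] at this
  simpa [mulVec, dotProduct] using this.symm

theorem ord26 : orderOf (26 : ZMod 41) = 40 := by
  rw [orderOf_eq_iff (by norm_num)]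
  decide +kernel

open Cfsg.Agent.H50.E83 in
/-- **C41** -/
theorem c41 : C41Stmt := by
  intro f hf w hw h
  by_contra h0
  have : Fact (Nat.Prime 41) := ⟨by norm_num⟩
  obtain ⟨d, h1, h2, h3⟩ := exists_order_W hf hw h h0
  have h5 := Nat.totient_dvd_of_dvd (ord26 ▸ orderOf_dvd_of_pow_eq_one h3)
  have h6 := Nat.le_of_dvd (Nat.totient_pos.2 h1) h5
  rw [Fintype.card_fin] at h2
  exact absurd (h6.trans h2) (by decide +kernel)

end Cfsg.Agent.H84.E83C41
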