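import Cfsg.Agent.H84.FiConv
import Cfsg.Agent.H99.FiRefl
import Cfsg.Agent.H30.OrthIndex
import Cfsg.Agent.H41.Transfer
import Cfsg.Agent.H41.Simple

/-! Fischer's theorem in its printed forms, from the intrinsic form `H50.MainStmt`. -/

set_option autoImplicit false

namespace Cfsg.Agent.H84

open Cfsg Module Matrix
open H50 H47
open H28 (K4 card_K4)
open scoped H28 MatrixGroups commutatorElement

universe u

theorem fi_sym_three {G : Type*} [Group G] {D : Set G} (hD : IsThreeTranspositionClass D)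
    (hZ : Subgroup.center G = ⊥) (hs : IsSimpleGroup (commutator G))
    (hab : ∀ x y : commutator G, x * y = y * x) :
    ∃ e : G ≃* Equiv.Perm (Fin 3), e '' D = {σ : Equiv.Perm (Fin 3) | σ.IsSwap} := by
  have hF := FS.of_class hD
  obtain ⟨d, hd, -⟩ := hD.2.1
  obtain ⟨a', ha', b', hb', hne⟩ := two_of_not_comm hD (by
    by_contra hc
    push Not at hc
    exact hF.ne_one d hd (Subgroup.mem_bot.1 (hZ ▸ Subgroup.mem_center_iff.2 fun g => hc g d)))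
  obtain ⟨b, hb, hc⟩ := (CL.of_class hD).exists_not_commute ha' hb' hne hd
  obtain ⟨φ, h1, h2, -⟩ := exists_perm_three_hom (hF.sq d hd) (hF.sq b hb) (hF.br d hd b hb hc)
  have hinj := perm_three_hom_injective φ (by rwa [h1, h2])
  let x : commutator G := ⟨d * b, mul_mem_commutator hD hd hb⟩
  have hn : (Subgroup.zpowers x).Normal := ⟨fun y hy g => by rwa [hab g, mul_inv_cancel_right]⟩
  have htop : Subgroup.zpowers x = ⊤ := (hs.eq_bot_or_eq_top_of_normal _ hn).resolve_left fun h => by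
    have : d * b = 1 := congrArg Subtype.val (Subgroup.zpowers_eq_bot.1 h)
    apply hc
    rw [Commute, SemiconjBy, this, mul_eq_one_comm.1 this]
  have hsurj : Function.Surjective φ := by
    rw [← MonoidHom.range_eq_top, eq_top_iff, ← hD.2.2, Subgroup.closure_le]
    intro y hy
    obtain ⟨k, hk⟩ : (⟨d * y, mul_mem_commutator hD hd hy⟩ : commutator G) ∈ Subgroup.zpowers x :=
      htop ▸ Subgroup.mem_top _
    have hk' : (d * b) ^ k = d * y := congrArg Subtype.val hk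
    refine ⟨Equiv.swap 0 1 * (Equiv.swap 0 1 * Equiv.swap 1 2) ^ k, ?_⟩
    rw [map_mul, map_zpow, map_mul, h1, h2, hk', mul_mul_cancel_of_mul_self (hF.sq d hd)]
  let e := MulEquiv.ofBijective φ ⟨hinj, hsurj⟩
  refine ⟨e.symm, ?_⟩
  ext σ
  constructor
  · rintro ⟨y, hy, rfl⟩
    obtain ⟨g, rfl⟩ := class_trans hD hd hy
    obtain ⟨τ, rfl⟩ := hsurj g
    refine ⟨τ 0, τ 1, τ.injective.ne (by decide), ?_⟩
    rw [MulEquiv.symm_apply_eq, Equiv.swap_apply_apply, ← h1, ← map_inv, ← map_mul, ← map_mul]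
    rfl
  · rintro ⟨i, j, hij, rfl⟩
    obtain ⟨τ, hτ⟩ := isConj_iff.1 (Equiv.Perm.isConj_swap (show (0 : Fin 3) ≠ 1 by decide) hij)
    refine ⟨φ τ * d * (φ τ)⁻¹, class_conj hD _ _ hd, ?_⟩
    rw [MulEquiv.symm_apply_eq, ← hτ, ← h1, ← map_inv, ← map_mul, ← map_mul]
    rfl

theorem hom_eq_one_of_perfect {G A : Type*} [Group G] [CommGroup A] (h : commutator G = ⊤)
    (f : G →* A) (g : G) : f g = 1 :=
  Abelianization.commutator_subset_ker f (h ▸ Subgroup.mem_top g)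

theorem center_refl_three {ι : Type} [Fintype ι] [DecidableEq ι]
    (Q : QuadraticForm (ZMod 3) (ι → ZMod 3)) (hQ : (QuadraticMap.polarBilin Q).Nondegenerate)
    (hn : 4 ≤ Fintype.card ι) {z : reflectionSubgroup Q (1 : ZMod 3)}
    (hz : z ∈ Subgroup.center (reflectionSubgroup Q (1 : ZMod 3))) :
    isoToMat Q z = 1 ∨ isoToMat Q z = -1 := by
  have hn' : 4 ≤ finrank (ZMod 3) (ι → ZMod 3) := by simpa using hn
  have h1 : ∀ v, Q v = 1 → isoToMat Q z *ᵥ v = v ∨ isoToMat Q z *ᵥ v = -v := fun v hv => by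
    refine eq_or_neg_of_reflIso_eq Q (by rw [hv]; exact one_ne_zero) ?_
    rw [isoToMat_apply, ← conj_reflIso]
    have : (reflIso Q v) * z = z * reflIso Q v :=
      congrArg Subtype.val (Subgroup.mem_center_iff.1 hz (reflR Q 1 v hv))
    rw [← this, mul_inv_cancel_right]
  have hpol : ∀ x y, QuadraticMap.polar Q (isoToMat Q z *ᵥ x) (isoToMat Q z *ᵥ y) =
      QuadraticMap.polar Q x y := iso_polar Q z
  have h2 : ∀ u v, Q u = 1 → Q v = 1 → QuadraticMap.polar Q u v ≠ 0 → ∀ ε : ZMod 3, ε * ε = 1 →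
      isoToMat Q z *ᵥ u = ε • u → isoToMat Q z *ᵥ v = ε • v := fun u v hu hv huv ε hε h => by
    have := hpol u v
    rcases h1 v hv with e | e <;> rw [h, e, QuadraticMap.polar_smul_left] at this
    · rw [e, mul_right_cancel₀ huv (this.trans (one_mul _).symm), one_smul]
    · rw [QuadraticMap.polar_neg_right, smul_eq_mul] at this
      have : ε = -1 := mul_right_cancel₀ huv (by linear_combination -this)
      rw [e, this, neg_one_smul]
  obtain ⟨u, hu⟩ := exists_norm Q hQ (by omega) 1 one_ne_zero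
  obtain ⟨ε, hε, hεu⟩ : ∃ ε : ZMod 3, (ε = 1 ∨ ε = -1) ∧ isoToMat Q z *ᵥ u = ε • u := by
    rcases h1 u hu with e | e
    exacts [⟨1, Or.inl rfl, by simpa using e⟩, ⟨-1, Or.inr rfl, by simpa using e⟩]
  have hε2 : ε * ε = 1 := by rcases hε with rfl | rfl <;> simp
  have h3 : ∀ v, Q v = 1 → isoToMat Q z *ᵥ v = ε • v := fun v hv => by
    by_cases h : QuadraticMap.polar Q u v = 0
    · obtain ⟨w, hw, a, b⟩ := exists_common_nonperp Q hQ hn' (by rw [hu]; exact one_ne_zero)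
        (hu.trans hv.symm) h
      exact h2 w v (hw.trans hu) hv (by rwa [QuadraticMap.polar_comm]) ε hε2
        (h2 u w hu (hw.trans hu) a ε hε2 hεu)
    · exact h2 u v hu hv h ε hε2 hεu
  have h4 : ∀ x, isoToMat Q z *ᵥ x = ε • x := fun x => by
    rw [← sub_eq_zero]
    set y := isoToMat Q z *ᵥ x - ε • x with hy
    have hp : ∀ v, Q v = 1 → QuadraticMap.polar Q y v = 0 := fun v hv => by
      have := hpol x v
      rw [h3 v hv, QuadraticMap.polar_smul_right, smul_eq_mul] at this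
      rw [hy, QuadraticMap.polar_sub_left, QuadraticMap.polar_smul_left, smul_eq_mul, ← this]
      linear_combination (-QuadraticMap.polar Q (isoToMat Q z *ᵥ x) v) * hε2
    by_contra hy0
    rcases zmod3_cases (Q y) with e | e | e
    · obtain ⟨w, hw⟩ : ∃ w, QuadraticMap.polar Q y w ≠ 0 := by
        by_contra hc
        push Not at hc
        exact hy0 (hQ.1 y fun w => by simpa using hc w)
      have := hp (w + ((1 - Q w) * QuadraticMap.polar Q y w) • y) (by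
        rw [quad_add_smul, e]
        linear_combination (1 - Q w) * zmod3_mul_self _ hw)
      rw [QuadraticMap.polar_add_right, QuadraticMap.polar_smul_right, polar_self3, e] at this
      exact hw (by simpa using this)
    · have := hp y e
      rw [polar_self3, e] at this
      exact absurd this (by decide)
    · obtain ⟨w, hw, hyw⟩ := exists_perp_norm1 Q hQ (by omega) (u := y) (by rw [e]; decide) (-1)
        (by decide)
      have := hp (y + w) (by rw [QuadraticMap.map_add Q, e, hw, hyw]; decide)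
      rw [QuadraticMap.polar_add_right, polar_self3, e, hyw] at this
      exact absurd this (by decide)
  rcases hε with rfl | rfl
  · exact Or.inl (matrix_ext_mulVec fun x => by simpa using h4 x)
  · exact Or.inr (matrix_ext_mulVec fun x => by simpa [neg_mulVec] using h4 x)

theorem refl_three_even_not_perfect {ι : Type} [Fintype ι] [DecidableEq ι]
    (Q : QuadraticForm (ZMod 3) (ι → ZMod 3)) (hQ : (QuadraticMap.polarBilin Q).Nondegenerate)
    (hn : 4 ≤ Fintype.card ι) (he : Even (Fintype.card ι)) :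
    commutator (reflectionSubgroup Q (1 : ZMod 3) ⧸
      Subgroup.center (reflectionSubgroup Q (1 : ZMod 3))) ≠ ⊤ := by
  intro h
  let f : reflectionSubgroup Q (1 : ZMod 3) →* (ZMod 3)ˣ :=
    (Matrix.GeneralLinearGroup.det.comp (isometryGroup (ZMod 3) Q).subtype).comp
      (reflectionSubgroup Q (1 : ZMod 3)).subtype
  have hf : ∀ z, ((f z : (ZMod 3)ˣ) : ZMod 3) = (isoToMat Q z).det := fun _ => rfl
  have hk : ∀ z ∈ Subgroup.center (reflectionSubgroup Q (1 : ZMod 3)), f z = 1 := fun z hz => by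
    apply Units.ext
    rw [hf]
    rcases center_refl_three Q hQ hn hz with e | e <;> rw [e]
    · simp
    · rw [det_neg, he.neg_one_pow]; simp
  obtain ⟨u, hu⟩ := exists_norm Q hQ (by simp; omega) 1 one_ne_zero
  have : f (reflR Q 1 u hu) = 1 :=
    hom_eq_one_of_perfect h (QuotientGroup.lift _ f hk) (reflR Q 1 u hu)
  rw [Units.ext_iff, hf] at this
  change (reflectionMatrix Q u).det = 1 at this
  rw [reflectionMatrix_eq, det_one_add_vecMulVec, refl_alpha_self Q u (by rw [hu]; exact one_ne_zero)]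
    at this
  exact absurd this (by decide)

theorem isometryGroup_smul' {ι : Type} [Fintype ι] [DecidableEq ι] {F : Type*} [Field F]
    (Q : QuadraticForm F (ι → F)) {c : F} (hc : c ≠ 0) :
    isometryGroup F ⇑(c • Q) = isometryGroup F ⇑Q := by
  ext g
  simp [mem_isometryGroup_iff, hc]

theorem iso_oddC_smul {F : Type*} [Field F] (m : ℕ) {c : F} (hc : c ≠ 0) :
    H79.Iso (F := F) (c • H79.qOdd m F) (H79.qOddC m F c) := by
  let s : Unit ⊕ (Fin m ⊕ Fin m) → Fˣ :=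
    Sum.elim (fun _ => 1) (Sum.elim (fun _ => Units.mk0 c hc) fun _ => 1)
  refine ⟨LinearEquiv.piCongrRight fun k => LinearEquiv.smulOfUnit (s k), fun v => ?_⟩
  simp [H79.qOddC_apply, H79.coe_qOdd, quadFormOdd, s, LinearEquiv.smulOfUnit, Units.smul_def,
    mul_add, Finset.mul_sum, mul_assoc]

/-- Fischer's theorem -/
theorem fischer_S5368 (hM : MainStmt.{u}) (hT : TwStmt.{u}) {G : Type u} [Group G] [Finite G] {D : Set G} (hD : Cfsg.IsThreeTranspositionClass D) (hZ : Subgroup.center G = ⊥) (hsimple : IsSimpleGroup (commutator G)) : (∃ n : ℕ, ∃ e : G ≃* Equiv.Perm (Fin n), e '' D = {σ : Equiv.Perm (Fin n) | σ.IsSwap}) ∨ (∃ m : ℕ, ∃ e : G ≃* Matrix.symplecticGroup (Fin m) (ZMod 2), e '' D = {g : Matrix.symplecticGroup (Fin m) (ZMod 2) | ((g : Matrix (Fin m ⊕ Fin m) (Fin m ⊕ Fin m) (ZMod 2)) - 1).rank = 1}) ∨ (∃ (n : ℕ) (F : Type) (_ : Field F) (_ : Fintype F), Fintype.card F = 4 ∧ ∃ e : G ≃*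 Cfsg.PSU n F 2, e '' D = (QuotientGroup.mk : ↥(Cfsg.SU n F 2) → Cfsg.PSU n F 2) '' {g : ↥(Cfsg.SU n F 2) | (((g : Matrix.SpecialLinearGroup (Fin n) F) : Matrix (Fin n) (Fin n) F) - 1).rank = 1}) ∨ ((∃ m : ℕ, ∃ e : G ≃* ↥(Cfsg.isometryGroup (ZMod 2) (Cfsg.quadFormPlus m (ZMod 2))), e '' D = {g : ↥(Cfsg.isometryGroup (ZMod 2) (Cfsg.quadFormPlus m (ZMod 2))) | (((g : GL (Fin m ⊕ Fin m) (ZMod 2)) : Matrix (Fin m ⊕ Fin m) (Fin m ⊕ Fin m) (ZMod 2)) - 1).rank = 1}) ∨ (∃ m : ℕ, ∃ e : G ≃* ↥(Cfsg.isometryGroup (ZMod 2) (Cfsg.quadFormMinus m (ZMod 2) 1 1)), e '' D = {g : ↥(Cfsg.isometryGroup (ZMod 2) (Cfsg.quadFormMinus m (ZMod 2) 1 1)) | (((g : GL ((Fin m ⊕ Fin m) ⊕ Fin 2) (ZMod 2)) : Matrix ((Fin m ⊕ Fin m) ⊕ Fin 2) ((Fin m ⊕ Fin m) ⊕ Fin 2) (ZMod 2)) - 1).rank = 1})) ∨ (∃ n : ℕ, ∃ Q : QuadraticForm (ZMod 3) (Fin n → ZMod 3), (QuadraticMap.polarBilin Q).Nondegenerate ∧ ∃ c : ZMod 3, c ≠ 0 ∧ ∃ e : G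 ≃* ↥(Cfsg.reflectionSubgroup (⇑Q) c) ⧸ Subgroup.center ↥(Cfsg.reflectionSubgroup (⇑Q) c), e '' D = (QuotientGroup.mk : ↥(Cfsg.reflectionSubgroup (⇑Q) c) → _) '' {g : ↥(Cfsg.reflectionSubgroup (⇑Q) c) | (g : ↥(Cfsg.isometryGroup (ZMod 3) (⇑Q))) ∈ Cfsg.reflectionsOfNorm (⇑Q) c}) ∨ (Cfsg.IsOfTypeM22 G D ∨ Cfsg.IsOfTypeM23 G D ∨ Cfsg.IsOfTypeM24 G D) := by
  by_cases hna : ∃ x y : commutator G, x * y ≠ y * x
  swap
  · push Not at hna
    exact Or.inl ⟨3, fi_sym_three hD hZ hsimple hna⟩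
  have hP := Prim.of_simple hD hsimple hna
  obtain ⟨t1, t2, t3⟩ := hT G D hD.2.2 hZ
  rcases (hM G D hP.rp).1 with ⟨n, hn, h⟩ | ⟨n, hn, h⟩ | ⟨n, hn, h⟩ | ⟨n, hn, h⟩ | ⟨n, hn, h⟩ | h | h | h
  · exact Or.inl ⟨n, h.equiv hP.fs hD.2.2 hZ (by omega)⟩
  · obtain ⟨m, -, h⟩ := isSp_equiv h hP.fs hD.2.2 hZ (by omega)
    exact Or.inr (Or.inl ⟨m, h⟩)
  · exact Or.inr (Or.inr (Or.inl ⟨n, K4, inferInstance, inferInstance, card_K4,
      isU_equiv h hP.fs hD.2.2 hZ hn⟩))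
  · refine Or.inr (Or.inr (Or.inr (Or.inl ?_)))
    rcases isQ_two_equiv h hP.fs hD.2.2 hZ (by omega) with ⟨m, -, h⟩ | ⟨m, -, h⟩
    exacts [Or.inl ⟨m, h⟩, Or.inr ⟨m, h⟩]
  · obtain ⟨Q, hQ, h⟩ := isQ_three_equiv h hP.fs hD.2.2 hZ
    exact Or.inr (Or.inr (Or.inr (Or.inr (Or.inl ⟨n, Q, hQ, 1, one_ne_zero, h⟩))))
  · exact Or.inr (Or.inr (Or.inr (Or.inr (Or.inr (Or.inl (t1 h))))))
  · exact Or.inr (Or.inr (Or.inr (Or.inr (Or.inr (Or.inr (Or.inl (t2 h)))))))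
  · exact Or.inr (Or.inr (Or.inr (Or.inr (Or.inr (Or.inr (Or.inr (t3 h)))))))

/-- Fischer's theorem, the case of central local cores -/
theorem fischer_S5369 (hM : MainStmt.{u}) (hT : TwStmt.{u}) {G : Type u} [Group G] [Finite G] {D : Set G} (hD : Cfsg.IsThreeTranspositionGroup D) (hprim : Cfsg.IsPrimitiveUnderConj D) (hZ : Subgroup.center G = ⊥) (d : G) (hd : d ∈ D) (hw : ∃ b ∈ D, b ≠ d ∧ Commute d b) (h3 : Cfsg.pCore 3 ↥(Subgroup.closure {y : G | y ∈ D ∧ y ≠ d ∧ Commute d y}) ≤ Subgroup.center ↥(Subgroup.closure {y : G | y ∈ D ∧ y ≠ d ∧ Commute d y})) (h2 : Cfsg.pCore 2 ↥(Subgroup.closure {y : G | y ∈ D ∧ y ≠ d ∧ Commute d y}) ≤ Subgroup.center ↥(Subgroup.closure {y : G | y ∈ D ∧ y ≠ d ∧ Commute d y})) : (∃ n : ℕ, 7 ≤ n ∧ ∃ e : G ≃* Equiv.Perm (Fin n), e '' D = {σ : Equiv.Perm (Fin n) | σ.IsSwap}) ∨ ((∃ m : ℕ, 3 ≤ m ∧ ∃ e : G ≃* ↥(Cfsg.isometryGroup (ZMod 2) (Cfsg.quadFormPlus m (ZMod 2))),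 e '' D = {g : ↥(Cfsg.isometryGroup (ZMod 2) (Cfsg.quadFormPlus m (ZMod 2))) | (((g : GL (Fin m ⊕ Fin m) (ZMod 2)) : Matrix (Fin m ⊕ Fin m) (Fin m ⊕ Fin m) (ZMod 2)) - 1).rank = 1}) ∨ (∃ m : ℕ, 2 ≤ m ∧ ∃ e : G ≃* ↥(Cfsg.isometryGroup (ZMod 2) (Cfsg.quadFormMinus m (ZMod 2) 1 1)), e '' D = {g : ↥(Cfsg.isometryGroup (ZMod 2) (Cfsg.quadFormMinus m (ZMod 2) 1 1)) | (((g : GL ((Fin m ⊕ Fin m) ⊕ Fin 2) (ZMod 2)) : Matrix ((Fin m ⊕ Fin m) ⊕ Fin 2) ((Fin m ⊕ Fin m) ⊕ Fin 2) (ZMod 2)) - 1).rank = 1})) ∨ (∃ n : ℕ, 5 ≤ n ∧ ∃ Q : QuadraticForm (ZMod 3) (Fin n → ZMod 3), (QuadraticMap.polarBilin Q).Nondegenerate ∧ ∃ c : ZMod 3, c ≠ 0 ∧ ∃ e : G ≃* ↥(Cfsg.reflectionSubgroup (⇑Q) c) ⧸ Subgroup.center ↥(Cfsg.reflectionSubgroup (⇑Q) c), e '' D = (QuotientGroup.mk : ↥(Cfsg.reflectionSubgroup (⇑Q) c) → _) '' {g : ↥(Cfsg.reflectionSubgroup (⇑Q) c) | (g : ↥(Cfsg.isometryGroup (ZMod 3) (⇑Q))) ∈ Cfsg.reflectionsOfNorm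 (⇑Q) c}) ∨ (Cfsg.IsOfTypeM22 G D ∨ Cfsg.IsOfTypeM23 G D ∨ Cfsg.IsOfTypeM24 G D) := by
  obtain ⟨b, hb, hbd, hc⟩ := hw
  have hP := Prim.of_group hD hprim ⟨d, hd, b, hb, hbd.symm, hc⟩
  have hR := hP.rp
  obtain ⟨x, hx, y, hy, hxy⟩ := hR.two_Dx hd
  have hcl := (hR.cl_Dx hd).cls ⟨x, hx⟩
  have hth : ThT (Dx D d) := fun a ha b hb h => congrArg Subtype.val
    ((pCore_two_le_center_iff hcl ⟨⟨x, Subgroup.subset_closure hx⟩, hx,
      ⟨y, Subgroup.subset_closure hy⟩, hy, fun e => hxy (by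
        rw [show x = y from congrArg Subtype.val e])⟩).1 h2
      ⟨a, Subgroup.subset_closure ha⟩ ha ⟨b, Subgroup.subset_closure hb⟩ hb (th_sub.2 h))
  have hta : TaT (Dx D d) := fun a ha b hb h => congrArg Subtype.val
    ((pCore_three_le_center_iff (class_group hcl)).1 h3
      ⟨a, Subgroup.subset_closure ha⟩ ha ⟨b, Subgroup.subset_closure hb⟩ hb (ta_sub.2 h))
  have hall := hR.toCL.all_Dx (P := fun S => ThT S ∧ TaT S)
    (fun S f hf h => ⟨h.1.map f hf, h.2.map f hf⟩) hd ⟨hth, hta⟩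
  obtain ⟨t1, t2, t3⟩ := hT G D hD.2.2 hZ
  rcases (hM G D hR).2 hall with ⟨n, hn, h⟩ | ⟨n, hn, h⟩ | ⟨n, hn, h⟩ | h | h | h
  · exact Or.inl ⟨n, hn, h.equiv hP.fs hD.2.2 hZ (by omega)⟩
  · refine Or.inr (Or.inl ?_)
    rcases isQ_two_equiv h hP.fs hD.2.2 hZ (by omega) with ⟨m, hm, h⟩ | ⟨m, hm, h⟩
    exacts [Or.inl ⟨m, by omega, h⟩, Or.inr ⟨m, by omega, h⟩]
  · obtain ⟨Q, hQ, h⟩ := isQ_three_equiv h hP.fs hD.2.2 hZ
    exact Or.inr (Or.inr (Or.inl ⟨n, by omega, Q, hQ, 1, one_ne_zero, h⟩))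
  · exact Or.inr (Or.inr (Or.inr (Or.inl (t1 h))))
  · exact Or.inr (Or.inr (Or.inr (Or.inr (Or.inl (t2 h)))))
  · exact Or.inr (Or.inr (Or.inr (Or.inr (Or.inr (t3 h)))))

/-- the simple 3-transposition groups -/
theorem fischer_S0480 (hM : MainStmt.{u}) (hT : TwStmt.{u}) {G : Type u} [Group G] [Finite G] [IsSimpleGroup G] (hna : ∃ x y : G, x * y ≠ y * x) {D : Set G} (hD : Cfsg.IsThreeTranspositionClass D) : (∃ n : ℕ, Nonempty (G ≃* Matrix.symplecticGroup (Fin n) (ZMod 2))) ∨ (∃ (F : Type) (_ : Field F) (_ : Fintype F) (n : ℕ), Fintype.card F = 4 ∧ Nonempty (G ≃* Cfsg.PSU n F 2)) ∨ (∃ m : ℕ, Nonempty (G ≃* Cfsg.POmega (ZMod 3) (Cfsg.quadFormOdd m (ZMod 3)))) ∨ Cfsg.IsFi22 G ∨ Cfsg.IsFi23 G := by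
  have hZ : Subgroup.center G = ⊥ :=
    (IsSimpleGroup.eq_bot_or_eq_top_of_normal _ inferInstance).resolve_right fun h => by
      obtain ⟨x, y, hxy⟩ := hna
      exact hxy (Subgroup.mem_center_iff.1 (h ▸ Subgroup.mem_top y) x)
  have hp : commutator G = ⊤ :=
    (IsSimpleGroup.eq_bot_or_eq_top_of_normal _ inferInstance).resolve_left fun h => by
      obtain ⟨x, y, hxy⟩ := hna
      have : ⁅x, y⁆ ∈ commutator G := Subgroup.commutator_mem_commutator trivial trivial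
      rw [h, Subgroup.mem_bot, commutatorElement_eq_one_iff_mul_comm] at this
      exact hxy this
  have e0 : commutator G ≃* G := (MulEquiv.subgroupCongr hp).trans Subgroup.topEquiv
  have hP := Prim.of_simple hD e0.isSimpleGroup (by
    obtain ⟨x, y, hxy⟩ := hna
    exact ⟨e0.symm x, e0.symm y, fun h => hxy (by simpa using congrArg e0 h)⟩)
  have hp' : ∀ {H : Type} [Group H], (G ≃* H) → commutator H = ⊤ := fun e => by
    rw [← H28.map_commutator_equiv e, hp, Subgroup.map_top_of_surjective _ e.surjective]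
  obtain ⟨t1, t2, t3⟩ := hT G D hD.2.2 hZ
  rcases (hM G D hP.rp).1 with ⟨n, hn, h⟩ | ⟨n, hn, h⟩ | ⟨n, hn, h⟩ | ⟨n, hn, h⟩ | ⟨n, hn, h⟩ | h | h | h
  · obtain ⟨e, -⟩ := h.equiv hP.fs hD.2.2 hZ (by omega)
    have := hom_eq_one_of_perfect (hp' e) Equiv.Perm.sign (Equiv.swap ⟨0, by omega⟩ ⟨1, by omega⟩)
    rw [Equiv.Perm.sign_swap (by simp)] at this
    exact absurd this (by decide)
  · obtain ⟨m, -, e, -⟩ := isSp_equiv h hP.fs hD.2.2 hZ (by omega)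
    exact Or.inl ⟨m, ⟨e⟩⟩
  · obtain ⟨e, -⟩ := isU_equiv h hP.fs hD.2.2 hZ hn
    exact Or.inr (Or.inl ⟨K4, inferInstance, inferInstance, n, card_K4, ⟨e⟩⟩)
  · obtain ⟨Q, hQ, p, h⟩ := isQ_param h
    obtain ⟨e, -⟩ := orth_two_equiv Q hQ (by simp; omega) h hP.fs hD.2.2 hZ
    have : Nonempty (Fin n) := ⟨⟨0, by omega⟩⟩
    obtain ⟨g, hg⟩ := H30.dickson_surjective hQ (-1)
    rw [hom_eq_one_of_perfect (hp' (e.trans (H30.isoEquiv Q))) (H30.dickson hQ) g] at hg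
    exact absurd hg (by decide)
  · rcases Nat.even_or_odd' n with ⟨m, hm | hm⟩
    · obtain ⟨Q, hQ, e, -⟩ := isQ_three_equiv h hP.fs hD.2.2 hZ
      exact absurd (hp' e) (refl_three_even_not_perfect Q hQ (by simp; omega) (by simp [hm]))
    · obtain ⟨V, _, _, _, Q, hn', hQ, p, h⟩ := h
      obtain ⟨-, c, hc, hi⟩ := H79.iso_odd (m := m) (by omega) Q ((H79.nd_iff Q).1 hQ)
      obtain ⟨φ, hφ⟩ := (iso_oddC_smul m hc).trans hi.symm
      have hQ' := (H79.nd_iff _).2 (H79.nd_smul (H79.nd_qOdd (F := ZMod 3) m (by decide)) hc)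
      obtain ⟨e, -⟩ := orth_three_equiv (c • H79.qOdd m (ZMod 3)) (param_Q_comp h φ hφ) hP.fs hD.2.2 hZ
      have := reflectionSubgroup_normal (c • H79.qOdd m (ZMod 3)) (1 : ZMod 3)
      have := e.symm.isSimpleGroup
      obtain ⟨f⟩ := H99.commutator_equiv_POmega hQ' (H30.not_isExc_of_card (Or.inl (by decide)))
        (by simp; omega) (reflectionSubgroup (c • H79.qOdd m (ZMod 3)) (1 : ZMod 3))
        (by rw [hp' e]; exact top_ne_bot)
      exact Or.inr (Or.inr (Or.inl ⟨m, ⟨(e0.symm.trans (H28.commutatorEquiv e)).trans (f.trans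
        (H28.centerQuotEquiv (H28.commutatorEquiv
          (MulEquiv.subgroupCongr (isometryGroup_smul' _ hc)))))⟩⟩))
  · obtain ⟨e, -⟩ := H41.transfer22 (class_group hD) (t1 h)
    exact Or.inr (Or.inr (Or.inr (Or.inl ⟨inferInstance,
      by rw [← Nat.card_congr e.toEquiv, H41.L22.card_grp]⟩)))
  · obtain ⟨e, -⟩ := H41.transfer23 (class_group hD) (t2 h)
    exact Or.inr (Or.inr (Or.inr (Or.inr ⟨inferInstance,
      by rw [← Nat.card_congr e.toEquiv, H41.L23.card_grp]⟩)))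
  · obtain ⟨e, -⟩ := H41.transfer24 (class_group hD) hP.prim (t3 h)
    have := H41.index24
    rw [hp' e.symm, Subgroup.index_top] at this
    exact absurd this (by decide)

end Cfsg.Agent.H84
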