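import Cfsg.Agent.H45.GdDefs

/-! Project CY, chapter IV GOOD, piece FP: elements of `R \ Z` are fixed point free. -/

set_option autoImplicit false

namespace Cfsg.Agent.H84.GdFp

open Subgroup MulAction Cfsg.Agent.H11.Cy Cfsg.Agent.H45.Iv Cfsg.Agent.H45.Gd
open scoped commutatorElement

variable {G : Type} [Group G] {Ω : Type} [MulAction G Ω] {p : ℕ} {A : Ω → Subgroup G}

theorem smul_mem_Ln (h : Bs p A) {x y c : Ω} {g : G} (hg : g ∈ Fl A x y) (hc : c ∈ Ln A x y) :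
    g • c ∈ Ln A x y := fun b hb => by
  have e := h.eqv g⁻¹ _ b hb
  rw [inv_smul_smul] at e
  simpa [mul_assoc] using mul_mem (mul_mem hg (hc e)) (inv_mem hg)

theorem fp0 (h : Bs p A) (ep : Ep A) (k : SK A) (ls : LS A) {x y : Ω} (hxy : x ≠ y) {a : G}
    (ha : a ∈ A x) (a1 : a ≠ 1) {s : G} (hs : s ∈ Rl A x y) (sZ : s ∉ Zl A x y) (d : Ω) :
    ⁅a, s⁆ • d ≠ d := by
  intro hd
  have sF : s ∈ Fl A x y := (ls x y hxy).1.sup ▸ mem_sup_left hs
  have sx : x ≠ s • x := fun e => sZ ((ls x y hxy).2.1.stab s hs x (k.ln x y).1 e.symm)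
  have sL : s • x ∈ Ln A x y := smul_mem_Ln h sF (k.ln x y).1
  have hc : s * a * s⁻¹ ∈ A (s • x) := h.eqv s x a ha
  have ec : ⁅a, s⁆ = a * (s * a * s⁻¹)⁻¹ := by rw [commutatorElement_def]; group
  have gR : ⁅a, s⁆ ∈ Rl A x y := commutator_mem_commutator (mem_sup_left ha) sF
  have gZ : ⁅a, s⁆ ∉ Zl A x y := fun c => by
    have e := (ep.kfix x y hxy _).1 c.2 _ sL
    rw [ec, mul_smul, h.fix _ _ (inv_mem hc)] at e
    exact (h.semi x _ a ha e).elim a1 fun e => sx e.symm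
  have dL : d ∉ Ln A x y := fun c => gZ ((ls x y hxy).2.1.stab _ gR d c hd)
  have xd : x ≠ d := fun e => dL (e ▸ (k.ln x y).1)
  have sd : s • x ≠ d := fun e => dL (e ▸ sL)
  have e1 : (s * a * s⁻¹)⁻¹ • d = a⁻¹ • d := by
    rw [ec, mul_smul] at hd
    rw [eq_inv_smul_iff, hd]
  have nd : d ≠ a⁻¹ • d := fun e =>
    (h.semi x d a⁻¹ (inv_mem ha) e.symm).elim (fun e => a1 (inv_eq_one.1 e)) fun e => xd e.symm
  have m1 : a⁻¹ • d ∈ Ln A x d := smul_mem_Ln h (mem_sup_left (inv_mem ha)) (k.ln x d).2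
  have m2 : a⁻¹ • d ∈ Ln A (s • x) d :=
    e1 ▸ smul_mem_Ln h (mem_sup_left (inv_mem hc)) (k.ln _ d).2
  have l1 := (k.sp x d xd d (k.ln x d).2 _ m1 nd).2.2
  have l2 := (k.sp _ d sd d (k.ln _ d).2 _ m2 nd).2.2
  have m3 : s • x ∈ Ln A x d := by
    rw [← l1, l2]
    exact (k.ln _ d).1
  have l3 := (k.sp x d xd x (k.ln x d).1 _ m3 sx).2.2
  have l4 := (k.sp x y hxy x (k.ln x y).1 _ sL sx).2.2
  exact dL (by rw [← l4, l3]; exact (k.ln x d).2)

theorem fpf (h : Bs p A) (ep : Ep A) (k : SK A) (ls : LS A) : Fpf A := by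
  intro x y hxy r hr nr w hw
  obtain ⟨la, -, lc, ld⟩ := ls x y hxy
  obtain ⟨a, ha, a1⟩ : ∃ a ∈ A x, a ≠ 1 := by
    by_contra! c
    have e : A x = ⊥ := eq_bot_iff.2 c
    have := h.card x
    rw [e, card_bot] at this
    exact h.pp.one_lt.ne this
  obtain ⟨s, hs, hz⟩ := lc.surj a ha a1 r hr
  have ns : s ∉ Zl A x y := fun c => nr (by
    have e : ⁅a, s⁆ = 1 := commutatorElement_eq_one_iff_mul_comm.2 (c.2 a (mem_sup_left ha))
    rwa [e, mul_one, inv_mem_iff] at hz)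
  obtain ⟨t, -, e⟩ := ld.full r hr nr _ (inv_mem hz)
  have rF : r ∈ Fl A x y := la.sup ▸ mem_sup_left hr
  have c := hz.2 r rF
  have e' : ⁅a, s⁆ = t * r * t⁻¹ := by
    generalize ⁅a, s⁆ = g at e c
    rw [commutatorElement_def] at e
    calc g = r * (r⁻¹ * g) := by group
      _ = r⁻¹ * g * r := c
      _ = (r * t * r⁻¹ * t⁻¹)⁻¹ * r := by rw [e, inv_inv]
      _ = t * r * t⁻¹ := by group
  refine fp0 h ep k ls hxy ha a1 hs ns (t • w) ?_
  rw [e', mul_smul, mul_smul, inv_smul_smul, hw]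

theorem fp : FpStmt := by
  intro G _ _ Ω _ _ p A m
  exact fpf m.bs m.ep m.sk m.ls

end Cfsg.Agent.H84.GdFp
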