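import Cfsg.Agent.H84.Gold33
import Cfsg.Agent.H51.Thompson
import Cfsg.Agent.H3.Primitive

/-!
A group of characteristic 2 with dihedral quotient `G/O₂(G)` of order `2q` and a failure of
factorization has `q = 3`; Sims' theorem in local form.
-/

set_option autoImplicit false

namespace Cfsg.Agent.H84

open Cfsg Cfsg.Agent.H98

variable {X : Type*} [Group X]

theorem relIndex_of_dihedral {G : Subgroup X} {q : ℕ}
    (h : Nonempty (G ⧸ pCore 2 G ≃* DihedralGroup q)) : (pCoreOf 2 G).relIndex G = 2 * q := by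
  obtain ⟨e⟩ := h
  rw [Subgroup.relIndex, pCoreOf_subgroupOf, Subgroup.index, Nat.card_congr e.toEquiv,
    DihedralGroup.nat_card]

theorem relIndex_of_two_mul {G T : Subgroup X} [Finite G] (hT : SylIn 2 T G) {q : ℕ} (hq : q.Prime)
    (h : (pCoreOf 2 G).relIndex G = 2 * q) (hne : ¬ G ≤ T) :
    (pCoreOf 2 G).relIndex T = 2 ∧ T.relIndex G = q ∧ q ≠ 2 := by
  have h1 := Subgroup.relIndex_mul_relIndex _ _ _ (pCoreOf_le_of_sylIn hT) hT.le
  rw [h] at h1
  have h2 := hT.not_dvd_relIndex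
  have h3 : T.relIndex G ∣ q := (Nat.Coprime.dvd_mul_left
    ((Nat.Prime.coprime_iff_not_dvd Nat.prime_two).mpr h2).symm).mp (Dvd.intro_left _ h1)
  rcases (Nat.dvd_prime hq).mp h3 with h4 | h4
  · exact absurd (Subgroup.relIndex_eq_one.mp h4) hne
  · rw [h4] at h1 h2
    exact ⟨Nat.eq_of_mul_eq_mul_right hq.pos h1, h4, fun e => h2 (e ▸ dvd_rfl)⟩

theorem three_of_offender [Finite X] {G T : Subgroup X} (hT : SylIn 2 T G)
    (hc : G ⊓ Subgroup.centralizer (pCoreOf 2 G : Set X) ≤ pCoreOf 2 G) {q : ℕ} (hq : q.Prime)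
    (hD : Nonempty (G ⧸ pCore 2 G ≃* DihedralGroup q))
    (hJ : ¬ thompsonSubgroupOf 2 T ≤ pCoreOf 2 G)
    (hZ : ¬ G ≤ Subgroup.centralizer (omegaOne 2 (ctr T) : Set X)) : q = 3 := by
  have hTc : T ≤ Subgroup.centralizer (omegaOne 2 (ctr T) : Set X) :=
    le_centralizer_comm.mp (omegaOne_ctr_le_centralizer T)
  obtain ⟨i2, iq, hq2⟩ := relIndex_of_two_mul hT hq (relIndex_of_dihedral hD)
    fun h => hZ (h.trans hTc)
  have hQT := pCoreOf_le_of_sylIn hT
  set Q := pCoreOf 2 G with hQ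
  set V := omegaOne 2 (ctr Q) with hV
  have hVQ : V ≤ Q := omegaOne_ctr_le Q
  have hQV : Q ≤ Subgroup.centralizer (V : Set X) :=
    le_centralizer_comm.mp (omegaOne_ctr_le_centralizer Q)
  have hGV : G ≤ Subgroup.normalizer (V : Set X) :=
    (le_normalizer_pCoreOf 2 G).trans (normalizer_le_normalizer_omegaOne_ctr Q)
  have hZV : omegaOne 2 (ctr T) ≤ V :=
    (omega_le_sylowCenterClosure hT).trans (sylowCenterClosure_le_omega hc)
  rw [H51.thompsonSubgroupOf_le_iff] at hJ
  push Not at hJ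
  obtain ⟨A, hA, hAQ⟩ := hJ
  obtain ⟨a, ha, haQ⟩ := SetLike.not_le_iff_exists.mp hAQ
  have haG : a ∈ G := hT.le (hA.1 ha)
  -- `a` is a transvection on `V`
  have k1 : (Subgroup.centralizer {a}).relIndex V ≤ 2 := by
    have e1 := H3.card_sup_mul_card_inf_of_le_normalizer (H := Q ⊓ A) (N := V)
      ((inf_le_left.trans hQV).trans (centralizer_le_normalizer' V))
    have e2 := hA.2.2 (Q ⊓ A ⊔ V) (sup_le (inf_le_left.trans hQT) (hVQ.trans hQT))
      (H51.isEA_sup (H51.isEA_of_le hA.2.1 inf_le_right) (H51.isEA_omegaOne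
        (H51.isMulCommutative_iff_le_centralizer.mpr (ctr_le_centralizer_self Q)))
        (le_centralizer_comm.mp (inf_le_left.trans hQV)))
    have e3 := H3.card_inf_mul_relIndex Q A
    have e4 := Subgroup.relIndex_le_of_le_right (H := Q) hA.1 (by rw [i2]; decide)
    have e5 := H3.card_inf_mul_relIndex (Subgroup.centralizer {a}) V
    have e6 : Nat.card (Q ⊓ A ⊓ V : Subgroup X) ≤
        Nat.card (Subgroup.centralizer {a} ⊓ V : Subgroup X) :=
      Subgroup.card_le_of_le (inf_le_inf_right V fun x hx =>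
        Subgroup.mem_centralizer_singleton_iff.mpr ((H51.isEA_iff.mp hA.2.1).1 x hx.2 a ha))
    have p1 := Nat.card_pos (α := (Q ⊓ A : Subgroup X))
    have p2 := Nat.card_pos (α := (Subgroup.centralizer {a} ⊓ V : Subgroup X))
    rw [i2] at e4
    have e7 : Nat.card (Q ⊓ A : Subgroup X) * Nat.card V ≤ Nat.card (Q ⊓ A : Subgroup X) *
        (Nat.card (Subgroup.centralizer {a} ⊓ V : Subgroup X) * 2) := by
      rw [← e1]
      calc _ ≤ (Nat.card (Q ⊓ A : Subgroup X) * 2) *
            Nat.card (Subgroup.centralizer {a} ⊓ V : Subgroup X) :=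
            Nat.mul_le_mul (e2.trans (by rw [← e3]; exact Nat.mul_le_mul_left _ e4)) e6
        _ = _ := by ring
    have e8 := Nat.le_of_mul_le_mul_left e7 p1
    rw [← e5] at e8
    exact Nat.le_of_mul_le_mul_left e8 p2
  -- the dihedral quotient
  obtain ⟨e⟩ := hD
  let φ : G →* DihedralGroup q := e.toMonoidHom.comp (QuotientGroup.mk' _)
  have hφ : ∀ g : G, φ g = 1 ↔ (g : X) ∈ Q := by
    intro g
    rw [hQ, mem_pCoreOf_iff, ← QuotientGroup.eq_one_iff]
    exact e.map_eq_one_iff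
  have : Fact q.Prime := ⟨hq⟩
  have two : (2 : ZMod q) ≠ 0 := by
    intro h
    have := (ZMod.natCast_eq_zero_iff 2 q).mp h
    exact hq2 ((Nat.prime_dvd_prime_iff_eq hq Nat.prime_two).mp this)
  obtain ⟨x, hx⟩ : ∃ x : G, φ x = DihedralGroup.r 1 :=
    (e.surjective.comp (QuotientGroup.mk'_surjective _)) _
  have haa : a * a = 1 := by rw [← sq]; exact hA.2.1.2 a ha
  have hy : φ (⟨a, haG⟩ * (x * ⟨a, haG⟩ * x⁻¹)) = DihedralGroup.r (-2) := by
    have h1 : φ ⟨a, haG⟩ * φ ⟨a, haG⟩ = 1 := by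
      rw [← map_mul, show (⟨a, haG⟩ * ⟨a, haG⟩ : G) = 1 from Subtype.ext haa, map_one]
    have h2 : φ ⟨a, haG⟩ ≠ 1 := fun h => haQ ((hφ _).mp h)
    simp only [map_mul, map_inv, hx]
    rcases hi : φ ⟨a, haG⟩ with i | i
    · exfalso
      rw [hi, DihedralGroup.r_mul_r, DihedralGroup.one_def, DihedralGroup.r.injEq, ← two_mul] at h1
      rw [hi, (mul_eq_zero.mp h1).resolve_left two] at h2
      exact h2 rfl
    · simp only [DihedralGroup.r_mul_sr, DihedralGroup.inv_r, DihedralGroup.sr_mul_r,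
        DihedralGroup.sr_mul_sr]
      congr 1
      ring
  set y : G := ⟨a, haG⟩ * (x * ⟨a, haG⟩ * x⁻¹) with hydef
  have hyq : ((y ^ q : G) : X) ∈ Q := by
    rw [← hφ, map_pow, hy, DihedralGroup.r_pow]
    simp
  obtain ⟨m, hm⟩ := isPGroup_pCoreOf 2 G ⟨_, hyq⟩
  have hm' : ((y : X) ^ 2 ^ m) ^ q = 1 := by
    rw [← pow_mul, mul_comm, pow_mul]
    exact congrArg Subtype.val hm
  have hP : IsPGroup q (Subgroup.zpowers ((y : X) ^ 2 ^ m)) :=
    H51.isEA_isPGroup (H51.isEA_zpowers hm')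
  have hPG : Subgroup.zpowers ((y : X) ^ 2 ^ m) ≤ G := by
    rw [Subgroup.zpowers_le]
    exact G.pow_mem y.2 _
  have hPT : ¬ Subgroup.zpowers ((y : X) ^ 2 ^ m) ≤ T := by
    intro h
    obtain ⟨k, hk⟩ := hT.isPGroup ⟨_, h (Subgroup.mem_zpowers _)⟩
    have hk' : ((y : X) ^ 2 ^ m) ^ 2 ^ k = 1 := congrArg Subtype.val hk
    have : φ ((y ^ 2 ^ m) ^ 2 ^ k) = 1 := by
      rw [show (y ^ 2 ^ m) ^ 2 ^ k = 1 from Subtype.ext hk', map_one]
    rw [map_pow, map_pow, hy, DihedralGroup.r_pow, DihedralGroup.r_pow, DihedralGroup.one_def,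
      DihedralGroup.r.injEq] at this
    simp [two] at this
  have k2 : (Subgroup.centralizer {(x : X) * a * (x : X)⁻¹}).relIndex V ≤ 2 := by
    have : Subgroup.centralizer {(x : X) * a * (x : X)⁻¹} = cj (x : X) (Subgroup.centralizer {a}) := by
      ext g
      rw [mem_map_conj, Subgroup.mem_centralizer_singleton_iff,
        Subgroup.mem_centralizer_singleton_iff]
      constructor
      · intro h
        calc (x : X)⁻¹ * g * x * a = (x : X)⁻¹ * (g * (x * a * (x : X)⁻¹)) * x := by group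
          _ = _ := by rw [h]; group
      · intro h
        calc g * (x * a * (x : X)⁻¹) = x * ((x : X)⁻¹ * g * x * a) * (x : X)⁻¹ := by group
          _ = _ := by rw [h]; group
    rwa [this, ← cj_eq_of_mem_normalizer (hGV x.2),
      Subgroup.relIndex_map_map_of_injective _ _ (MulAut.conj _).injective]
  have k3 : (Subgroup.centralizer (Subgroup.zpowers ((y : X) ^ 2 ^ m) : Set X)).relIndex V ≤ 4 := by
    refine (Subgroup.relIndex_le_of_le_left (H := Subgroup.centralizer {a} ⊓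
      Subgroup.centralizer {(x : X) * a * (x : X)⁻¹}) ?_ Subgroup.FiniteIndex.index_ne_zero).trans
      (Subgroup.relIndex_inf_le.trans (Nat.mul_le_mul k1 k2))
    rw [le_centralizer_comm, Subgroup.zpowers_le]
    apply Subgroup.pow_mem
    rw [Subgroup.mem_centralizer_iff]
    intro g hg
    have h1 := Subgroup.mem_centralizer_singleton_iff.mp hg.1
    have h2 := Subgroup.mem_centralizer_singleton_iff.mp hg.2
    change g * (a * (x * a * (x : X)⁻¹)) = a * (x * a * (x : X)⁻¹) * g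
    rw [← mul_assoc, h1, mul_assoc, h2, ← mul_assoc]
  have k4 := H3.card_modEq_card_inf_centralizer hP (hPG.trans hGV)
  have k5 := H3.card_inf_mul_relIndex
    (Subgroup.centralizer (Subgroup.zpowers ((y : X) ^ 2 ^ m) : Set X)) V
  rw [inf_comm] at k5
  have k6 : (Subgroup.centralizer (Subgroup.zpowers ((y : X) ^ 2 ^ m) : Set X)).relIndex V ≠ 1 := by
    intro h
    apply hZ
    rw [← sup_eq_of_relIndex_prime hq iq hT.le hPG hPT]
    exact sup_le hTc (le_centralizer_comm.mp (hZV.trans (Subgroup.relIndex_eq_one.mp h)))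
  have k7 : (Subgroup.centralizer (Subgroup.zpowers ((y : X) ^ 2 ^ m) : Set X)).relIndex V ≠ 0 :=
    Subgroup.FiniteIndex.index_ne_zero
  obtain ⟨j, hj⟩ := (((isPGroup_pCoreOf 2 G).to_le hVQ).to_inf_left (K := Subgroup.centralizer
    (Subgroup.zpowers ((y : X) ^ 2 ^ m) : Set X))).exists_card_eq
  rw [← k5, hj] at k4
  generalize (Subgroup.centralizer (Subgroup.zpowers ((y : X) ^ 2 ^ m) : Set X)).relIndex V = k
    at k3 k4 k6 k7
  have k8 : k ≡ 1 [MOD q] := Nat.ModEq.cancel_left_of_coprime (c := 2 ^ j)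
    (Nat.Coprime.pow_right _ ((Nat.coprime_primes hq Nat.prime_two).mpr hq2)) (by rwa [mul_one])
  have k9 : q ∣ k - 1 := (Nat.modEq_iff_dvd' (by omega)).mp k8.symm
  have k10 := Nat.le_of_dvd (by omega) k9
  have := hq.two_le
  omega

theorem sims_local [Finite X] [IsSimpleGroup X] (hna : ¬ IsMulCommutative X) {G T : Subgroup X}
    (hG : IsCoatom G) (hc : G ⊓ Subgroup.centralizer (pCoreOf 2 G : Set X) ≤ pCoreOf 2 G)
    (hT : SylIn 2 T G) (hN : ¬ Subgroup.normalizer (T : Set X) ≤ G) {q : ℕ} (hq : q.Prime)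
    (hD : Nonempty (G ⧸ pCore 2 G ≃* DihedralGroup q)) :
    Nonempty (G ≃* Equiv.Perm (Fin 4)) ∨
      Nonempty (G ≃* Multiplicative (ZMod 2) × Equiv.Perm (Fin 4)) := by
  obtain ⟨n, hn, hnG⟩ := SetLike.not_le_iff_exists.mp hN
  have key : ∀ N : Subgroup X, N ≤ G → G ≤ Subgroup.normalizer (N : Set X) →
      ¬ Subgroup.normalizer (N : Set X) ≤ G → N = ⊥ := by
    intro N hN h1 h2
    have : Subgroup.normalizer (N : Set X) = ⊤ := hG.2 _ (lt_of_le_not_ge h1 h2)
    rcases (Subgroup.normalizer_eq_top_iff.mp this).eq_bot_or_eq_top with h | h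
    · exact h
    · exact absurd (top_le_iff.mp (h ▸ hN)) hG.1
  have i2 := relIndex_of_dihedral hD
  have hT0 : T ≠ ⊥ := by
    rintro rfl
    have h1 : pCoreOf 2 G = ⊥ := le_bot_iff.mp (pCoreOf_le_of_sylIn hT)
    have h2 := hT.not_dvd_relIndex
    rw [h1] at i2
    exact h2 (i2 ▸ Dvd.intro _ rfl)
  have hZ : ¬ G ≤ Subgroup.centralizer (omegaOne 2 (ctr T) : Set X) := fun h =>
    omegaOne_ctr_ne_bot hT.isPGroup hT0 (key _ ((omegaOne_ctr_le T).trans hT.le)
      (h.trans (centralizer_le_normalizer' _))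
      fun h' => hnG (h' (normalizer_le_normalizer_omegaOne_ctr T hn)))
  have hJ : ¬ thompsonSubgroupOf 2 T ≤ pCoreOf 2 G := by
    intro h
    refine H51.thompsonSubgroupOf_ne_bot (p := 2) (P := T) ?_ (key _
      ((H51.thompsonSubgroupOf_le 2 T).trans hT.le) ?_
      fun h' => hnG (h' (H51.normalizer_le_normalizer_thompsonSubgroupOf 2 T hn)))
    · exact hT.isPGroup.card_eq_or_dvd.resolve_left fun e => hT0 (Subgroup.card_eq_one.mp e)
    · rw [← H51.thompsonSubgroupOf_eq_of_le h (pCoreOf_le_of_sylIn hT)]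
      exact (le_normalizer_pCoreOf 2 G).trans (H51.normalizer_le_normalizer_thompsonSubgroupOf 2 _)
  obtain rfl := three_of_offender hT hc hq hD hJ hZ
  have hcT := cj_eq_of_mem_normalizer hn
  have hT' : SylIn 2 T (cj n G) := hcT ▸ hT.map_conj n
  have hGG : ¬ cj n G ≤ G := by
    intro h
    have e : cj n G = G := Subgroup.eq_of_le_of_card_ge h (card_map_conj n G).ge
    have := key G le_rfl Subgroup.le_normalizer fun h' => hnG (h' (mem_normalizer_of_cj_eq e))
    exact hT0 (le_bot_iff.mp (this ▸ hT.le))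
  obtain ⟨-, i3⟩ := relIndex_of_six hT i2
  have hinf : G ⊓ cj n G = T := by
    refine le_antisymm ?_ (le_inf hT.le hT'.le)
    by_contra h
    have := sup_eq_of_relIndex_prime Nat.prime_three i3 hT.le inf_le_left h
    apply hGG
    rw [← Subgroup.eq_of_le_of_card_ge (this.ge.trans (sup_le hT'.le inf_le_right))
      (card_map_conj n G).le]
  have s1 : Side G (cj n G) := side_of_six (hinf ▸ hT) i2 hc
  have s2 : Side (cj n G) G := by
    refine side_of_six (by rw [inf_comm, hinf]; exact hT') ?_ ?_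
    · rwa [← cj_pCoreOf, Subgroup.relIndex_map_map_of_injective _ _ (MulAut.conj _).injective]
    · rw [← cj_pCoreOf, ← map_conj_centralizer, ← map_conj_inf]
      exact Subgroup.map_mono hc
  refine (s3_amalgam s1 s2 (fun N h1 h2 h3 => key N (h1.trans inf_le_left) h2
    fun h => hGG (h3.trans h)) (hinf ▸ hZ) ?_).imp And.left And.left
  rw [hinf, ← hcT, ← cj_ctr, ← cj_omegaOne, ← map_conj_centralizer,
    Subgroup.map_le_map_iff_of_injective (MulAut.conj _).injective]
  exact hZ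

end Cfsg.Agent.H84
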