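import Cfsg.Agent.H84.SimsSeq
import Cfsg.Agent.H84.DihQuot
import Cfsg.Agent.H84.Sims

/-!
Glauberman's theorem on a subgroup that is dihedral modulo its 2-core.
-/

set_option autoImplicit false

namespace Cfsg.Agent.H84

open Cfsg Cfsg.Agent.H98
open scoped commutatorElement Pointwise

variable {G : Type*} [Group G]

namespace SimsSys

variable {p t : ℕ} {x : ℤ → G} {X : ℤ → ℤ → Subgroup G}

theorem translate (h : SimsSys p t x X) (k : ℤ) :
    SimsSys p t (fun c => x (c + k)) (fun a b => X (a + k) (b + k)) where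
  prime := h.prime
  mem h1 h2 := h.mem (by omega) (by omega)
  gen h1 h2 := h.gen (by omega) fun c h3 h4 => by simpa using h2 (c - k) (by omega) (by omega)
  card a b j h1 h2 := h.card _ _ j (by omega) h2
  inf h1 h2 h3 h4 h5 := h.inf h1 h2 (by omega) (by omega) (by omega)
  shift j h1 := by simpa [add_right_comm] using h.shift j h1

theorem not_mem (h : SimsSys p t x X) {a b : ℤ} (h0 : a ≤ b) (h1 : b - a < t) :
    x a ∉ X (a + 1) b := by
  intro hm
  have h2 : X a b ≤ X (a + 1) b := h.gen h1 fun c h3 h4 => by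
    rcases h3.eq_or_lt with rfl | h5
    · exact hm
    · exact h.mem (by omega) h4
  have := h.relIndexL h0 h1
  rw [Subgroup.relIndex_eq_one.mpr h2] at this
  exact h.prime.one_lt.ne this

theorem cases_two (h : SimsSys 2 t x X) {a b : ℤ} (h0 : a ≤ b) (h1 : b - a < t) {w : G}
    (hw : w ∈ X a b) : w ∈ X (a + 1) b ∨ x a * w ∈ X (a + 1) b := by
  rw [or_iff_not_imp_left]
  intro hn
  exact (Subgroup.mul_mem_iff_of_index_two (h.relIndexL h0 h1) (a := ⟨x a, h.mem le_rfl h0⟩)
    (b := ⟨w, hw⟩)).mpr (iff_of_false (h.not_mem h0 h1) hn)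

theorem mul_self (h : SimsSys 2 t x X) (ht : 1 ≤ t) (c : ℤ) : x c * x c = 1 := by
  rw [← pow_two, h.pow_eq_one ht]

theorem eq_of_mem (h : SimsSys 2 t x X) (ht : 1 ≤ t) {a : ℤ} {w : G} (hw : w ∈ X a a) :
    w = 1 ∨ w = x a :=
  (h.cases_two le_rfl (by omega) hw).imp (fun h1 => h.eq_one h1 (by omega)) fun h1 => by
    rw [← inv_eq_of_mul_eq_one_right (h.eq_one h1 (by omega)),
      inv_eq_of_mul_eq_one_right (h.mul_self ht a)]

theorem mul_self_of_mem (h : SimsSys 2 t x X) (ht : 1 ≤ t) {a b : ℤ} (h1 : b - a < t)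
    (hc : ∀ c d, a ≤ c → c ≤ b → a ≤ d → d ≤ b → Commute (x c) (x d)) {w : G} (hw : w ∈ X a b) :
    w * w = 1 := by
  have hA : X a b ≤ Subgroup.centralizer (X a b : Set G) := fun u hu v hv =>
    h.commute_of_mem h1 hv fun c h2 h3 =>
      (h.commute_of_mem h1 hu fun d h4 h5 => hc d c h4 h5 h2 h3).symm
  rw [← pow_two]
  exact ((mem_omegaOne_iff_of_comm hA).mp (h.gen (H := omegaOne 2 (X a b)) h1
    (fun c h2 h3 => mem_omegaOne_of (h.mem h2 h3) (h.pow_eq_one ht c)) hw)).2

theorem mem_normalizer (h : SimsSys p t x X) {a b : ℤ} (h1 : b - a < t) {v : G}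
    (hv : ∀ c, a ≤ c → c ≤ b → ⁅v, x c⁆ ∈ X a b) : v ∈ Subgroup.normalizer (X a b : Set G) := by
  have : Finite (X a b : Set G) := h.finite h1
  refine Subgroup.mem_normalizer_fintype fun w hw =>
    h.gen (H := (X a b).comap (MulAut.conj v).toMonoidHom) h1 (fun c h2 h3 => ?_) hw
  have := Subgroup.mul_mem _ (hv c h2 h3) (h.mem h2 h3)
  rwa [commutatorElement_def, inv_mul_cancel_right] at this

theorem six (h : SimsSys 2 6 x X)
    (hu : ∀ a b : ℤ, a - b < 4 → b - a < 4 → Commute (x a) (x b))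
    (hnu : ∀ a : ℤ, ¬ Commute (x a) (x (a + 4))) (a : ℤ) :
    ⁅x a, x (a + 5)⁆ ∈ X (a + 2) (a + 4) := by
  have hw := h.comm (a := a) (b := a + 5) (by omega) (by omega) (h.mem le_rfl (by omega))
    (h.mem (c := a + 5) (by omega) le_rfl)
  rw [show a + 5 - 1 = a + 4 by omega] at hw
  have h2 := h.mul_self_of_mem (by omega) (by omega)
    (fun c d _ _ _ _ => hu c d (by omega) (by omega)) hw
  have hb := h.mul_self (by omega) (a + 5)
  have hc : ⁅x a, x (a + 5)⁆ * x (a + 5) = x (a + 5) * ⁅x a, x (a + 5)⁆ := by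
    conv_rhs => rw [← inv_eq_of_mul_eq_one_right h2]
    rw [commutatorElement_inv, commutatorElement_def, commutatorElement_def, inv_mul_cancel_right,
      ← mul_assoc, ← mul_assoc, ← mul_assoc, hb, one_mul, inv_eq_of_mul_eq_one_right hb]
  by_contra hn
  apply hnu (a + 1)
  rw [show a + 1 + 4 = a + 5 by omega]
  exact Subgroup.mem_centralizer_singleton_iff.mp (h.maxL (H := Subgroup.centralizer {x (a + 5)})
    (by omega) (by omega) hw (by rwa [show a + 1 + 1 = a + 2 by omega])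
    (Subgroup.mem_centralizer_singleton_iff.mpr hc) (h.gen (by omega) fun c h1 h2 =>
      Subgroup.mem_centralizer_singleton_iff.mpr (hu _ _ (by omega) (by omega)))
    (h.mem le_rfl (by omega)))

end SimsSys

theorem commute_cube {a b v₁ v₂ v₃ : G} (ha : a * a = 1) (hb : b * b = 1) (h1 : Commute a v₁)
    (h2 : Commute b v₂) (h3 : a * v₂ * a⁻¹ = v₃) (h4 : b * v₁ * b⁻¹ = v₃) :
    Commute v₁ ((a * b) ^ 3) ∧ Commute v₂ ((a * b) ^ 3) := by
  have e3 : a * v₃ * a⁻¹ = v₂ := by
    rw [← h3, ← mul_assoc, ← mul_assoc, ha, mul_assoc, ← mul_inv_rev, ha]; simp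
  have e4 : b * v₃ * b⁻¹ = v₁ := by
    rw [← h4, ← mul_assoc, ← mul_assoc, hb, mul_assoc, ← mul_inv_rev, hb]; simp
  have k : ∀ v, a * b * v * (a * b)⁻¹ = a * (b * v * b⁻¹) * a⁻¹ := fun v => by group
  have k1 : a * b * v₁ * (a * b)⁻¹ = v₂ := by rw [k, h4, e3]
  have k2 : a * b * v₂ * (a * b)⁻¹ = v₃ := by rw [k, h2.eq, mul_inv_cancel_right, h3]
  have k3 : a * b * v₃ * (a * b)⁻¹ = v₁ := by rw [k, e4, h1.eq, mul_inv_cancel_right]
  have k' : ∀ v, (a * b) ^ 3 * v * ((a * b) ^ 3)⁻¹ =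
      a * b * (a * b * (a * b * v * (a * b)⁻¹) * (a * b)⁻¹) * (a * b)⁻¹ := fun v => by
    generalize a * b = r
    rw [pow_succ, pow_two]
    group
  constructor
  · exact (mul_inv_eq_iff_eq_mul.mp (by rw [k', k1, k2, k3])).symm
  · exact (mul_inv_eq_iff_eq_mul.mp (by rw [k', k2, k3, k1])).symm

theorem mem_centralizer_subgroupOf {Q H : Subgroup G} (hQ : Q ≤ H) {g : H} :
    g ∈ Subgroup.centralizer ((Q.subgroupOf H : Subgroup H) : Set H) ↔
      (g : G) ∈ Subgroup.centralizer (Q : Set G) :=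
  ⟨fun h q hq => congrArg Subtype.val (h ⟨q, hQ hq⟩ hq), fun h q hq => Subtype.ext (h q hq)⟩

theorem glauberman_core [Finite G] {t n : ℕ} {x : ℤ → G} {X : ℤ → ℤ → Subgroup G}
    (h : SimsSys 2 t x X) (ht : 2 ≤ t) {g : G} (hsh : ∀ c, x (c + 1) = g⁻¹ * x c * g)
    {H : Subgroup G} (hP : ∀ c : ℤ, 1 ≤ c → c ≤ t + 1 → x c ∈ H)
    (hH : ∀ K : Subgroup G, (∀ c : ℤ, 1 ≤ c → c ≤ t + 1 → x c ∈ K) → H ≤ K)
    (hn : Odd n) (hpow : (x 1 * x (t + 1)) ^ n ∈ X 2 t)
    (hN : ∀ N ≤ X 2 (t + 1),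
      (∀ c : ℤ, 1 ≤ c → c ≤ t + 2 → x c ∈ Subgroup.normalizer (N : Set G)) → N = ⊥) :
    (t = 2 ∨ t = 3 ∨ t = 4) ∧
    (Nonempty (H ⧸ oddCore H ≃* Multiplicative (ZMod 2) × Multiplicative (ZMod 2)) ∨
     Nonempty (H ⧸ oddCore H ≃* Equiv.Perm (Fin 4)) ∨
     Nonempty (H ⧸ oddCore H ≃* Equiv.Perm (Fin 4) × Multiplicative (ZMod 2))) := by
  have ht1 : 1 ≤ t := by omega
  obtain ⟨u, hu1, hut, htu, hu, hnu⟩ := h.exists_u ht1
  have c1 : ∀ {a b c d : ℤ}, a - b < u → b - a < u → ⁅x a, x b⁆ ∈ X c d := fun h1 h2 => by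
    rw [commutatorElement_eq_one_iff_commute.mpr (hu _ _ h1 h2)]
    exact Subgroup.one_mem _
  have hne : ∀ a b : ℤ, a ≤ b → X a b ≠ ⊥ := fun a b hab e =>
    h.ne_one ht1 a (Subgroup.mem_bot.mp (e ▸ h.mem le_rfl hab))
  have key : 2 * u ≤ t + 2 := by
    by_contra hlt
    exact hne u u le_rfl (hN _ (h.mono (by omega) (by omega) (by omega)) fun c h1 h2 =>
      h.mem_normalizer (by omega) fun d h3 h4 => c1 (by omega) (by omega))
  have h6 : t ≠ 6 := by
    rintro rfl
    obtain rfl : u = 4 := by omega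
    have k4 : ∀ a : ℤ, ⁅x a, x (a + 4)⁆ ∈ X (a + 2) (a + 2) := fun a => by
      have := (hnu (by omega) a).2
      push_cast at this
      convert this using 2 <;> omega
    have k5 := h.six hu fun a => (hnu (by omega) a).1
    have k5' : ∀ a : ℤ, ⁅x (a + 5), x a⁆ ∈ X (a + 1) (a + 3) := fun a => by
      have := h.rev.six (fun a b h1 h2 => hu _ _ (by omega) (by omega))
        (fun b h' => (hnu (by omega) (-(b + 4))).1 (by simpa using h'.symm)) (-(a + 5))
      convert this using 2 <;> first | omega | (congr 1; omega)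
    have k4' : ∀ a : ℤ, ⁅x (a + 4), x a⁆ ∈ X (a + 2) (a + 2) := fun a => by
      rw [← commutatorElement_inv]
      exact Subgroup.inv_mem _ (k4 a)
    refine hne 3 6 (by omega) (hN _ (h.mono (by omega) (by omega) (by omega)) fun c h1 h2 =>
      h.mem_normalizer (by omega) fun d h3 h4 => ?_)
    rcases (by omega : (c - d < 4 ∧ d - c < 4) ∨ d = c + 4 ∨ d = c + 5 ∨ c = d + 4 ∨ c = d + 5)
      with h5 | rfl | rfl | rfl | rfl
    · exact c1 h5.1 h5.2
    · exact h.mono (by omega) (by omega) (by omega) (k4 c)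
    · exact h.mono (by omega) (by omega) (by omega) (k5 c)
    · exact h.mono (by omega) (by omega) (by omega) (k4' d)
    · exact h.mono (by omega) (by omega) (by omega) (k5' d)
  have hQH : X 2 t ≤ H := h.gen (by omega) fun c h1 h2 => hP c (by omega) (by omega)
  have hQn : H ≤ Subgroup.normalizer (X 2 t : Set G) := hH _ fun c h1 h2 =>
    h.mem_normalizer (by omega) fun d h3 h4 => by
      by_cases hc : c ≤ t
      · exact h.mono (by omega) (by omega) (by omega) (h.comm (a := 1) (b := t) (by omega)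
          (by omega) (h.mem h1 hc) (h.mem (by omega) h4))
      · exact h.mono (by omega) (by omega) (by omega) (h.comm (a := 2) (b := t + 1) (by omega)
          (by omega) (h.mem (by omega) h2) (h.mem h3 (by omega)))
  have D : DihData ((X 2 t).subgroupOf H) ⟨x 1, hP 1 le_rfl (by omega)⟩
      ⟨x (t + 1), hP _ (by omega) le_rfl⟩ n :=
    ⟨(normal_subgroupOf_iff_le_normalizer' hQH).mpr hQn, fun q hq => Subtype.ext
      (h.mul_self_of_mem ht1 (by omega) (fun c d _ _ _ _ => hu c d (by omega) (by omega)) hq), hn,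
      Subtype.ext (h.mul_self ht1 _), Subtype.ext (h.mul_self ht1 _), fun K h1 h2 h3 => by
        have : H ≤ K.map H.subtype := hH _ fun c h4 h5 => by
          rcases h4.eq_or_lt with rfl | h4
          · exact ⟨_, h2, rfl⟩
          rcases h5.eq_or_lt with rfl | h5
          · exact ⟨_, h3, rfl⟩
          exact ⟨⟨_, hP c (by omega) (by omega)⟩, h1 (h.mem (by omega) (by omega)), rfl⟩
        refine eq_top_iff.mpr fun w _ => ?_
        obtain ⟨v, hv, e⟩ := this w.2
        exact (show v = w from Subtype.ext e) ▸ hv, hpow⟩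
  have hc : Nat.card ((X 2 t).subgroupOf H) = 2 ^ (t - 1) := by
    rw [Nat.card_congr (Subgroup.subgroupOfEquivOfLe hQH).toEquiv]
    exact h.card _ _ _ (by omega) (by omega)
  have hC : ∀ v : G, (∀ c : ℤ, 2 ≤ c → c ≤ t → Commute (x c) v) →
      v ∈ Subgroup.centralizer (X 2 t : Set G) := fun v hv q hq =>
    h.commute_of_mem (by omega) hq hv
  have hC' : u < t → t ≤ u + 1 → x 1 * x (t + 1) ∉ Subgroup.centralizer (X 2 t : Set G) := by
    intro h1 h2 h3
    apply (hnu h1 2).1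
    rw [show (2 : ℤ) + u = t + 1 by omega]
    have e := h3 _ (h.mem (c := 2) le_rfl (by omega))
    rw [← mul_assoc, (hu 2 1 (by omega) (by omega)).eq, mul_assoc, mul_assoc, mul_right_inj] at e
    exact e
  have conj : ∀ {a b w : G}, ⁅a, b⁆ = w → a * b * a⁻¹ = w * b := fun e => by
    rw [← e, commutatorElement_def, inv_mul_cancel_right]
  have conj' : ∀ {a b w : G}, a * a = 1 → b * b = 1 → ⁅a, b⁆ = w → b * a * b⁻¹ = a * w :=
    fun ha hb e => by
      rw [← e, commutatorElement_def, inv_eq_of_mul_eq_one_right ha, ← mul_assoc, ← mul_assoc,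
        ← mul_assoc, ha, one_mul]
  have sh : ∀ a b : ℤ, ⁅x (a + 1), x (b + 1)⁆ = g⁻¹ * ⁅x a, x b⁆ * g := fun a b => by
    simp only [hsh, commutatorElement_def]; group
  rcases (by omega : (t = 2 ∧ u = 2) ∨ (t = 3 ∧ u = 2) ∨ (t = 4 ∧ u = 3)) with
    ⟨rfl, rfl⟩ | ⟨rfl, rfl⟩ | ⟨rfl, rfl⟩
  · refine ⟨by omega, Or.inl (D.nonempty_four hc (h.not_mem (a := 1) (by omega) (by omega))
      ((mem_centralizer_subgroupOf hQH).mpr (hC _ fun c _ _ => hu _ _ (by omega) (by omega)))
      ((mem_centralizer_subgroupOf hQH).mpr (hC _ fun c _ _ => hu _ _ (by omega) (by omega))))⟩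
  · have k : ∀ a : ℤ, ⁅x a, x (a + 2)⁆ = x (a + 1) := fun a => by
      obtain ⟨h1, h2⟩ := hnu (by omega) a
      have h3 : ⁅x a, x (a + 2)⁆ ∈ X (a + 1) (a + 1) := by
        push_cast at h2
        convert h2 using 2 <;> omega
      exact (h.eq_of_mem ht1 h3).resolve_left fun e => h1 (commutatorElement_eq_one_iff_commute.mp e)
    have k3 := commute_cube (h.mul_self ht1 1) (h.mul_self ht1 4) (hu 1 2 (by omega) (by omega))
      (hu 4 3 (by omega) (by omega)) (conj (k 1))
      (conj' (h.mul_self ht1 2) (h.mul_self ht1 4) (k 2))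
    refine ⟨by omega, Or.inr (Or.inl (D.nonempty_S4 ((mem_centralizer_subgroupOf hQH).mpr
      (hC _ fun c h1 h2 => ?_)) (fun e => hC' (by omega) (by omega)
        ((mem_centralizer_subgroupOf hQH).mp e)) hc))⟩
    rcases (by omega : c = 2 ∨ c = 3) with rfl | rfl
    exacts [k3.1, k3.2]
  · have hq : ∀ c : ℤ, 2 ≤ c → c ≤ 4 → Commute ((x 1 * x 5) ^ n) (x c) := fun c h1 h2 =>
      h.commute_of_mem (by omega) hpow fun d _ _ => hu _ _ (by omega) (by omega)
    have c3 : Commute (x 1 * x 5) (x 3) :=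
      (hu 1 3 (by omega) (by omega)).mul_left (hu 5 3 (by omega) (by omega))
    have k : ⁅x 1, x 4⁆ = x 2 * x 3 := by
      obtain ⟨h1, h2⟩ := hnu (by omega) 1
      have h3 : ⁅x 1, x 4⁆ ∈ X 2 3 := h2
      rcases h.cases_two (by omega) (by omega) h3 with h4 | h4
      · exfalso
        rcases h.eq_of_mem ht1 h4 with h5 | h5
        · exact h1 (commutatorElement_eq_one_iff_commute.mp h5)
        · refine h.ne_one ht1 3 (eq_one_of_conj_eq_mul hn (h.mul_self ht1 3) c3 (v := x 4) ?_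
            (hq 4 (by omega) le_rfl))
          rw [mul_assoc (x 1), (hu 5 4 (by omega) (by omega)).eq,
            (hu 4 3 (by omega) (by omega)).eq, ← conj (show _ = x 3 from h5)]
          group
      · rcases h.eq_of_mem ht1 h4 with h5 | h5
        · exfalso
          have h6 : ⁅x 1, x 4⁆ = x 2 := by
            rw [← inv_eq_of_mul_eq_one_right h5, inv_eq_of_mul_eq_one_right (h.mul_self ht1 2)]
          have h7 : ⁅x 2, x 5⁆ = x 3 := by
            have := sh 1 4
            rw [h6, ← hsh] at this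
            exact this
          refine h.ne_one ht1 3 (eq_one_of_conj_eq_mul hn (h.mul_self ht1 3) c3 (v := x 2) ?_
            (hq 2 le_rfl (by omega)))
          rw [show x 1 * x 5 * x 2 * (x 1 * x 5)⁻¹ = x 1 * (x 5 * x 2 * (x 5)⁻¹) * (x 1)⁻¹ by group,
            conj' (h.mul_self ht1 2) (h.mul_self ht1 5) h7, ((hu 1 2 (by omega) (by omega)).mul_right
              (hu 1 3 (by omega) (by omega))).eq, mul_inv_cancel_right]
        · rw [← show x 2 * ⁅x 1, x 4⁆ = x 3 from h5, ← mul_assoc, h.mul_self ht1, one_mul]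
    have k' : ⁅x 2, x 5⁆ = x 3 * x 4 := by
      have := sh 1 4
      rw [k, show g⁻¹ * (x 2 * x 3) * g = g⁻¹ * x 2 * g * (g⁻¹ * x 3 * g) by group, ← hsh,
        ← hsh] at this
      exact this
    have k3 := commute_cube (h.mul_self ht1 1) (h.mul_self ht1 5) (hu 1 2 (by omega) (by omega))
      (hu 5 4 (by omega) (by omega)) (conj k)
      (by rw [conj' (h.mul_self ht1 2) (h.mul_self ht1 5) k', mul_assoc])
    have m2 : x 2 ∈ X 2 4 := h.mem le_rfl (by omega)
    have m3 : x 3 ∈ X 2 4 := h.mem (by omega) (by omega)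
    refine ⟨by omega, Or.inr (Or.inr (D.nonempty_S4_two ((mem_centralizer_subgroupOf hQH).mpr
      (hC _ fun c h1 h2 => ?_)) (fun e => hC' (by omega) (by omega)
        ((mem_centralizer_subgroupOf hQH).mp e)) hc (c := ⟨x 3, hQH m3⟩)
        (z := ⟨x 2 * x 3, hQH (Subgroup.mul_mem _ m2 m3)⟩) m3 (Subgroup.mul_mem _ m2 m3)
        (Subgroup.mem_center_iff.mpr fun w => Subtype.ext ?_)
        (fun e => h.ne_one ht1 3 (congrArg Subtype.val e))
        (fun e => h.ne_one ht1 2 (mul_eq_right.mp (congrArg Subtype.val e).symm)) ?_))⟩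
    · rcases (by omega : c = 2 ∨ c = 3 ∨ c = 4) with rfl | rfl | rfl
      exacts [k3.1, c3.symm.pow_right 3, k3.2]
    · exact Subgroup.mem_centralizer_singleton_iff.mp (hH (Subgroup.centralizer {x 3})
        (fun c _ _ => Subgroup.mem_centralizer_singleton_iff.mpr (hu _ _ (by omega) (by omega)))
        w.2)
    · rintro ⟨q, hqH⟩ hq'
      have hq : q ∈ X 2 4 := hq'
      have e : q * x 1 * (q * x 1) = ⁅q, x 1⁆ := by
        rw [commutatorElement_def, inv_eq_of_mul_eq_one_right (h.mul_self ht1 1),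
          inv_eq_of_mul_eq_one_right (h.mul_self_of_mem ht1 (by omega)
            (fun c d _ _ _ _ => hu c d (by omega) (by omega)) hq), mul_assoc _ q]
      have c23 : ∀ w ∈ X 2 3, Commute w (x 1) := fun w hw =>
        h.commute_of_mem (by omega) hw fun c _ _ => hu _ _ (by omega) (by omega)
      rcases h.rev.cases_two (a := -4) (b := -2) (by omega) (by omega) hq with h1 | h1
      · exact Subgroup.mem_zpowers_iff.mpr ⟨0, (zpow_zero _).trans (Subtype.ext
          (e.trans (commutatorElement_eq_one_iff_commute.mpr (c23 _ h1))).symm)⟩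
      · refine ⟨-1, Subtype.ext ?_⟩
        have h2 := c23 _ h1
        simp only [neg_neg] at h2
        change (x 2 * x 3) ^ (-1 : ℤ) = q * x 1 * (q * x 1)
        rw [e, zpow_neg_one, ← k, commutatorElement_inv, show q = (x 4)⁻¹ * (x 4 * q) by group,
          commutatorElement_def _ (x 1), commutatorElement_def, mul_assoc _ _ (x 1), h2.eq,
          inv_eq_of_mul_eq_one_right (h.mul_self ht1 4), mul_inv_rev,
          inv_eq_of_mul_eq_one_right (h.mul_self ht1 4)]
        group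

theorem dihedral_core {H : Type*} [Group H] {n : ℕ} (hn : 2 ≤ n)
    (e : H ⧸ pCore 2 H ≃* DihedralGroup n) :
    Odd n ∧ (∀ a b : H, a ∉ pCore 2 H → b ∉ pCore 2 H → (∃ k, a ^ 2 ^ k = 1) →
      (∃ k, b ^ 2 ^ k = 1) → (a * b) ^ n ∈ pCore 2 H) ∧
    ∃ h : H, ∀ a : H, a ∉ pCore 2 H → (∃ k, a ^ 2 ^ k = 1) →
      ∀ K : Subgroup H, pCore 2 H ≤ K → a ∈ K → h⁻¹ * a * h ∈ K → K = ⊤ := by
  let φ : H →* DihedralGroup n := e.toMonoidHom.comp (QuotientGroup.mk' _)
  have hφ : ∀ g : H, φ g = 1 ↔ g ∈ pCore 2 H := by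
    intro g
    rw [← QuotientGroup.eq_one_iff]
    exact e.map_eq_one_iff
  have hker : φ.ker = pCore 2 H := Subgroup.ext hφ
  have hs : Function.Surjective φ := e.surjective.comp (QuotientGroup.mk'_surjective _)
  have hodd : Odd n := by
    by_contra h
    obtain ⟨m, hm⟩ := Nat.not_odd_iff_even.mp h
    have h2 : (m : ZMod n) + m = 0 := by rw [← Nat.cast_add, ← hm, ZMod.natCast_self]
    have hz : DihedralGroup.r (m : ZMod n) ∈ Subgroup.center (DihedralGroup n) :=
      Subgroup.mem_center_iff.mpr fun g => by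
        rcases g with i | i
        · simp [add_comm]
        · simp only [DihedralGroup.sr_mul_r, DihedralGroup.r_mul_sr]
          rw [sub_eq_add_neg, neg_eq_of_add_eq_zero_right h2]
    have hN : (Subgroup.zpowers (DihedralGroup.r (m : ZMod n))).Normal :=
      ⟨fun w hw g => by
        rwa [Subgroup.mem_center_iff.mp (Subgroup.zpowers_le.mpr hz hw) g, mul_inv_cancel_right]⟩
    have hp : IsPGroup 2 (Subgroup.zpowers (DihedralGroup.r (m : ZMod n))) :=
      H51.isEA_isPGroup (H51.isEA_zpowers (by rw [pow_two, DihedralGroup.r_mul_r, h2]; rfl))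
    obtain ⟨g, hg⟩ := hs (DihedralGroup.r m)
    have := le_pCore (hN.comap φ) (hp.comap_of_ker_isPGroup φ (hker ▸ isPGroup_pCore 2 H))
      (Subgroup.mem_comap.mpr (by rw [hg]; exact Subgroup.mem_zpowers _) : g ∈ _)
    rw [← hφ, hg, DihedralGroup.one_def, DihedralGroup.r.injEq, ZMod.natCast_eq_zero_iff] at this
    have := Nat.le_of_dvd (by omega) this
    omega
  have hsr : ∀ a : H, a ∉ pCore 2 H → (∃ k, a ^ 2 ^ k = 1) → ∃ i, φ a = DihedralGroup.sr i := by
    rintro a ha ⟨k, hk⟩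
    rcases hi : φ a with i | i
    · exfalso
      apply ha
      rw [← hφ, ← orderOf_eq_one_iff]
      refine Nat.eq_one_of_dvd_coprimes ((Nat.coprime_two_left.mpr hodd).pow_left k)
        (orderOf_dvd_of_pow_eq_one (by rw [← map_pow, hk, map_one]))
        (orderOf_dvd_of_pow_eq_one ?_)
      rw [hi, DihedralGroup.r_pow]
      simp
    · exact ⟨i, rfl⟩
  refine ⟨hodd, fun a b ha hb ha' hb' => ?_, ?_⟩
  · obtain ⟨i, hi⟩ := hsr a ha ha'
    obtain ⟨j, hj⟩ := hsr b hb hb'
    rw [← hφ, map_pow, map_mul, hi, hj, DihedralGroup.sr_mul_sr, DihedralGroup.r_pow]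
    simp
  · obtain ⟨h, hh⟩ := hs (DihedralGroup.r 1)
    refine ⟨h, fun a ha ha' K hK h1 h2 => ?_⟩
    obtain ⟨i, hi⟩ := hsr a ha ha'
    have k1 : DihedralGroup.sr i ∈ K.map φ := ⟨a, h1, hi⟩
    have k2 : DihedralGroup.r 2 ∈ K.map φ := ⟨_, K.mul_mem h1 h2, by
      simp only [map_mul, map_inv, hi, hh, DihedralGroup.r_mul_sr, DihedralGroup.inv_r,
        DihedralGroup.sr_mul_r, DihedralGroup.sr_mul_sr]
      congr 1
      ring⟩
    have k3 : ∀ j, DihedralGroup.r j ∈ K.map φ := fun j => by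
      obtain ⟨j, rfl⟩ := ZMod.intCast_surjective j
      obtain ⟨m, hm⟩ := hodd
      have := Subgroup.zpow_mem _ (Subgroup.pow_mem _ k2 (m + 1)) j
      rwa [DihedralGroup.r_pow, show (2 : ZMod n) * ((m + 1 : ℕ) : ZMod n) = 1 by
        have : ((2 * m + 1 : ℕ) : ZMod n) = 0 := by rw [← hm, ZMod.natCast_self]
        push_cast at this ⊢
        linear_combination this, DihedralGroup.r_one_zpow] at this
    have k4 : K.map φ = ⊤ := eq_top_iff.mpr fun w _ => by
      rcases w with j | j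
      · exact k3 j
      · simpa using Subgroup.mul_mem _ k1 (k3 (j - i))
    rw [← Subgroup.comap_map_eq_self (show φ.ker ≤ K from hker ▸ hK), k4, Subgroup.comap_top]

end Cfsg.Agent.H84
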