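import Cfsg.Agent.H89.L27Defs
import Cfsg.Agent.H67.E83Tr4
import Cfsg.Agent.H9.E83Br
import Cfsg.Agent.H50.E83Mu
import Cfsg.Agent.H50.E83Asm

/-! Fixed space dimensions of a dihedral subgroup of order 8 of `E₈(3)` and its four-subgroups. -/

set_option autoImplicit false

namespace Cfsg.Agent.H84.L27Dim

open Module Cfsg.Agent.H50.E83 Cfsg.Agent.H89.L27

section
variable {G : Type*} [Group G] {n : ℕ} [NeZero n] {y s : G}

theorem pow_val_add (hy : y ^ n = 1) (i j : ZMod n) : y ^ (i + j).val = y ^ i.val * y ^ j.val := by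
  rw [ZMod.val_add, ← pow_add, ← pow_eq_pow_mod _ hy]

theorem pow_val_sub (hy : y ^ n = 1) (i j : ZMod n) :
    y ^ (j - i).val = (y ^ i.val)⁻¹ * y ^ j.val := by
  rw [eq_inv_mul_iff_mul_eq, ← pow_val_add hy, add_sub_cancel]

theorem pow_mul_s (hs : s * s = 1) (hsy : s * y * (s * y) = 1) (k : ℕ) :
    y ^ k * s = s * (y ^ k)⁻¹ := by
  have h1 : s⁻¹ = s := inv_eq_of_mul_eq_one_right hs
  have h2 : s * y * s⁻¹ = y⁻¹ := by
    rw [h1, eq_inv_iff_mul_eq_one, ← hsy, mul_assoc]
  have h3 : s * y ^ k * s⁻¹ = (y ^ k)⁻¹ := by rw [← conj_pow, h2, inv_pow]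
  rw [← h3, h1, ← mul_assoc, ← mul_assoc, hs, one_mul]

/-- The homomorphism from the dihedral group. -/
def dih (hy : y ^ n = 1) (hs : s * s = 1) (hsy : s * y * (s * y) = 1) : DihedralGroup n →* G :=
  MonoidHom.mk' (fun g => match g with
    | DihedralGroup.r i => y ^ i.val
    | DihedralGroup.sr i => s * y ^ i.val) (by
      rintro (i | i) (j | j)
      · exact pow_val_add hy i j
      · change s * y ^ (j - i).val = y ^ i.val * (s * y ^ j.val)
        rw [pow_val_sub hy, ← mul_assoc, ← mul_assoc, pow_mul_s hs hsy]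
      · change s * y ^ (i + j).val = s * y ^ i.val * y ^ j.val
        rw [pow_val_add hy, mul_assoc]
      · change y ^ (j - i).val = s * y ^ i.val * (s * y ^ j.val)
        rw [pow_val_sub hy, mul_assoc, ← mul_assoc (y ^ i.val), pow_mul_s hs hsy, ← mul_assoc,
          ← mul_assoc, hs, one_mul])

end

theorem dih_sum {n : ℕ} [NeZero n] (m : ℕ) (hn : 2 * n = 2 ^ m) (h1 : 1 < n) {y s : GK}
    (hy : y ^ n = 1) (hs : s * s = 1) (hsy : s * y * (s * y) = 1) :
    ∑ i : ZMod n, tau (y ^ i.val) + ∑ i : ZMod n, tau (s * y ^ i.val) =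
      2 * n * (finrank K (H50.E83.Fix {y, s}) : ℤ) := by
  have B := H9.E83B.br (DihedralGroup n)
    (IsPGroup.of_card (n := m) (by rw [DihedralGroup.nat_card, hn])) (dih hy hs hsy) 1
  have hF : (⨅ g, eig (dih hy hs hsy g) ((((1 : DihedralGroup n →* ℤˣ) g : ℤˣ) : ℤ) : K) :
      Submodule K V) = H50.E83.Fix {y, s} := by
    ext v
    rw [Submodule.mem_iInf, mem_Fix]
    simp only [mem_eig, MonoidHom.one_apply, Units.val_one, Int.cast_one, one_smul,
      Set.mem_insert_iff, Set.mem_singleton_iff, forall_eq_or_imp,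
      forall_eq]
    constructor
    · intro h
      have a := h (DihedralGroup.r 1)
      have b := h (DihedralGroup.sr 0)
      change act (y ^ (1 : ZMod n).val) v = v at a
      change act (s * y ^ (0 : ZMod n).val) v = v at b
      have : Fact (1 < n) := ⟨h1⟩
      rw [ZMod.val_one, pow_one] at a
      rw [ZMod.val_zero, pow_zero, mul_one] at b
      exact ⟨a, b⟩
    · rintro ⟨a, b⟩
      have c : ∀ k : ℕ, act (y ^ k) v = v := fun k => by
        induction k with
        | zero => simp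
        | succ k ih => rw [pow_succ, map_mul, Module.End.mul_apply, a, ih]
      rintro (i | i)
      · exact c _
      · change act (s * y ^ i.val) v = v
        rw [map_mul, Module.End.mul_apply, c, b]
  rw [hF, DihedralGroup.card, ← DihedralGroup.equivSum.symm.sum_comp, Fintype.sum_sum_type] at B
  simp only [MonoidHom.one_apply, Units.val_one, one_mul, Nat.cast_mul, Nat.cast_ofNat] at B
  exact B

theorem sum2 (f : ℕ → ℤ) : ∑ i : ZMod 2, f i.val = f 0 + f 1 := Fin.sum_univ_two fun i => f i.val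

theorem sum4 (f : ℕ → ℤ) : ∑ i : ZMod 4, f i.val = f 0 + f 1 + f 2 + f 3 :=
  Fin.sum_univ_four fun i => f i.val

theorem dim : DimStmt := by
  intro y s hy hy2 hs hsy c1 c2
  rw [sq] at hs hsy
  have t1 : tau 1 = 248 := muStmt.2.2.2.2.2
  have cj : ∀ {g g' : G0}, IsConj g g' → tau (ι g) = tau (ι g') := fun k =>
    H67.E83Tr4.tau_conj muStmt (ι.map_isConj k)
  have tr := H67.E83Tr4.tr4Stmt muStmt ss
  have y4 : (y ^ 2) ^ 2 = 1 := by rw [← pow_mul]; exact hy
  have ps := pow_mul_s hs hsy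
  have yi : y⁻¹ = y ^ 3 := by rw [inv_eq_iff_mul_eq_one, ← pow_succ', hy]
  have y2i : (y ^ 2)⁻¹ = y ^ 2 := by rw [inv_eq_iff_mul_eq_one, ← sq, y4]
  have k1 : s * y ^ 2 * (s * y ^ 2) = 1 := by
    rw [mul_assoc, ← mul_assoc (y ^ 2), ps, ← mul_assoc, ← mul_assoc, hs, one_mul, inv_mul_cancel]
  have k2 : s * y * y ^ 2 * (s * y * y ^ 2) = 1 := by
    rw [mul_assoc s y, ← pow_succ', mul_assoc, ← mul_assoc (y ^ 3), ps, ← mul_assoc, ← mul_assoc,
      hs, one_mul, inv_mul_cancel]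
  have e1 : IsConj s (s * y ^ 2) := isConj_iff.2 ⟨y⁻¹, by
    have := ps 3
    rw [inv_inv, yi, this, ← yi, inv_inv, mul_assoc, sq]⟩
  have e2 : IsConj (s * y) (s * y ^ 3) := isConj_iff.2 ⟨y⁻¹, by
    have := ps 3
    rw [inv_inv, yi, ← mul_assoc, this, ← yi, inv_inv, yi, mul_assoc, mul_assoc, pow_three]⟩
  have e3 : IsConj y (y ^ 3) := isConj_iff.2 ⟨s, by
    have := ps 3
    rw [mul_inv_eq_iff_eq_mul, this, ← yi, inv_inv]⟩
  have A := dih_sum (n := 4) 3 (by norm_num) (by norm_num) (y := ι y) (s := ι s)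
    (by rw [← map_pow, hy, map_one]) (by rw [← map_mul, hs, map_one])
    (by rw [← map_mul, ← map_mul, hsy, map_one])
  have B := dih_sum (n := 2) 2 (by norm_num) (by norm_num) (y := ι (y ^ 2)) (s := ι s)
    (by rw [← map_pow, y4, map_one]) (by rw [← map_mul, hs, map_one])
    (by rw [← map_mul, ← map_mul, k1, map_one])
  have C := dih_sum (n := 2) 2 (by norm_num) (by norm_num) (y := ι (y ^ 2)) (s := ι (s * y))
    (by rw [← map_pow, y4, map_one]) (by rw [← map_mul, hsy, map_one])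
    (by rw [← map_mul, ← map_mul, k2, map_one])
  rw [sum4 fun k => tau (ι y ^ k), sum4 fun k => tau (ι s * ι y ^ k)] at A
  rw [sum2 fun k => tau (ι (y ^ 2) ^ k), sum2 fun k => tau (ι s * ι (y ^ 2) ^ k)] at B
  rw [sum2 fun k => tau (ι (y ^ 2) ^ k), sum2 fun k => tau (ι (s * y) * ι (y ^ 2) ^ k)] at C
  simp only [pow_zero, pow_one, mul_one, t1, ← map_pow, ← map_mul] at A B C
  rw [mul_assoc s y, ← pow_succ'] at C
  rw [← cj e1, ← cj c1] at B
  rw [← cj e2, ← cj c2] at C
  rw [← cj e1, ← cj e2, ← cj e3, ← cj c1, ← cj c2] at A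
  have T := tr y hy
  have T2 := (tr (y ^ 2) (by rw [show 4 = 2 * 2 from rfl, pow_mul, y4, one_pow])).1 y4 hy2
  push_cast at A B C
  rcases T2 with h | h
  · have := T.2.1 h
    omega
  · have := T.2.2 h
    omega

end Cfsg.Agent.H84.L27Dim
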