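import Cfsg.Agent.H54.O84Defs

/-! The two orthogonal `D₄` subsystem subgroups commute; lifts of the reflection group. -/

set_option autoImplicit false
set_option maxRecDepth 100000

namespace Cfsg.Agent.H84.O84Comm

open Cfsg.Agent.H54.O84 Equiv Cfsg.Lie H37 H40 H34 H29

theorem commute_U : ∀ x ∈ P8.U Δ0, ∀ y ∈ P8.U Δ1, Commute x y := by
  have h1 : ∀ r ∈ Δ0, ∀ x ∈ P8.X r, ∀ y ∈ P8.U Δ1, Commute x y := fun r hr x hx y hy => by
    obtain ⟨t, rfl⟩ := Cert.mem_X.1 hx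
    have : P8.U Δ1 ≤ Subgroup.centralizer {C8.xg K r t} := Split.U_le fun s hs y hy => by
      obtain ⟨u, rfl⟩ := Cert.mem_X.1 hy
      exact Subgroup.mem_centralizer_singleton_iff.2
        (H37.commute_orth (C := C8) H37.orthOKE8 r.2 s.2
          ((H37.pair_eq (C := C8) r s).symm.trans (hs r hr)) t u).symm
    exact (Subgroup.mem_centralizer_singleton_iff.1 (this hy)).symm
  intro x hx y hy
  have : P8.U Δ0 ≤ Subgroup.centralizer {y} := Split.U_le fun r hr x hx =>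
    Subgroup.mem_centralizer_singleton_iff.2 (h1 r hr x hx y hy)
  exact Subgroup.mem_centralizer_singleton_iff.1 (this hx)

theorem comm : CommStmt := by
  refine ⟨commute_U, Split.U_ind_left ⟨1, one_mem _, 1, one_mem _, (mul_one 1).symm⟩ ?_⟩
  rintro r hr z hz _ - ⟨x, hx, y, hy, rfl⟩
  rcases hr with hr | hr
  · exact ⟨z * x, mul_mem (Split.mem_U hr hz) hx, y, hy, (mul_assoc _ _ _).symm⟩
  · have h := Split.mem_U hr hz
    exact ⟨x, hx, z * y, mul_mem h hy, by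
      rw [← mul_assoc, ← mul_assoc, (commute_U x hx z h).eq]⟩

theorem neg_mem_Ψ0 {r : Rt} (hr : r ∈ Ψ0) : C8.S.neg r ∈ Ψ0 := by
  rw [← π_π 0]
  rcases hr with hr | hr
  · exact Or.inl ((π_mem_Δ0 0).2 ((π_mem_Δ1 0).2 hr))
  · exact Or.inr ((π_mem_Δ1 0).2 ((π_mem_Δ0 0).2 hr))

theorem exists_lift {u : Perm Rt} (hu : u ∈ WS Ψ0) : ∃ n ∈ P8.N, n ∈ P8.U Ψ0 ∧ P8.ν n = u := by
  induction hu using Subgroup.closure_induction with
  | mem x hx =>
    obtain ⟨r, hr, rfl⟩ := hx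
    refine ⟨C8.ng K r 1, Cert.ng_mem_N r.2 one_ne_zero, ?_, H37.ν_ng_root r one_ne_zero⟩
    rw [Cert.ng_eq, ← C8.neg_val]
    exact mul_mem (mul_mem (Split.mem_U hr (Cert.xg_mem_X r _))
      (Split.mem_U (neg_mem_Ψ0 hr) (Cert.xg_mem_X _ _))) (Split.mem_U hr (Cert.xg_mem_X r _))
  | one => exact ⟨1, one_mem _, one_mem _, Split.ν_one⟩
  | mul x y _ _ hx hy =>
    obtain ⟨n, h1, h2, rfl⟩ := hx
    obtain ⟨n', h1', h2', rfl⟩ := hy
    exact ⟨n * n', mul_mem h1 h1', mul_mem h2 h2', P8.ν_mul _ h1 _ h1'⟩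
  | inv x _ hx =>
    obtain ⟨n, h1, h2, rfl⟩ := hx
    exact ⟨n⁻¹, inv_mem h1, inv_mem h2, Split.ν_inv h1⟩

theorem nm2 (h1 : Nm1Stmt) : Nm2Stmt := by
  intro n hn h
  obtain ⟨n', a, b, c⟩ := exists_lift h
  have := mul_mem (h1 (Split.mul_inv_mem_H hn a c.symm)) b
  rwa [inv_mul_cancel_right] at this

end Cfsg.Agent.H84.O84Comm
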