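import Cfsg.Agent.H54.O84Defs
import Cfsg.Agent.H30.OrthOmega

/-! The centralisers of the root hyperplanes of the torus `5⁴` lie in `Ω₈⁺(4)`. -/

set_option autoImplicit false

namespace Cfsg.Agent.H84.O84X2

open Module Multiplicative Cfsg.Agent.H54.O84
open scoped Matrix

universe u

theorem even_finrank {F W : Type*} [Field F] [Fintype F] (hF : Fintype.card F = 4) [AddCommGroup W]
    [Module F W] [FiniteDimensional F W] (U : Submodule F W) (z : W ≃ₗ[F] W)
    (hU : ∀ y ∈ U, z y ∈ U) (h5 : z ^ 5 = 1) (h0 : ∀ y, z y = y → y = 0) : Even (finrank F U) := by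
  classical
  have : Finite U := Module.finite_of_finite F
  let _ : Fintype U := Fintype.ofFinite U
  have : Fact (Nat.Prime 5) := ⟨by norm_num⟩
  let f : Function.End U := fun y => ⟨z y, hU y y.2⟩
  have hk : ∀ (k : ℕ) (y : U), (((f ^ k) y : U) : W) = (z ^ k) y := fun k => by
    induction k with
    | zero => intro y; rfl
    | succ k ih =>
      intro y
      rw [pow_succ', pow_succ', LinearEquiv.mul_apply, ← ih]
      rfl
  have h1 : f ^ 5 ^ 1 = 1 := funext fun y => Subtype.ext (by rw [hk, pow_one, h5]; rfl)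
  have h2 := Equiv.Perm.card_fixedPoints_modEq h1
  have h3 : Fintype.card (Function.fixedPoints f) = 1 :=
    Fintype.card_eq_one_iff.2 ⟨⟨0, Subtype.ext (map_zero z)⟩, fun y =>
      Subtype.ext (Subtype.ext (h0 _ (congrArg Subtype.val y.2)))⟩
  rw [h3, Module.card_eq_pow_finrank (K := F), hF] at h2
  by_contra h
  obtain ⟨k, hk⟩ := Nat.not_even_iff_odd.1 h
  rw [hk, pow_succ, pow_mul] at h2
  have h4 : (4 ^ 2) ^ k * 4 ≡ 1 ^ k * 4 [MOD 5] := (Nat.ModEq.pow k (by decide)).mul_right 4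
  rw [one_pow] at h4
  exact absurd (h4.symm.trans h2) (by decide)

theorem exists_x : ∀ k : Fin 12, ∃ x : V, x ⬝ᵥ lam k = 0 ∧ ∀ i, x i ≠ 0 := by
  have : ∀ k : Fin 12, ∃ a ∈ [(1 : ZMod 5), 4], ∃ b ∈ [(1 : ZMod 5), 4], ∃ c ∈ [(1 : ZMod 5), 4],
      (![1, a, b, c] : V) ⬝ᵥ lam k = 0 ∧ ∀ i, (![1, a, b, c] : V) i ≠ 0 := by decide +kernel
  intro k
  obtain ⟨a, -, b, -, c, -, h⟩ := this k
  exact ⟨_, h⟩

theorem x2 (h0 : X0Stmt.{u}) : X2Stmt.{u} := by
  intro F _ _ o hF ho ζ b hb k g hg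
  obtain ⟨hQ, hexc, -⟩ := h0 F o hF ho
  have h4 : ∀ r : F, r ^ 4 = r := fun r => hF ▸ FiniteField.pow_card r
  have h2 : (2 : F) = 0 := by
    have : ((Fintype.card F : ℕ) : F) = 0 := FiniteField.cast_card_eq_zero F
    rw [hF] at this
    exact pow_eq_zero_iff (n := 2) (by norm_num) |>.1 (by rw [← this]; norm_num)
  have : Fact (∀ r : F, r ^ 2 ≠ o + 1 * r) := ⟨fun r hr => by
    have e : o = r ^ 2 - r := by rw [hr]; ring
    have := h4 r
    rw [e] at ho
    refine one_ne_zero (α := F) ?_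
    linear_combination ho - this + (r ^ 3 - r ^ 2) * h2⟩
  rw [H30.commutator_eq_kerDS hQ hexc, H30.mem_kerDS]
  constructor
  · obtain ⟨x, hx, hx0⟩ := exists_x k
    have hc : b (ofAdd x) * g = g * b (ofAdd x) := hg _ ⟨x, hx, rfl⟩
    have hc' : ∀ y, (b (ofAdd x)).1 (g.1 y) = g.1 ((b (ofAdd x)).1 y) := fun y =>
      congrArg (fun t : H30.O (Qn F o) => t.1 y) hc
    rw [H30.dickson_apply]
    refine Even.neg_one_pow (even_finrank hF _ (b (ofAdd x)).1 ?_ ?_ ?_)
    · rintro _ ⟨y, rfl⟩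
      refine ⟨(b (ofAdd x)).1 y, ?_⟩
      simp only [LinearMap.sub_apply, LinearEquiv.coe_coe, LinearMap.id_apply, map_sub, hc']
    · rw [← Subgroup.coe_pow, ← map_pow, ← ofAdd_nsmul,
        show (5 : ℕ) • x = 0 from funext fun i => by
          rw [Pi.smul_apply, nsmul_eq_mul]; exact mul_eq_zero_of_left rfl _,
        ofAdd_zero, map_one]
      rfl
    · intro y hy
      funext i
      have e := congrFun hy i
      rw [hb.2.2] at e
      have e2 : (ζ ^ (x i).val - 1) * y i = 0 := by rw [sub_mul, e, one_mul, sub_self]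
      refine (mul_eq_zero.1 e2).resolve_left fun h => hx0 i ?_
      have h5 := orderOf_dvd_of_pow_eq_one (sub_eq_zero.1 h)
      rw [hb.1] at h5
      exact (ZMod.val_eq_zero _).1 (Nat.eq_zero_of_dvd_of_lt h5 (ZMod.val_lt _))
  · obtain ⟨c, hc⟩ := QuotientGroup.mk_surjective (H30.spinorNorm hQ g)
    rw [← hc, H30.sqCl_mk_eq_one_iff]
    exact ⟨(c : F) ^ 2, by rw [← pow_add, h4]⟩

end Cfsg.Agent.H84.O84X2
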