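import Mathlib
import Cfsg.Agent.H71.P3Defs

/-!
Geometric hyperplanes of a symplectic polar space of rank at least three over a field of odd
order are the perpendicular spaces of points.
-/

set_option autoImplicit false

namespace Cfsg.Agent.H84.P3Bq

open Cfsg Module Cfsg.Agent.H27 Cfsg.Agent.H71.P3

variable {F V : Type} [Field F] [AddCommGroup V] [Module F V]

theorem perp_symm (S : Sp F V) {u v : V} (h : S.B u v = 0) : S.B v u = 0 := S.alt.isRefl _ _ h

theorem exists_pair [Finite V] (S : Sp F V) (x v w : V) (h : S.B v w ≠ 0) (t : F) :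
    ∃ a b, S.B x a = 0 ∧ S.B v a = 0 ∧ S.B w a = 0 ∧ S.B x b = 0 ∧ S.B v b = 0 ∧ S.B w b = 0 ∧
      S.B a b = t := by
  classical
  have : FiniteDimensional F V := Module.Finite.of_finite
  have hT : finrank F (Submodule.span F ({x, v, w} : Set V)) ≤ 3 := by
    refine (finrank_span_le_card _).trans ?_
    rw [Set.toFinset_insert, Set.toFinset_insert, Set.toFinset_singleton]
    exact Finset.card_le_three
  have hx : x ∈ Submodule.span F ({x, v, w} : Set V) := Submodule.subset_span (by simp)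
  have hv : v ∈ Submodule.span F ({x, v, w} : Set V) := Submodule.subset_span (by simp)
  have hw : w ∈ Submodule.span F ({x, v, w} : Set V) := Submodule.subset_span (by simp)
  generalize Submodule.span F ({x, v, w} : Set V) = T at hT hx hv hw
  have hO := LinearMap.BilinForm.finrank_orthogonal S.nd T
  by_cases hex : ∃ a ∈ S.B.orthogonal T, ∃ b ∈ S.B.orthogonal T, S.B a b ≠ 0
  · obtain ⟨a, ha, b, hb, hab⟩ := hex
    have ha' := Submodule.smul_mem _ (t / S.B a b) ha
    refine ⟨(t / S.B a b) • a, b, ha' x hx, ha' v hv, ha' w hw, hb x hx, hb v hv, hb w hw, ?_⟩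
    rw [map_smul, LinearMap.smul_apply, smul_eq_mul, div_mul_cancel₀ _ hab]
  · push Not at hex
    have hle : S.B.orthogonal T ≤ T := by
      intro b hb
      rw [← LinearMap.BilinForm.orthogonal_orthogonal S.nd S.alt.isRefl T]
      exact fun a ha => hex a ha b hb
    have he : S.B.orthogonal T = T := by
      refine Submodule.eq_of_le_of_finrank_le hle ?_
      have := S.dim
      have := S.hk
      omega
    have hw' : w ∈ S.B.orthogonal T := by rw [he]; exact hw
    exact absurd (hw' v hv) h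

/-- The abstract form of the hypothesis. -/
structure Hy (S : Sp F V) (H : V → Prop) : Prop where
  zero : H 0
  smul : ∀ (c : F) v, H v → H (c • v)
  ex : ∀ x v, ¬ H x → S.B v x = 0 → ∃! c : F, H (v + c • x)

namespace Hy

variable {S : Sp F V} {H : V → Prop}

theorem of_smul (h : Hy S H) {c : F} {v : V} (hc : c ≠ 0) (hv : H (c • v)) : H v := by
  have := h.smul c⁻¹ _ hv
  rwa [smul_smul, inv_mul_cancel₀ hc, one_smul] at this

theorem neg (h : Hy S H) {v : V} (hv : H v) : H (-v) := by
  have := h.smul (-1) v hv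
  rwa [neg_one_smul] at this

theorem add_perp (h : Hy S H) {u v : V} (hu : H u) (hv : H v) (e : S.B u v = 0) : H (u + v) := by
  by_contra hx
  have e1 : S.B u (u + v) = 0 := by rw [map_add, S.alt u, e, add_zero]
  have h0 : H (u + (0 : F) • (u + v)) := by rwa [zero_smul, add_zero]
  have h1 : H (u + (-1 : F) • (u + v)) := by
    have : u + (-1 : F) • (u + v) = -v := by module
    rw [this]
    exact h.neg hv
  have := (h.ex _ u hx e1).unique h0 h1
  exact one_ne_zero (neg_eq_zero.1 this.symm)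

theorem add_of_notMem [Finite F] [Finite V] (h : Hy S H) {x u v : V} (hx : ¬ H x) (hu : H u)
    (hv : H v) (eu : S.B x u = 0) (ev : S.B x v = 0) : H (u + v) := by
  by_cases e : S.B u v = 0
  · exact h.add_perp hu hv e
  obtain ⟨a, b, xa, ua, va, xb, ub, vb, ab⟩ := exists_pair S x u v e (-S.B u v)
  obtain ⟨ca, hca, -⟩ := h.ex x a hx (perp_symm S xa)
  obtain ⟨cb, hcb, -⟩ := h.ex x b hx (perp_symm S xb)
  have xx := S.alt x
  have ax := perp_symm S xa
  have bx := perp_symm S xb
  have ux := perp_symm S eu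
  have vx := perp_symm S ev
  have av := perp_symm S va
  have au := perp_symm S ua
  have bv := perp_symm S vb
  have bu := perp_symm S ub
  generalize ha' : a + ca • x = a' at hca
  generalize hb' : b + cb • x = b' at hcb
  have ua' : S.B u a' = 0 := by simp [← ha', ua, ux]
  have va' : S.B v a' = 0 := by simp [← ha', va, vx]
  have ub' : S.B u b' = 0 := by simp [← hb', ub, ux]
  have vb' : S.B v b' = 0 := by simp [← hb', vb, vx]
  have xa' : S.B x a' = 0 := by simp [← ha', xa, xx]
  have xb' : S.B x b' = 0 := by simp [← hb', xb, xx]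
  have ab' : S.B a' b' = -S.B u v := by simp [← ha', ← hb', ab, ax, xb, xx]
  have key : ∀ a b : V, H a → H b → S.B u a = 0 → S.B v a = 0 → S.B u b = 0 → S.B v b = 0 →
      S.B a b = -S.B u v → H (u + v + (a + b)) := by
    intro a b h1 h2 e1 e2 e3 e4 e5
    have h3 := h.add_perp hu h1 e1
    have h4 := h.add_perp hv h2 e4
    have h5 := h.add_perp h3 h4 (by simp [e3, e5, perp_symm S e2])
    convert h5 using 1
    abel
  have k1 := key a' b' hca hcb ua' va' ub' vb' ab'
  have k2 := key (-a') (-b') (h.neg hca) (h.neg hcb) (by simp [ua']) (by simp [va'])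
    (by simp [ub']) (by simp [vb']) (by simp [ab'])
  have y0 : S.B (a' + b') (a' + b') = 0 := S.alt _
  generalize hy : a' + b' = y at k1 y0
  have e2 : -a' + -b' = -y := by rw [← hy, neg_add]
  rw [e2] at k2
  have uy : S.B u y = 0 := by simp [← hy, ua', ub']
  have vy : S.B v y = 0 := by simp [← hy, va', vb']
  have k3 := h.add_perp k1 k2 (by
    have e3 : S.B (u + v) (u + v) = 0 := S.alt _
    have e4 : S.B (u + v) y = 0 := by simp [uy, vy]
    have e5 := perp_symm S e4
    generalize u + v = z at e3 e4 e5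
    simp [e3, e4, e5, y0])
  have e6 : u + v + y + (u + v + -y) = (2 : F) • (u + v) := by module
  rw [e6] at k3
  exact h.of_smul S.two_ne_zero k3

theorem add [Finite F] [Finite V] (h : Hy S H) {u v : V} (hu : H u) (hv : H v) : H (u + v) := by
  by_cases e : S.B u v = 0
  · exact h.add_perp hu hv e
  by_cases hex : ∃ x, ¬ H x ∧ S.B x u = 0 ∧ S.B x v = 0
  · obtain ⟨x, hx, eu, ev⟩ := hex
    exact h.add_of_notMem hx hu hv eu ev
  have hW : ∀ x, S.B u x = 0 → S.B v x = 0 → H x := fun x e1 e2 => by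
    by_contra hx
    exact hex ⟨x, hx, perp_symm S e1, perp_symm S e2⟩
  obtain ⟨a, b, -, ua, va, -, ub, vb, ab⟩ := exists_pair S u u v e (-S.B u v)
  have h3 := h.add_perp hu (hW a ua va) ua
  have h4 := h.add_perp hv (hW b ub vb) vb
  have h5 := h.add_perp h3 h4 (by simp [ub, ab, perp_symm S va])
  have h6 : H (-(a + b)) := h.neg (hW _ (by simp [ua, ub]) (by simp [va, vb]))
  have e7 : u + a + (v + b) = u + v + (a + b) := by abel
  rw [e7] at h5
  have h7 := h.add_perp h5 h6 (by
    have e3 : S.B (a + b) (a + b) = 0 := S.alt _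
    have e4 : S.B (u + v) (a + b) = 0 := by simp [ua, ub, va, vb]
    generalize a + b = y at e3 e4
    generalize u + v = z at e4
    simp [e3, e4])
  rwa [add_neg_cancel_right] at h7

theorem exists_not_perp [Finite F] [Finite V] (h : Hy S H) {x : V} (hx : ¬ H x) :
    ∃ w, H w ∧ S.B w x ≠ 0 := by
  by_contra! hp
  have x0 : x ≠ 0 := fun e => hx (e ▸ h.zero)
  obtain ⟨y, hy⟩ : ∃ y, S.B x y ≠ 0 := by
    by_contra! hy
    exact x0 (S.nd.1 x hy)
  have key : ∀ y, S.B x y ≠ 0 → ∀ v, S.B v x = 0 → S.B v y = 0 → H v := by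
    intro y hy v e1 e2
    have hy' : S.B y x ≠ 0 := fun e => hy (perp_symm S e)
    obtain ⟨c, hc, -⟩ := h.ex y v (fun hh => hy' (hp y hh)) e2
    have := hp _ hc
    simp only [map_add, map_smul, LinearMap.add_apply, LinearMap.smul_apply, smul_eq_mul, e1,
      zero_add, mul_eq_zero, hy', or_false] at this
    rwa [this, zero_smul, add_zero] at hc
  obtain ⟨a, b, -, xa, ya, -, xb, yb, ab⟩ := exists_pair S x x y hy (-S.B x y)
  have h1 : H a := key y hy a (perp_symm S xa) (perp_symm S ya)
  have h2 : H (a + x) := key (y + b) (by simpa [xb] using hy) _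
    (by simp [perp_symm S xa, S.alt x]) (by simp [perp_symm S ya, ab, xb])
  have h3 := h.add h2 (h.neg h1)
  rw [add_neg_cancel_comm] at h3
  exact hx h3

theorem perp [Finite F] [Finite V] (h : Hy S H) {x : V} (hx : ¬ H x) :
    ∃ z : V, z ≠ 0 ∧ ∀ v, (H v ↔ S.B v z = 0) := by
  have : FiniteDimensional F V := Module.Finite.of_finite
  let X : Submodule F V :=
    { carrier := {v | H v}
      add_mem' := fun hu hv => h.add hu hv
      zero_mem' := h.zero
      smul_mem' := fun c v hv => h.smul c v hv }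
  obtain ⟨z, hz, hxz⟩ := exists_orth_ne_zero S.nd S.alt.isRefl X (x := x) hx
  have hz' : ∀ v, H v → S.B v z = 0 := fun v hv => hz v hv
  refine ⟨z, fun e => hxz (by rw [e, map_zero]), fun v => ⟨hz' v, fun e => ?_⟩⟩
  obtain ⟨w, hw, hwx⟩ := h.exists_not_perp hx
  obtain ⟨c, hc, -⟩ := h.ex x (v - (S.B v x / S.B w x) • w) hx (by
    simp only [map_sub, map_smul, LinearMap.sub_apply, LinearMap.smul_apply, smul_eq_mul]
    rw [div_mul_cancel₀ _ hwx, sub_self])
  have h1 := h.add hc (h.smul (S.B v x / S.B w x) w hw)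
  have e1 : v - (S.B v x / S.B w x) • w + c • x + (S.B v x / S.B w x) • w = v + c • x := by abel
  rw [e1] at h1
  have := hz' _ h1
  simp only [map_add, map_smul, LinearMap.add_apply, LinearMap.smul_apply, smul_eq_mul, e,
    zero_add, mul_eq_zero, hxz, or_false] at this
  rwa [this, zero_smul, add_zero] at h1

end Hy

theorem hy [Finite F] [Finite V] (S : Sp F V) (s : Submodule F V → Prop)
    (hL : ∀ L, S.IsLn L → cnt s L = 1 ∨ cnt s L = Nat.card F + 1) :
    Hy S fun v => v = 0 ∨ s (F ∙ v) := by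
  have hsm : ∀ (c : F) (v : V), (v = 0 ∨ s (F ∙ v)) → (c • v = 0 ∨ s (F ∙ (c • v))) := by
    intro c v hv
    by_cases hc : c = 0
    · exact Or.inl (by rw [hc, zero_smul])
    rcases hv with hv | hv
    · exact Or.inl (by rw [hv, smul_zero])
    · exact Or.inr (by rwa [Submodule.span_singleton_smul_eq (IsUnit.mk0 c hc)])
  refine ⟨Or.inl rfl, hsm, fun x v hx e => ?_⟩
  have hx' := hx
  push Not at hx'
  obtain ⟨x0, hsx⟩ := hx'
  by_cases hv : v ∈ F ∙ x
  · obtain ⟨d, rfl⟩ := Submodule.mem_span_singleton.1 hv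
    refine ⟨-d, Or.inl (by module), fun c hc => ?_⟩
    by_contra hne
    have hdc : d + c ≠ 0 := fun e => hne (by linear_combination e)
    have := hsm (d + c)⁻¹ _ hc
    rw [← add_smul, smul_smul, inv_mul_cancel₀ hdc, one_smul] at this
    exact hx this
  have hli : LinearIndependent F ![x, v] := by
    rw [LinearIndependent.pair_iff' x0]
    intro a ha
    exact hv (ha ▸ Submodule.smul_mem _ a (Submodule.mem_span_singleton_self x))
  have hne : ∀ c : F, v + c • x ≠ 0 := fun c hc => hv (by
    rw [eq_neg_of_add_eq_zero_left hc]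
    exact neg_mem (Submodule.smul_mem _ c (Submodule.mem_span_singleton_self x)))
  have hln : S.IsLn (Submodule.span F {x, v}) := by
    refine ⟨?_, fun a ha b hb => ?_⟩
    · have := finrank_span_eq_card hli
      rwa [Matrix.range_cons_cons_empty, Fintype.card_fin] at this
    · obtain ⟨a1, a2, rfl⟩ := Submodule.mem_span_pair.1 ha
      obtain ⟨b1, b2, rfl⟩ := Submodule.mem_span_pair.1 hb
      simp [S.alt x, S.alt v, e, perp_symm S e]
  have hsub : {y | dm y = 1 ∧ y ≤ Submodule.span F {x, v} ∧ s y} ⊆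
      (fun c : F => F ∙ (v + c • x)) '' Set.univ := by
    rintro y ⟨h1, h2, h3⟩
    obtain ⟨w, w0, hw⟩ := finrank_eq_one_iff'.1 h1
    have hy : y = F ∙ (w : V) := by
      refine le_antisymm (fun t ht => ?_) ((Submodule.span_singleton_le_iff_mem _ _).2 w.2)
      obtain ⟨c, hc⟩ := hw ⟨t, ht⟩
      exact Submodule.mem_span_singleton.2 ⟨c, congrArg Subtype.val hc⟩
    obtain ⟨a, b, hab⟩ := Submodule.mem_span_pair.1 (h2 w.2)
    have w0' : (w : V) ≠ 0 := fun e => w0 (Subtype.ext e)
    have b0 : b ≠ 0 := by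
      rintro rfl
      rw [zero_smul, add_zero] at hab
      have a0 : a ≠ 0 := by
        rintro rfl
        exact w0' (by rw [← hab, zero_smul])
      rw [hy, ← hab, Submodule.span_singleton_smul_eq (IsUnit.mk0 a a0)] at h3
      exact hsx h3
    refine ⟨a / b, trivial, ?_⟩
    have e2 : (w : V) = b • (v + (a / b) • x) := by
      rw [← hab, smul_add, smul_smul, mul_div_cancel₀ _ b0, add_comm]
    rw [hy, e2, Submodule.span_singleton_smul_eq (IsUnit.mk0 b b0)]
  have hle := (Set.ncard_le_ncard hsub (Set.finite_univ.image _)).trans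
    (Set.ncard_image_le Set.finite_univ)
  rw [Set.ncard_univ] at hle
  have h1 : {y | dm y = 1 ∧ y ≤ Submodule.span F {x, v} ∧ s y}.ncard = 1 := by
    rcases hL _ hln with h | h
    · exact h
    · unfold cnt at h
      omega
  obtain ⟨y, hy⟩ := Set.ncard_eq_one.1 h1
  have hy1 : y ∈ {y | dm y = 1 ∧ y ≤ Submodule.span F {x, v} ∧ s y} := hy ▸ Set.mem_singleton y
  obtain ⟨c, -, hc⟩ := hsub hy1
  have hc' : (F ∙ (v + c • x)) = y := hc
  refine ⟨c, Or.inr (hc' ▸ hy1.2.2), fun d hd => ?_⟩
  have hd1 : (F ∙ (v + d • x)) ∈ {y | dm y = 1 ∧ y ≤ Submodule.span F {x, v} ∧ s y} :=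
    ⟨finrank_span_singleton (hne d), (Submodule.span_singleton_le_iff_mem _ _).2
      (Submodule.mem_span_pair.2 ⟨d, 1, by rw [one_smul, add_comm]⟩), hd.resolve_left (hne d)⟩
  rw [hy, Set.mem_singleton_iff, ← hc'] at hd1
  have hm : v + d • x ∈ F ∙ (v + c • x) := hd1 ▸ Submodule.mem_span_singleton_self _
  obtain ⟨t, ht⟩ := Submodule.mem_span_singleton.1 hm
  have h0 : (t * c - d) • x + (t - 1) • v = 0 := by
    rw [← sub_eq_zero] at ht
    rw [← ht]
    module
  obtain ⟨e1, e2⟩ := LinearIndependent.pair_iff.1 hli _ _ h0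
  rw [sub_eq_zero] at e1 e2
  rw [← e1, e2, one_mul]

theorem bq : BqStmt := by
  intro F V _ _ _ _ _ S s hx hL
  obtain ⟨x, h1, h2⟩ := hx
  obtain ⟨w, w0, hw⟩ := finrank_eq_one_iff'.1 h1
  have hy : x = F ∙ (w : V) := by
    refine le_antisymm (fun t ht => ?_) ((Submodule.span_singleton_le_iff_mem _ _).2 w.2)
    obtain ⟨c, hc⟩ := hw ⟨t, ht⟩
    exact Submodule.mem_span_singleton.2 ⟨c, congrArg Subtype.val hc⟩
  have hw' : ¬ ((w : V) = 0 ∨ s (F ∙ (w : V))) := by
    rintro (e | e)
    · exact w0 (Subtype.ext e)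
    · exact h2 (hy ▸ e)
  obtain ⟨z, z0, hz⟩ := (P3Bq.hy S s hL).perp hw'
  exact ⟨z, z0, fun v v0 => by rw [← hz v]; simp [v0]⟩

end Cfsg.Agent.H84.P3Bq
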