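import Mathlib
import Cfsg.Agent.H31.HermQ
import Cfsg.Agent.H74.RuDefs

/-!
A subgroup of the special unitary group whose radical at an isotropic point is transitive on
every totally isotropic line on that point contains all transvections with that centre.
-/

set_option autoImplicit false

namespace Cfsg.Agent.H84.RuTvs

open Cfsg Module Cfsg.Agent.H31 Cfsg.Agent.H74.Ru

variable {F V : Type} [Field F] [Fintype F] [AddCommGroup V] [Module F V] [FiniteDimensional F V]

theorem iso2 (S : Un F V) {U : Submodule F V} (h2 : 2 ≤ finrank F U) :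
    ∃ u ∈ U, u ≠ 0 ∧ S.B u u = 0 := by
  by_cases hU : NondegOn S.B U
  · exact S.herm.exists_isotropic hU h2
  · unfold NondegOn at hU
    push Not at hU
    obtain ⟨u, hu, h1, h0⟩ := hU
    exact ⟨u, hu, h0, h1 u hu⟩

omit [FiniteDimensional F V] in
theorem onto (S : Un F V) {K : Subgroup (V ≃ₗ[F] V)} {x f y : V} (hx : S.All K x)
    (hp : HypPair S.B x f) (hy : y ∈ hypPerp S.B x f) (y0 : y ≠ 0) (hyy : S.B y y = 0) (c : F) :
    ∃ w ∈ radW S.herm.toIsHermSymm hp K, S.B w y = c := by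
  obtain ⟨h1, h2⟩ := mem_hypPerp.1 hy
  have hfx := S.herm.toIsHermSymm.flip_one hp.hef
  obtain ⟨w, hw, hc⟩ := hx.2.2 y ⟨hp.he, hyy, h1, hx.1, fun hm => by
    obtain ⟨a, rfl⟩ := Submodule.mem_span_singleton.1 hm
    rw [smul_right, hfx, mul_one] at h2
    exact y0 (by rw [h2, zero_smul])⟩ c
  have hw' : w ∈ radT S.herm.toIsHermSymm hp.he K := hw
  refine ⟨(-S.B f w) • x + w, mem_radW.2 ⟨(smul_e_mem_radT _).2 hw', ?_⟩, ?_⟩
  · rw [map_add, smul_right, hfx, mul_one, neg_add_cancel]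
  · rw [add_left, smul_left, h1, mul_zero, zero_add, hc]

theorem exists_iso (cw : CwStmt) (S : Un F V) {K : Subgroup (V ≃ₗ[F] V)} {x f : V}
    (hx : S.All K x) (hp : HypPair S.B x f) :
    ∃ w ∈ radW S.herm.toIsHermSymm hp K, w ≠ 0 ∧ S.B w w = 0 := by
  have : Finite V := Module.finite_of_finite F
  by_contra! hc
  have h1 := cw S (radW S.herm.toIsHermSymm hp K) fun a ha h => by
    by_contra h0
    exact hc a ha h0 h
  have hd := S.herm.finrank_hypPerp hp
  have hn := S.hn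
  have hV := S.dim
  obtain ⟨y0, m0, n0, i0⟩ := iso2 S (U := hypPerp S.B x f) (by omega)
  obtain ⟨w1, m1, e1⟩ := onto S hx hp m0 n0 i0 1
  have n1 : w1 ≠ 0 := by
    rintro rfl
    rw [zero_left] at e1
    exact zero_ne_one e1
  have h2 := S.herm.finrank_add_finrank_perp (F ∙ w1)
  rw [finrank_span_singleton n1] at h2
  have h3 := Submodule.finrank_sup_add_finrank_inf_eq (hypPerp S.B x f) (perp S.B (F ∙ w1))
  have h4 := Submodule.finrank_le (hypPerp S.B x f ⊔ perp S.B (F ∙ w1))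
  obtain ⟨y, ⟨m2, m3⟩, n2, i2⟩ := iso2 S (U := hypPerp S.B x f ⊓ perp S.B (F ∙ w1)) (by omega)
  have hs : Function.Surjective fun w : radW S.herm.toIsHermSymm hp K => S.B w y := fun c => by
    obtain ⟨w, hw, e⟩ := onto S hx hp m2 n2 i2 c
    exact ⟨⟨w, hw⟩, e⟩
  have hb := hs.bijective_of_nat_card_le (by rwa [Nat.card_eq_fintype_card (α := F), S.hF])
  have h5 := hb.1 (a₁ := ⟨w1, m1⟩) (a₂ := 0) (by
    change S.B w1 y = S.B 0 y
    rw [zero_left, mem_perp_span_singleton.1 m3])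
  exact n1 (congrArg Subtype.val h5)

theorem tvs (cw : CwStmt) : TvsStmt := by
  intro F V _ _ _ _ _ S K _ x hx
  obtain ⟨d, hd⟩ := S.herm.inv.exists_trace_eq (map_one S.σ)
  refine ⟨fun c hu hc => ?_, fun f hp => ?_⟩
  · obtain ⟨f, hp⟩ := S.herm.exists_hypPair hu hx.1
    obtain ⟨w0, m0, n0, i0⟩ := exists_iso cw S hx hp
    obtain ⟨w, m, e⟩ := onto S hx hp (radW_le_hypPerp m0) n0 i0 (c * d)
    have h1 := comm_mem_radA (h := S.herm.toIsHermSymm) (he := hp.he) m.1 m0.1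
    rw [← S.herm.symm w w0, e, map_mul] at h1
    refine (mem_radA_iff_tv (h := S.herm.toIsHermSymm) hc).1 ?_
    convert h1 using 1
    linear_combination (S.σ d) * hc - c * hd
  · obtain ⟨w0, m0, n0, i0⟩ := exists_iso cw S hx hp
    obtain ⟨w, m, e⟩ := onto S hx hp (radW_le_hypPerp m0) n0 i0 d
    obtain ⟨u, mu, hu⟩ : ∃ u ∈ radW S.herm.toIsHermSymm hp K, S.B u u ≠ 0 := by
      by_cases h : S.B w w = 0
      · refine ⟨w + w0, add_mem m m0, ?_⟩
        rw [add_left, map_add, map_add, h, i0, ← S.herm.symm w w0, e, zero_add, add_zero, hd]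
        exact one_ne_zero
      · exact ⟨w, m, h⟩
    obtain ⟨⟨h1, c, g, hg, h2⟩, h3⟩ := mem_radW.1 mu
    exact ⟨u, c, g, hg, h2, h1, h3, hu⟩

end Cfsg.Agent.H84.RuTvs
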