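import Cfsg.Agent.H6.TIDefs
import Cfsg.Agent.H6.ZStar
import Cfsg.Agent.H3.Cores

/-! Weakly closed TI-subgroups: derivations of a line. -/

set_option autoImplicit false
set_option linter.unusedSectionVars false

namespace Cfsg.Agent.H84.TL

open Cfsg Subgroup Cfsg.Agent.H6.TI
open Cfsg.Agent.H83 (cj)
open scoped Cfsg.Agent.H63 commutatorElement

universe u

theorem avg {H V : Type*} [Group H] [Finite H] [CommGroup V] (σ : H → V →* V) (d : H → V)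
    (hd : ∀ g h, d (g * h) = d g * σ g (d h)) (odd : Odd (Nat.card H)) (sq : ∀ v : V, v * v = 1) :
    ∃ w, ∀ g, w = d g * σ g w := by
  have := Fintype.ofFinite H
  refine ⟨∏ h, d h, fun g => ?_⟩
  obtain ⟨k, hk⟩ := odd
  conv_lhs => rw [← Equiv.prod_comp (Equiv.mulLeft g)]
  simp only [Equiv.coe_mulLeft, hd, Finset.prod_mul_distrib, map_prod, Finset.prod_const,
    Finset.card_univ]
  rw [← Nat.card_eq_fintype_card, hk, pow_succ, pow_mul, pow_two, sq, one_pow, one_mul]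

variable {G : Type u} [Group G]

theorem conj_odd {x y : G} (hx : x * x = 1) (hy : y * y = 1) (ho : Odd (orderOf (x * y))) :
    ∃ k : ℕ, y = (x * y) ^ k * x * ((x * y) ^ k)⁻¹ := by
  obtain ⟨k, hk⟩ := ho
  have hx' : x⁻¹ = x := inv_eq_of_mul_eq_one_right hx
  have h1 : x * (x * y) * x⁻¹ = (x * y)⁻¹ := by
    rw [mul_inv_rev, hx', inv_eq_of_mul_eq_one_right hy, ← mul_assoc, hx, one_mul]
  have h2 : x * (x * y) ^ k * x⁻¹ = ((x * y) ^ k)⁻¹ := by rw [← conj_pow, h1, inv_pow]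
  have h3 : (x * y) ^ k * (x * y) ^ k * (x * y) = 1 := by
    rw [← pow_add, ← pow_succ, ← two_mul, ← hk, pow_orderOf_eq_one]
  refine ⟨k, ?_⟩
  rw [mul_assoc, ← h2, ← mul_assoc x, ← mul_assoc x, hx, one_mul, hx', ← mul_assoc]
  calc y = ((x * y) ^ k * (x * y) ^ k * (x * y)) * y := by rw [h3, one_mul]
    _ = (x * y) ^ k * (x * y) ^ k * x * (y * y) := by simp only [mul_assoc]
    _ = _ := by rw [hy, mul_one]

/-- the stabilizer of the coset `b V` -/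
def St (V : Subgroup G) (b : G) : Subgroup G where
  carrier := {l | l ∈ N[V] ∧ b⁻¹ * (l * b * l⁻¹) ∈ V}
  one_mem' := ⟨one_mem _, by simp⟩
  mul_mem' := fun {l m} x y => ⟨mul_mem x.1 y.1, by
    convert mul_mem x.2 ((mem_normalizer_iff.1 x.1 _).1 y.2) using 1; group⟩
  inv_mem' := fun {l} x => ⟨inv_mem x.1, by
    convert (mem_normalizer_iff.1 (inv_mem x.1) _).1 (inv_mem x.2) using 1; group⟩

/-- the stabilizer of the pair in the line group -/
def Pr (A C : Subgroup G) : Subgroup G where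
  carrier := {g | g ∈ A ⊔ C ∧ ((cj g A = A ∧ cj g C = C) ∨ (cj g A = C ∧ cj g C = A))}
  one_mem' := ⟨one_mem _, .inl ⟨H83.cj_one _, H83.cj_one _⟩⟩
  mul_mem' := fun x y => ⟨mul_mem x.1 y.1, by
    rcases x.2 with x | x <;> rcases y.2 with y | y <;> simp only [H83.cj_mul, x.1, x.2, y.1, y.2] <;>
      simp⟩
  inv_mem' := fun {g} x => ⟨inv_mem x.1, by
    rcases x.2 with x | x
    · exact .inl ⟨by conv_lhs => rw [← x.1, H83.cj_inv_cj], by conv_lhs => rw [← x.2, H83.cj_inv_cj]⟩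
    · exact .inr ⟨by conv_lhs => rw [← x.2, H83.cj_inv_cj], by conv_lhs => rw [← x.1, H83.cj_inv_cj]⟩⟩

/-- a swap -/
def Sw (A C : Subgroup G) (s : G) : Prop :=
  (∃ R, OnL A C R ∧ s ∈ R) ∧ s ∉ vv A C ∧ cj s A = C ∧ cj s C = A

variable [Finite G] {Ω : Set (Subgroup G)} {A C : Subgroup G} {s s' b g : G}

theorem Sw.mem (x : Sw A C s) : s ∈ Pr A C := ⟨let ⟨_, o, m⟩ := x.1; o.le m, .inr x.2.2⟩

variable (h : TI Ω) (ba : BA Ω) (bb : BB Ω) (e : Ed Ω A C)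
include h ba bb e

omit ba bb in
theorem Sw.sq (x : Sw A C s) : s * s = 1 := let ⟨_, o, m⟩ := x.1; h.sq _ (o.mem h e.l) _ m

omit h bb in
theorem Sw.conj (x : Sw A C s) (hg : g ∈ Pr A C) : Sw A C (g * s * g⁻¹) := by
  obtain ⟨⟨R, o, m⟩, n, x1, x2⟩ := x
  refine ⟨⟨_, o.cj hg.1, H83.conj_mem_cj m⟩,
    fun y => n ((mem_normalizer_iff.1 (ba.vnorm e hg.1) _).2 y), ?_⟩
  rw [H83.cj_mul, H83.cj_mul, H83.cj_mul, H83.cj_mul]
  rcases hg.2 with y | y
  · exact ⟨by conv_lhs => rw [← y.1, H83.cj_inv_cj, x1, y.2], by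
      conv_lhs => rw [← y.2, H83.cj_inv_cj, x2, y.1]⟩
  · exact ⟨by conv_lhs => rw [← y.2, H83.cj_inv_cj, x2, y.1], by
      conv_lhs => rw [← y.1, H83.cj_inv_cj, x1, y.2]⟩

omit h ba in
theorem sw_pair (x : Sw A C s) (y : Sw A C s') :
    s * s' ∈ vv A C ∨ (Odd (orderOf (s * s')) ∧ Fpf (s * s') (vv A C)) := by
  obtain ⟨⟨R, o, m⟩, n, x1, x2⟩ := x
  obtain ⟨⟨R', o', m'⟩, n', y1, -⟩ := y
  by_cases hR : R = R'
  · subst hR
    have hA : R ≠ A := fun z => e.ne (by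
      rw [← x1, H83.cj_eq_self (le_normalizer (z ▸ m))])
    have : s * s' ∈ ax R A := ⟨mul_mem m m', H83.cj_eq_self_iff.1 (by rw [H83.cj_mul, y1, x2])⟩
    rw [(bb.lin e o (onL_left A C) hA).2.2.1] at this
    exact .inl this.2
  · obtain ⟨e1, v1, a1, -⟩ := bb.lin e o o' hR
    obtain ⟨-, -, a2, -⟩ := bb.lin e o' o (Ne.symm hR)
    exact .inr (v1 ▸ bb.odd e1 s m (fun z => n (a1 ▸ z).2) s' m' fun z => n' (a2 ▸ z).2)

theorem fix (x : Sw A C s) (hb : b ∈ C[vv A C]) (hL : A ⊔ C ≤ St (vv A C) b) :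
    ∃ w ∈ vv A C, ∀ s', Sw A C s' → s * s' * (b * w) * (s * s')⁻¹ = b * w := by
  have hN : Pr A C ≤ N[vv A C] := fun g hg => ba.vnorm e hg.1
  have nK : ((vv A C).subgroupOf (Pr A C)).Normal := normal_subgroupOf_of_le_normalizer hN
  let π := QuotientGroup.mk' ((vv A C).subgroupOf (Pr A C))
  have ker : ∀ y : Pr A C, π y = 1 ↔ (y : G) ∈ vv A C := fun y => QuotientGroup.eq_one_iff y
  have sq : ∀ {t} (y : Sw A C t), π ⟨t, y.mem⟩ * π ⟨t, y.mem⟩ = 1 := fun y => by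
    rw [← map_mul]; exact (congrArg π (Subtype.ext (y.sq h e))).trans (map_one π)
  have iso : IsIsolatedInvolution (π ⟨s, x.mem⟩) := by
    refine ⟨orderOf_eq_prime (by rw [pow_two, sq x]) fun z => x.2.1 ((ker _).1 z), fun g hg => ?_⟩
    obtain ⟨g, rfl⟩ := QuotientGroup.mk'_surjective _ g
    have y := x.conj ba e g.2
    change Commute _ (π ⟨_, y.mem⟩) at hg
    change π ⟨_, y.mem⟩ = _
    have : π ⟨s, x.mem⟩ * π ⟨_, y.mem⟩ = 1 := by
      rcases sw_pair bb e x y with z | z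
      · rw [← map_mul]; exact (ker _).2 z
      · refine orderOf_eq_one_iff.1 (Nat.eq_one_of_dvd_coprimes (Nat.coprime_two_right.2 z.1) ?_
          (orderOf_dvd_of_pow_eq_one (by rw [hg.mul_pow, pow_two, pow_two, sq x, sq y, one_mul])))
        rw [← map_mul]
        exact (orderOf_map_dvd π _).trans (orderOf_coe _).symm.dvd
    exact mul_left_cancel (this.trans (sq x).symm)
  let : CommGroup (vv A C) := { mul_comm := fun a c => Subtype.ext (ba.vcomm e _ a.2 _ c.2) }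
  choose r hr using QuotientGroup.mk'_surjective ((vv A C).subgroupOf (Pr A C))
  have hv : ∀ v ∈ vv A C, ∀ w ∈ vv A C, v * (b * w) * v⁻¹ = b * w := fun v hv w hw => by
    rw [← mul_assoc, hb v hv, mul_assoc b, ba.vcomm e v hv w hw]; group
  have eq : ∀ y : Pr A C, ∀ w ∈ vv A C,
      (r (π y) : G) * (b * w) * (r (π y) : G)⁻¹ = y * (b * w) * (y : G)⁻¹ := fun y w hw => by
    have := hv _ ((ker (y⁻¹ * r (π y))).1 (by rw [map_mul, hr, map_inv, inv_mul_cancel])) w hw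
    conv_rhs => rw [← this]
    simp only [coe_mul, coe_inv]; group
  obtain ⟨w, hw⟩ := avg (H := pPrimeCore 2 (Pr A C ⧸ (vv A C).subgroupOf (Pr A C))) (V := vv A C)
    (fun g => (normalizerMonoidHom _ ⟨r g, hN (r g).2⟩ : MulAut (vv A C)).toMonoidHom)
    (fun g => ⟨b⁻¹ * (r g * b * (r g : G)⁻¹), (hL (r g).2.1).2⟩) (fun g k => Subtype.ext (by
      have := eq (r g * r k) 1 (one_mem _)
      rw [map_mul, hr, hr, mul_one] at this
      change b⁻¹ * (r (g.1 * k.1) * b * (r (g.1 * k.1) : G)⁻¹) = b⁻¹ * (r g * b * (r g : G)⁻¹) *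
        (r g * (b⁻¹ * (r k * b * (r k : G)⁻¹)) * (r g : G)⁻¹)
      rw [this, coe_mul]; group))
    (Nat.coprime_two_right.1 (H3.pPrimeCore_coprime 2 _)) fun v => Subtype.ext (ba.vsq e _ v.2)
  refine ⟨w, w.2, fun s' y => ?_⟩
  rcases sw_pair bb e x y with z | z
  · exact hv _ z _ w.2
  obtain ⟨k, hk⟩ := conj_odd (x.sq h e) (y.sq h e) z.1
  have m := H6.zstar _ iso (π ((⟨s, x.mem⟩ * ⟨s', y.mem⟩) ^ k))
  have e1 : π ⟨s, x.mem⟩ * π ((⟨s, x.mem⟩ * ⟨s', y.mem⟩) ^ k) * (π ⟨s, x.mem⟩)⁻¹ *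
      (π ((⟨s, x.mem⟩ * ⟨s', y.mem⟩) ^ k))⁻¹ = π (⟨s, x.mem⟩ * ⟨s', y.mem⟩) := by
    rw [inv_eq_of_mul_eq_one_right (sq x), ← map_inv, ← map_mul, ← map_mul, ← map_mul]
    exact congrArg π (Subtype.ext (by
      change s * (s * s') ^ k * s * ((s * s') ^ k)⁻¹ = s * s'
      conv_rhs => rw [hk]
      simp only [mul_assoc]))
  rw [e1] at m
  have := congrArg Subtype.val (hw ⟨_, m⟩)
  change (w : G) = b⁻¹ * (r (π _) * b * (r (π _) : G)⁻¹) * (r (π _) * w * (r (π _) : G)⁻¹) at this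
  refine (eq (⟨s, x.mem⟩ * ⟨s', y.mem⟩) w w.2).symm.trans ?_
  conv_rhs => rw [this]
  group

theorem core (hb : b ∈ C[vv A C]) (hL : A ⊔ C ≤ St (vv A C) b) {a1 a2 c : G} (h1 : a1 ∈ A)
    (n1 : a1 ∉ ax A C) (h2 : a2 ∈ A) (n2 : a2 ∉ ax A C) (n3 : a2 * a1 ∉ ax A C) (hc : c ∈ C)
    (nc : c ∉ ax C A) (c1 : a1 * b = b * a1) (c2 : a2 * b = b * a2) (c3 : c * b = b * c) :
    b ∈ C[A] := by
  have sw : ∀ a ∈ A, a ∉ ax A C → ∃ s, Sw A C s ∧ s * a * s⁻¹ = c ∧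
      (a * b = b * a → s * b = b * s) := fun a ha n => by
    obtain ⟨s, R, o, m, n', cl, x1, x2⟩ := bb.swap e a ha n c hc nc
    exact ⟨s, ⟨⟨R, o, m⟩, n', x2⟩, x1, fun z => mem_centralizer_singleton_iff.1
      ((closure_le C1[b]).2 (by
        rintro _ (rfl | rfl) <;> exact mem_centralizer_singleton_iff.2 ‹_›) cl)⟩
  obtain ⟨s1, x1, e1, f1⟩ := sw a1 h1 n1
  have mv : ∀ a s, Sw A C s → s * a * s⁻¹ = c → s1 * s * a * (s1 * s)⁻¹ = a1 := fun a s x z => by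
    calc _ = s1 * (s * a * s⁻¹) * s1⁻¹ := by group
      _ = s1 * s1 * a1 * (s1 * s1)⁻¹ := by rw [z, ← e1]; group
      _ = a1 := by rw [x1.sq h e]; group
  obtain ⟨w, hw, fw⟩ := fix h ba bb e x1 hb hL
  obtain rfl : w = 1 := by
    obtain ⟨s2, x2, e2, f2⟩ := sw a2 h2 n2
    rcases sw_pair bb e x1 x2 with z | z
    · refine (n3 ?_).elim
      rw [← mv a2 s2 x2 e2, ← inv_eq_of_mul_eq_one_right (h.sq A e.l a2 h2)]
      convert ba.brk e _ (inv_mem h2) _ z using 1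
      rw [inv_eq_of_mul_eq_one_right (h.sq A e.l a2 h2), commutatorElement_def,
        inv_eq_of_mul_eq_one_right (h.sq A e.l a2 h2)]
      group
    · have := fw s2 x2
      rw [← mul_assoc, (show Commute (s1 * s2) b from (show Commute s1 b from f1 c1).mul_left
        (f2 c2)).eq, mul_assoc, mul_assoc, mul_right_inj, ← mul_assoc] at this
      exact z.2 w hw (mul_inv_eq_iff_eq_mul.1 this)
  intro a ha
  by_cases n : a ∈ ax A C
  · exact hb a (mem_sup_left n)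
  obtain ⟨s, x, e3, -⟩ := sw a ha n
  have h3 := fw s x
  have h4 := mv a s x e3
  rw [mul_one] at h3
  generalize s1 * s = g at h3 h4
  have cg : Commute g b := mul_inv_eq_iff_eq_mul.1 h3
  have := (cg.inv_left.mul_left (show Commute a1 b from c1)).mul_left cg
  rwa [← h4, show g⁻¹ * (g * a * g⁻¹) * g = a by group] at this

theorem main (hA : b ∈ N[A]) (hC : b ∈ N[C]) (hb : b ∈ C[vv A C]) (n : b ∉ C[A]) :
    (ax A C).relIndex (A ⊓ C1[b]) ≤ 2 := by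
  refine Nat.le_of_dvd two_pos (relIndex_dvd_two_iff.2 ?_)
  by_contra! k
  obtain ⟨a1, h1, -, n1⟩ := k 1 (one_mem _)
  obtain ⟨a2, h2, n3, n2⟩ := k a1 h1
  obtain ⟨c, hc, nc⟩ : ∃ c ∈ C, c ∉ ax C A := by
    by_contra! z
    exact e.ne (h.wc C e.r A e.l fun c hc => (z c hc).2).symm
  have key : ∀ v ∈ vv A C, ∀ a, ⁅a, b⁆ = v → b⁻¹ * (a * b * a⁻¹) ∈ vv A C := fun v hv a z => by
    rwa [show b⁻¹ * (a * b * a⁻¹) = b⁻¹ * (⁅a, b⁆ * b) by group, z, hb v hv, inv_mul_cancel_left]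
  have hL : A ⊔ C ≤ St (vv A C) b := sup_le
    (fun a ha => ⟨ba.vnorm e (mem_sup_left ha),
      key _ (mem_sup_left ((bb.der e b hA hC hb).1 a ha)) a rfl⟩)
    fun a ha => ⟨ba.vnorm e (mem_sup_right ha), key _ (mem_sup_right
      ((bb.der (ba.symm e) b hC hA (vv_comm A C ▸ hb)).1 a ha)) a rfl⟩
  have hρ := mul_mem (mem_sup_left h1.1 : a1 ∈ A ⊔ C) (mem_sup_right hc)
  have fp := (bb.odd e a1 h1.1 n1 c hc nc).2
  have uq : ∀ v ∈ vv A C, ∀ w ∈ vv A C, v * (a1 * c * v * (a1 * c)⁻¹) =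
      w * (a1 * c * w * (a1 * c)⁻¹) → v = w := fun v hv w hw z =>
    (inv_mul_eq_one.1 (fp _ (mul_mem (inv_mem hw) hv) (mul_inv_eq_iff_eq_mul.1 (by
      have m := (mem_normalizer_iff.1 (ba.vnorm e hρ) _).1 (inv_mem hw)
      calc _ = (a1 * c * w⁻¹ * (a1 * c)⁻¹) * v⁻¹ * (v * (a1 * c * v * (a1 * c)⁻¹)) := by group
        _ = v⁻¹ * w * ((a1 * c * w⁻¹ * (a1 * c)⁻¹) * (a1 * c * w * (a1 * c)⁻¹)) := by
          rw [z, ← mul_assoc, mul_assoc _ v⁻¹, ba.vcomm e _ m _ (mul_mem (inv_mem hv) hw),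
            mul_assoc]
        _ = w⁻¹ * v := by
          rw [inv_eq_of_mul_eq_one_right (ba.vsq e v hv), ba.vcomm e v hv w hw]
          conv_rhs => rw [inv_eq_of_mul_eq_one_right (ba.vsq e w hw)]
          group)))).symm
  obtain ⟨⟨v, hv⟩, ev⟩ := Finite.surjective_of_injective
    (f := fun v : vv A C => (⟨v * (a1 * c * v * (a1 * c)⁻¹),
      mul_mem v.2 ((mem_normalizer_iff.1 (ba.vnorm e hρ) _).1 v.2)⟩ : vv A C))
    (fun v w z => Subtype.ext (uq _ v.2 _ w.2 (congrArg Subtype.val z))) ⟨_, (hL hρ).2⟩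
  replace ev : v * (a1 * c * v * (a1 * c)⁻¹) = b⁻¹ * (a1 * c * b * (a1 * c)⁻¹) :=
    congrArg Subtype.val ev
  have s1 := h.sq A e.l a1 h1.1
  have i1 := inv_eq_of_mul_eq_one_right s1
  have i2 := inv_eq_of_mul_eq_one_right (h.sq C e.r c hc)
  have c1 : a1 * b = b * a1 := mem_centralizer_singleton_iff.1 h1.2
  have m1 := (mem_normalizer_iff.1 (ba.vnorm e hρ) _).1 hv
  have f0 : a1 * c * (b * v) * (a1 * c)⁻¹ = b * v := by
    calc _ = b * (b⁻¹ * (a1 * c * b * (a1 * c)⁻¹)) * (a1 * c * v * (a1 * c)⁻¹) := by group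
      _ = _ := by rw [← ev, mul_assoc, mul_assoc v, ba.vsq e _ m1, mul_one]
  have f1 : a1 * v = v * a1 := by
    have m2 := (mem_normalizer_iff.1 (ba.vnorm e (mem_sup_left h1.1)) _).1 hv
    have f2 : a1 * c * (b * (a1 * v * a1⁻¹)) * (a1 * c)⁻¹ = b * (a1 * v * a1⁻¹) := by
      have := ((show Commute (a1 * c) (b * v) from mul_inv_eq_iff_eq_mul.1 f0).inv_left).conj a1
      rw [show a1 * (a1 * c)⁻¹ * a1⁻¹ = a1 * c by
        rw [mul_inv_rev, i2, mul_assoc, mul_assoc, ← mul_inv_rev, s1, inv_one, mul_one],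
        show a1 * (b * v) * a1⁻¹ = b * (a1 * v * a1⁻¹) by rw [← mul_assoc, c1]; group] at this
      exact mul_inv_eq_iff_eq_mul.2 this
    refine mul_inv_eq_iff_eq_mul.1 (inv_mul_eq_one.1 (fp _ (mul_mem (inv_mem hv) m2)
      (mul_inv_eq_iff_eq_mul.1 ?_))).symm
    calc _ = (a1 * c * (b * v) * (a1 * c)⁻¹)⁻¹ * (a1 * c * (b * (a1 * v * a1⁻¹)) * (a1 * c)⁻¹) := by
          group
      _ = _ := by rw [f0, f2]; group
  have hvA : v ∈ A := by_contra fun z => n1 ((ba.cA e a1 h1.1 v hv z).1 f1)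
  have cm : ∀ a ∈ A ⊓ C1[b], a * (b * v) = b * v * a := fun a ha => by
    rw [← mul_assoc, mem_centralizer_singleton_iff.1 ha.2, mul_assoc, ba.mul_comm A e.l a ha.1 v hvA,
      mul_assoc]
  have := core h ba bb e (b := b * v) (mul_mem hb fun w hw => ba.vcomm e w hw v hv)
    (fun l hl => ⟨(hL hl).1, by
      convert mul_mem (mul_mem (inv_mem hv) (hL hl).2) ((mem_normalizer_iff.1 (hL hl).1 _).1 hv)
        using 1; group⟩) h1.1 n1 h2.1 n2 n3 hc nc (cm a1 h1) (cm a2 h2) (by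
      have := (show Commute a1 (b * v) from cm a1 h1).inv_left.mul_left
        (show Commute (a1 * c) (b * v) from mul_inv_eq_iff_eq_mul.1 f0)
      rwa [inv_mul_cancel_left] at this)
  exact n ((C[A].mul_mem_cancel_right fun a ha => ba.mul_comm A e.l a ha v hvA).1 this)

omit h ba bb e in
/-- **L7** -/
theorem l7 : L7Stmt.{u} := fun _ h ba bb _ _ e _ => main h ba bb e

end Cfsg.Agent.H84.TL
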