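import Cfsg.Agent.H6.TIDefs
import Cfsg.Agent.H83.Syl
import Cfsg.Agent.H1.Card

/-! Weakly closed TI-subgroups: two large axes. -/

set_option autoImplicit false
set_option linter.unusedSectionVars false

namespace Cfsg.Agent.H84.TY

open Cfsg Subgroup Cfsg.Agent.H6.TI
open Cfsg.Agent.H83 (cj)
open scoped Cfsg.Agent.H63 commutatorElement

universe u

variable {G : Type u} [Group G] [Finite G] {Ω : Set (Subgroup G)} {A B B' : Subgroup G} {i y a : G}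

theorem idx_mul (H K : Subgroup G) : H.relIndex K * Nat.card (K ⊓ H : Subgroup G) = Nat.card K := by
  have := relIndex_mul_relIndex ⊥ (K ⊓ H) K bot_le inf_le_left
  rwa [relIndex_bot_left, relIndex_bot_left, inf_relIndex_left, mul_comm] at this

theorem conj_of_br {H : Subgroup G} (hi : i ∈ H) (e : ⁅i, y⁆ ∈ H) : y * i * y⁻¹ ∈ H := by
  convert mul_mem (inv_mem e) hi using 1; group

theorem mem_V (hy : y ∈ ax B' A) : y ∈ vv A B' := mem_sup_right hy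

variable (h : TI Ω) (b : BA Ω) (e : Mn Ω A B) (e' : Mn Ω A B')
include h b e e'

omit h e' in
theorem card_sup {I I' : Subgroup G} (h1 : I ≤ A) (h2 : I' ≤ A) :
    Nat.card (I ⊔ I' : Subgroup G) * Nat.card (I ⊓ I' : Subgroup G) = Nat.card I * Nat.card I' :=
  H1.card_sup_mul_card_inf_of_le_normalizer (H83.le_norm_of_le_cent fun x hx z hz =>
    b.mul_comm A e.l z (h2 hz) x (h1 hx))

omit e in
theorem cm (hi : i ∈ ax A B') (hy : y ∈ ax B' A) : i * y = y * i :=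
  b.comm A e'.l B' e'.r e'.ne i hi y hy

omit b e in
theorem not_A (hy : y ∈ ax B' A) (h1 : y ≠ 1) : y ∉ A := fun hA =>
  h1 (mem_bot.1 (h.ti A e'.l B' e'.r e'.ne ▸ mem_inf.2 ⟨hA, hy.1⟩))

omit h in
theorem ex_i (ne : ax A B ≠ ax A B') : ∃ i ∈ ax A B, i ∉ ax A B' := by
  by_contra! n
  exact ne (eq_of_le_of_card_ge n (b.mnq e' e).1.le)

theorem key (H : ∀ B₁, Mn Ω A B₁ → ax A B₁ ≤ ax A B ⊔ ax A B' → ax A B₁ ≠ ax A B →
      ax A B ⊔ ax A B₁ = ax A B ⊔ ax A B') (hi : i ∈ ax A B) (hi' : i ∉ ax A B')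
    (hy : y ∈ ax B' A) (c : ⁅i, y⁆ ∈ ax A B) : y ∈ N[ax A B] := by
  by_contra n
  have e1 := e.cjN h hy.2
  have h1 := (ax_cjN hy.2 B).1
  have h2 := H _ e1 (h1 ▸ map_le_iff_le_comap.2 fun x hx => conj_of_br (mem_sup_left hx)
    (mem_sup_right (b.brk e'.toEd x hx.1 y (mem_V hy)))) fun x => n (H83.cj_eq_self_iff.1 (h1 ▸ x))
  have h3 := card_sup b e (I := ax A B) (I' := ax A (cj y B)) ax_le ax_le
  have h4 := card_sup b e (I := ax A B) (I' := ax A B') ax_le ax_le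
  rw [h2, show Nat.card (ax A (cj y B)) = Nat.card (ax A B') from (b.mnq e1 e').1, ← h4] at h3
  have h5 : ax A B ⊓ ax A B' = ax A B ⊓ ax A (cj y B) := eq_of_le_of_card_ge
    (le_inf inf_le_left fun x hx => by
      have := H83.conj_mem_cj (g := y) hx.1
      rwa [← cm h b e' hx.2 hy, mul_inv_cancel_right, ← h1] at this)
    (Nat.eq_of_mul_eq_mul_left Nat.card_pos h3).le
  have h6 : y * i * y⁻¹ ∈ ax A B' :=
    (h5.ge (mem_inf.2 ⟨conj_of_br hi c, h1 ▸ H83.conj_mem_cj hi⟩)).2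
  have := cm h b e' h6 hy
  rw [inv_mul_cancel_right, mul_right_inj] at this
  exact hi' (this ▸ h6)

theorem card_K_le (ne : ax A B ≠ ax A B') (H : ∀ B₁, Mn Ω A B₁ → ax A B₁ ≤ ax A B ⊔ ax A B' →
    ax A B₁ ≠ ax A B → ax A B ⊔ ax A B₁ = ax A B ⊔ ax A B') :
    Nat.card (ax A B ⊓ ax A B' : Subgroup G) ≤ Nat.card (ax B' A ⊓ N[ax A B] : Subgroup G) := by
  obtain ⟨i, hi, hi'⟩ := ex_i b e e' ne
  choose f hf using fun k : (ax A B ⊓ ax A B' : Subgroup G) =>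
    (b.phi e'.toEd i hi.1 hi' k k.2.2).exists
  exact Nat.card_le_card_of_injective (β := (ax B' A ⊓ N[ax A B] : Subgroup G))
    (fun k => ⟨f k, (hf k).1, key h b e e' H hi hi' (hf k).1 ((hf k).2 ▸ k.2.1)⟩) fun k k' x =>
      Subtype.ext (by rw [← (hf k).2, ← (hf k').2, show f k = f k' from congrArg Subtype.val x])

theorem dy (ne : ax A B ≠ ax A B') (H : ∀ B₁, Mn Ω A B₁ → ax A B₁ ≤ ax A B ⊔ ax A B' →
    ax A B₁ ≠ ax A B → ax A B ⊔ ax A B₁ = ax A B ⊔ ax A B') :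
    N[ax A B].relIndex (ax B' A) ≤ (ax A B').relIndex (ax A B) := by
  refine Nat.le_of_mul_le_mul_right ?_ (Nat.card_pos (α := (ax A B ⊓ ax A B' : Subgroup G)))
  rw [idx_mul, show Nat.card (ax A B) = Nat.card (ax B' A) from
    (b.mnq e e').1.trans (b.card e'.toEd).1, ← idx_mul N[ax A B] (ax B' A)]
  exact Nat.mul_le_mul_left _ (card_K_le h b e e' ne H)

variable (sp : Sp Ω) (ne : ax A B ≠ ax A B')
include sp ne

omit h b in
theorem spH : ∀ B₁, Mn Ω A B₁ → ax A B₁ ≤ ax A B ⊔ ax A B' → ax A B₁ ≠ ax A B →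
    ax A B ⊔ ax A B₁ = ax A B ⊔ ax A B' := fun B₁ e1 _ n => by
  rw [sp A B B₁ e e1 n.symm, sp A B B' e e' ne]

theorem dec (ha : a ∈ A) (hy : y ∈ ax B' A) :
    ∃ i ∈ ax A B, (i ∈ ax A B' → a ∈ ax A B') ∧ ⁅a, y⁆ = ⁅i, y⁆ := by
  rw [← sp A B B' e e' ne, H83.mem_sup_right_norm (H83.le_norm_of_le_cent fun x hx z hz =>
    b.mul_comm A e.l z (mem_ax.1 hz).1 x (mem_ax.1 hx).1)] at ha
  obtain ⟨i, hi, j, hj, rfl⟩ := ha
  refine ⟨i, hi, fun x => mul_mem x hj, ?_⟩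
  calc _ = i * (j * y) * j⁻¹ * i⁻¹ * y⁻¹ := by group
    _ = _ := by rw [cm h b e' hj hy]; group

theorem yc (hy : y ∈ ax B' A) : y ∈ N[ax A B] ↔ ∀ a ∈ A, ⁅a, y⁆ ∈ ax A B :=
  ⟨fun n a ha => by
    obtain ⟨i, hi, -, x⟩ := dec h b e e' sp ne ha hy
    rw [x]
    convert mul_mem hi ((mem_normalizer_iff.1 n _).1 (inv_mem hi)) using 1; group,
  fun c => mem_normalizer_fintype fun i hi => conj_of_br hi (c i hi.1)⟩

theorem ymem (hy : y ∈ ax B' A) (ha : a ∈ A) (n : a ∉ ax A B') (c : ⁅a, y⁆ ∈ ax A B) :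
    y ∈ N[ax A B] := by
  obtain ⟨i, hi, hi', x⟩ := dec h b e e' sp ne ha hy
  exact key h b e e' (spH e e' sp ne) hi (fun z => n (hi' z)) hy (x ▸ c)

omit h in
theorem card_K : Nat.card (ax A B ⊓ ax A B' : Subgroup G) * qq A B = hh A B := by
  have := card_sup b e (I := ax A B) (I' := ax A B') ax_le ax_le
  rw [sp A B B' e e' ne, ← (b.hq e.toEd).1, show Nat.card (ax A B') = hh A B from (b.mnq e' e).1,
    mul_assoc, mul_comm (qq A B)] at this
  exact Nat.eq_of_mul_eq_mul_left Nat.card_pos this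

theorem card_Y :
    Nat.card (ax B' A ⊓ N[ax A B] : Subgroup G) = Nat.card (ax A B ⊓ ax A B' : Subgroup G) := by
  refine le_antisymm ?_ (card_K_le h b e e' ne (spH e e' sp ne))
  obtain ⟨i, hi, hi'⟩ := ex_i b e e' ne
  exact Nat.card_le_card_of_injective (β := (ax A B ⊓ ax A B' : Subgroup G))
    (fun y => ⟨⁅i, y.1⁆, (yc h b e e' sp ne y.2.1).1 y.2.2 i hi.1,
      b.brk e'.toEd i hi.1 _ (mem_V y.2.1)⟩) fun y y' x => Subtype.ext
    ((b.phi e'.toEd i hi.1 hi' _ (b.brk e'.toEd i hi.1 _ (mem_V y'.2.1))).unique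
      ⟨y.2.1, congrArg Subtype.val x⟩ ⟨y'.2.1, rfl⟩)

theorem q_le (lt : qq A B < hh A B) : qq A B ≤ Nat.card (ax B' A ⊓ N[ax A B] : Subgroup G) := by
  have hY := card_Y h b e e' sp ne
  obtain ⟨y, hy⟩ : ∃ y : (ax B' A ⊓ N[ax A B] : Subgroup G), y ≠ 1 := ne_bot_iff_exists_ne_one.1
    fun x => by rw [← card_K b e e' sp ne, ← hY, x, card_bot, one_mul] at lt; exact lt.false
  rw [hY, (b.mnq e e').2, ← b.brq e'.toEd y (mem_V y.2.1)
    (not_A h e' y.2.1 fun x => hy (Subtype.ext x))]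
  refine card_le_of_le fun x hx => ?_
  obtain ⟨a, ha, rfl⟩ := (b.mem_br A y x (b.mul_comm A e.l) y.2.1.2).1 hx
  exact ⟨(yc h b e e' sp ne y.2.1).1 y.2.2 a ha, b.brk e'.toEd a ha _ (mem_V y.2.1)⟩

theorem yidx (hy : y ∈ ax B' A) (h1 : y ≠ 1) (ha : a ∈ A) :
    C1[y * a].relIndex (ax A B) = qq A B := by
  have : ax A B ⊓ C1[y * a] = ax A B ⊓ ax A B' := Subgroup.ext fun i => and_congr_right fun hi => by
    refine mem_centralizer_singleton_iff.trans (.trans ?_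
      (b.cA e'.toEd i hi.1 y (mem_V hy) (not_A h e' hy h1)))
    rw [mul_assoc, ← b.mul_comm A e.l i hi.1 a ha, ← mul_assoc, ← mul_assoc, mul_left_inj]
  refine Nat.eq_of_mul_eq_mul_right (Nat.card_pos (α := (ax A B ⊓ ax A B' : Subgroup G))) ?_
  rw [mul_comm (qq A B), card_K b e e' sp ne, ← this, idx_mul, hh]

omit h b e e' sp ne in
/-- **YY** -/
theorem yy : YYStmt.{u} := fun _ h b =>
  { dy := fun e e' => dy h b e e'
    yc := fun sp _ _ _ e e' ne _ => yc h b e e' sp ne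
    ymem := fun sp _ _ _ e e' ne _ hy _ => ymem h b e e' sp ne hy
    ycard := fun sp _ _ _ e e' ne => ⟨by rw [card_Y h b e e' sp ne, card_K b e e' sp ne],
      card_K b e e' sp ne, q_le h b e e' sp ne⟩
    yidx := fun sp _ _ _ e e' ne _ hy h1 _ => yidx h b e e' sp ne hy h1
    ex := fun _ A B _ T₀ h2 h3 h4 B₀ e0 _ => by
      obtain ⟨T, hT, le⟩ := H83.exists_isSylowIn_ge (le_inf h3 h4) h2
      obtain ⟨n, hn, x⟩ := hT.exists_conj_le (P := ax B₀ A ⊓ N[ax A B])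
        (inf_le_inf_right _ ax_le_norm) ((b.two _ e0.r).to_le (inf_le_left.trans ax_le))
      refine ⟨n, hn.1, hn.2, T, hT.isPGroup, hT.le.trans inf_le_left, le, ?_⟩
      rwa [H83.cj_inf, ← (ax_cjN hn.1 B₀).2, H83.cj_eq_self (le_normalizer hn.2)] at x }

end Cfsg.Agent.H84.TY
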