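import Mathlib
import Cfsg.Agent.H42.VpDefs
import Cfsg.Agent.H24.PSolv

/-! A `p`-element fixing every class of a normal `p'`-subgroup centralises it. -/

set_option autoImplicit false

namespace Cfsg.Agent.H84.VpI2

open Subgroup Cfsg Cfsg.Agent.H42.Vp

universe u

theorem step {G : Type u} [Group G] [Finite G] {p : ℕ} (hp : p.Prime) (K : Subgroup G)
    [hKn : K.Normal] (x : G) (hK : (Nat.card K).Coprime p) (m : ℕ) (hm : x ^ p ^ m = 1)
    (h : ∀ k ∈ K, ∃ h ∈ K, x * k * x⁻¹ = h * k * h⁻¹) (k : G) (hk : k ∈ K) :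
    ∃ g ∈ K, x * (g * k * g⁻¹) * x⁻¹ = g * k * g⁻¹ := by
  haveI := Fact.mk hp
  let K' : Subgroup (MulAut G) := K.map MulAut.conj
  let X : Subgroup (MulAut G) := zpowers (MulAut.conj x)
  have hX : IsPGroup p X := by
    have h1 : orderOf (MulAut.conj x) ∣ p ^ m :=
      orderOf_dvd_of_pow_eq_one (by rw [← map_pow, hm, map_one])
    obtain ⟨j, -, hj⟩ := (Nat.dvd_prime_pow hp).1 h1
    exact IsPGroup.of_card (n := j) (by rw [Nat.card_zpowers, hj])
  have hone : ∀ y : G, (∃ g ∈ K, y = g * k * g⁻¹) → ∃ g ∈ K, x * y * x⁻¹ = g * k * g⁻¹ := by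
    rintro y ⟨g, hg, rfl⟩
    obtain ⟨t, ht, e⟩ := h k hk
    refine ⟨x * g * x⁻¹ * t, K.mul_mem (hKn.conj_mem g hg x) ht, ?_⟩
    calc x * (g * k * g⁻¹) * x⁻¹ = (x * g * x⁻¹) * (x * k * x⁻¹) * (x * g * x⁻¹)⁻¹ := by group
      _ = _ := by rw [e]; group
  have hpow : ∀ (n : ℕ) (y : G), (∃ g ∈ K, y = g * k * g⁻¹) →
      ∃ g ∈ K, ((MulAut.conj x) ^ n) y = g * k * g⁻¹ := by
    intro n
    induction n with
    | zero => intro y hy; simpa using hy
    | succ n ih =>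
      intro y hy
      rw [pow_succ', MulAut.mul_apply, MulAut.conj_apply]
      exact hone _ (ih y hy)
  let S : SubMulAction X G :=
    { carrier := {y | ∃ g ∈ K, y = g * k * g⁻¹}
      smul_mem' := by
        rintro ⟨c, hc⟩ y hy
        obtain ⟨n, rfl⟩ := (Submonoid.mem_powers_iff _ _).1 (mem_powers_iff_mem_zpowers.2 hc)
        exact hpow n y hy }
  have hS : (S : Set G) = MulAction.orbit K' k := by
    ext y
    constructor
    · rintro ⟨g, hg, rfl⟩
      exact ⟨⟨MulAut.conj g, mem_map_of_mem _ hg⟩, rfl⟩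
    · rintro ⟨⟨c, g, hg, rfl⟩, rfl⟩
      exact ⟨g, hg, rfl⟩
  have hcard : Nat.card S ∣ Nat.card K := by
    have e1 : Nat.card S = (MulAction.orbit K' k).ncard := by
      rw [← hS]; rfl
    rw [e1, ← MulAction.index_stabilizer]
    exact (index_dvd_card _).trans (card_map_dvd _ _)
  have hnd : ¬ p ∣ Nat.card S := fun hd =>
    (Nat.Prime.coprime_iff_not_dvd hp).1 hK.symm (hd.trans hcard)
  obtain ⟨⟨y, g, hg, rfl⟩, hy⟩ := hX.nonempty_fixed_point_of_prime_not_dvd_card S hnd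
  refine ⟨g, hg, ?_⟩
  have := hy ⟨MulAut.conj x, mem_zpowers _⟩
  exact congrArg Subtype.val this

theorem i2 : I2Stmt.{u} := by
  intro G _ _ p hp K _ x hK ⟨m, hm⟩ h
  have htop : (centralizer ({x} : Set G)).subgroupOf K = ⊤ := by
    apply H24.eq_top_of_forall_conj_mem
    rintro ⟨k, hk⟩
    obtain ⟨g, hg, e⟩ := step hp K x hK m hm h k hk
    refine ⟨⟨g, hg⟩⁻¹, ?_⟩
    rw [mem_subgroupOf, mem_centralizer_singleton_iff, inv_inv]
    show g * k * g⁻¹ * x = x * (g * k * g⁻¹)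
    rw [← mul_inv_eq_iff_eq_mul.1 e]
  rw [subgroupOf_eq_top] at htop
  intro k hk
  exact mem_centralizer_singleton_iff.1 (htop hk)

end Cfsg.Agent.H84.VpI2
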